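import Cfsg.Agent.Lib.TZ.MSc

set_option autoImplicit false
set_option linter.unusedSectionVars false
set_option linter.unusedVariables false

namespace CfsgLib.TZ

open Subgroup Cfsg CfsgLib.FT CfsgLib.FT.BGN CfsgLib.GW CfsgLib.Wal
open CfsgLib.FT.U4 (mem_cent1 mem_cent1' mem_cent mem_cent1_comm cent1_conj conj_mem_conj_iff
  orderOf_conj)
open scoped commutatorElement

variable {X : Type*} [Group X] [Finite X] {V M R B : Subgroup X}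

namespace Se

theorem nm {g x : X} {H : Subgroup X} (hg : g ∈ 𝐍(H)) (h : x ∈ H) : g * x * g⁻¹ ∈ H :=
  (mem_normalizer_iff.1 hg x).1 h

theorem cmem {H : Subgroup X} {v t : X} (hv : v ∈ H) (ht : t ∈ 𝐍(H)) : ⁅v, t⁆ ∈ H := by
  have := H.mul_mem hv (nm ht (H.inv_mem hv))
  simpa only [commutatorElement_def, mul_assoc] using this

theorem cmul (hV : El V) {v w t : X} (hv : v ∈ V) (hw : w ∈ V) (ht : t ∈ 𝐍(V)) :
    ⁅v * w, t⁆ = ⁅v, t⁆ * ⁅w, t⁆ := by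
  have h1 : ⁅v * w, t⁆ = v * ⁅w, t⁆ * v⁻¹ * ⁅v, t⁆ := by
    simp only [commutatorElement_def]; group
  rw [h1, hV.comm hv (cmem hw ht), mul_inv_cancel_right, hV.comm (cmem hw ht) (cmem hv ht)]

theorem c1 {v t : X} (h : v ∈ 𝐂[t]) : ⁅v, t⁆ = 1 :=
  commutatorElement_eq_one_iff_mul_comm.2 (mem_cent1.1 h)

theorem of_c1 {v t : X} (h : ⁅v, t⁆ = 1) : v ∈ 𝐂[t] :=
  mem_cent1.2 (commutatorElement_eq_one_iff_mul_comm.1 h)

theorem ccj {g v t : X} (h : g ∈ 𝐂[t]) : g * ⁅v, t⁆ * g⁻¹ = ⁅g * v * g⁻¹, t⁆ := by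
  have h1 : g * ⁅v, t⁆ * g⁻¹ = ⁅g * v * g⁻¹, g * t * g⁻¹⁆ := by
    simp only [commutatorElement_def]; group
  rw [h1, U4.conj_eq_of_mem_cent1 h]

theorem cinv (hV : El V) {v t : X} (hv : v ∈ V) (ht : t ∈ 𝐍(V)) (h2 : t * t = 1) :
    ⁅⁅v, t⁆, t⁆ = 1 := by
  have h1 : ⁅⁅v, t⁆, t⁆ = ⁅v, t⁆ * (t * ⁅v, t⁆⁻¹ * t⁻¹) := by
    simp only [commutatorElement_def]; group
  have h3 : t * ⁅v, t⁆⁻¹ * t⁻¹ = (t * t) * v * (t * t)⁻¹ * (t * v⁻¹ * t⁻¹) := by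
    simp only [commutatorElement_def]; group
  rw [h1, h3, h2, one_mul, inv_one, mul_one]
  have h4 := hV _ (cmem hv ht)
  simpa only [commutatorElement_def, mul_assoc] using h4

theorem cswap (hV : El V) {v s t : X} (hv : v ∈ V) (hs : s ∈ 𝐍(V)) (ht : t ∈ 𝐍(V))
    (h : t ∈ 𝐂[s]) : ⁅⁅v, s⁆, t⁆ = ⁅⁅v, t⁆, s⁆ := by
  have h1 : ⁅⁅v, s⁆, t⁆ = ⁅v, s⁆ * (t * ⁅v, s⁆ * t⁻¹)⁻¹ := by
    simp only [commutatorElement_def]; group
  have h2 : ⁅v, t⁆ = v * (t * v * t⁻¹)⁻¹ := by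
    simp only [commutatorElement_def]; group
  rw [h1, ccj h, h2, cmul hV hv (V.inv_mem (nm ht hv)) hs, hV.inv (nm ht hv),
    hV.inv (cmem (nm ht hv) hs)]

/-- The map `v ↦ ⁅v, t⁆`. -/
def cm (hV : El V) {t : X} (ht : t ∈ 𝐍(V)) : V →* X :=
  MonoidHom.mk' (fun v => ⁅(v : X), t⁆) fun v w => cmul hV v.2 w.2 ht

theorem card_range (hV : El V) {t : X} (ht : t ∈ 𝐍(V)) :
    Nat.card (cm hV ht).range = 𝐂[t].relIndex V := by
  rw [← index_ker, relIndex]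
  congr 1
  ext v
  exact ⟨fun h => of_c1 h, fun h => c1 h⟩

theorem card_zp {z : X} (h : z * z = 1) : Nat.card (zpowers z) ≤ 2 := by
  rw [Nat.card_zpowers]
  exact Nat.le_of_dvd two_pos (orderOf_dvd_of_pow_eq_one (by rw [pow_two, h]))

theorem tr {U : Subgroup X} {f a v : X} (ho : Odd (orderOf f)) (hi : a * f * a⁻¹ = f⁻¹)
    (h0 : U ⊓ 𝐂[f] = ⊥) (hv : v ∈ U) (h1 : v ∈ 𝐂[a]) (h2 : f * v * f⁻¹ ∈ 𝐂[a]) : v = 1 := by
  have h3 : a * v * a⁻¹ = v := U4.conj_eq_of_mem_cent1 (mem_cent1_comm.1 h1)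
  have h4 : a * (f * v * f⁻¹) * a⁻¹ = f * v * f⁻¹ := U4.conj_eq_of_mem_cent1 (mem_cent1_comm.1 h2)
  have h5 : a * (f * v * f⁻¹) * a⁻¹ = (a * f * a⁻¹) * (a * v * a⁻¹) * (a * f * a⁻¹)⁻¹ := by group
  rw [h5, hi, h3] at h4
  have h6 : f * f ∈ 𝐂[v] := by
    rw [mem_cent1]
    calc f * f * v = f * (f * v * f⁻¹) * f := by group
      _ = v * (f * f) := by rw [← h4]; group
  obtain ⟨k, hk⟩ := ho
  have h7 : f ∈ 𝐂[v] := by
    have h8 := pow_mem h6 (k + 1)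
    rwa [← pow_two, ← pow_mul, show 2 * (k + 1) = orderOf f + 1 by omega, pow_succ,
      pow_orderOf_eq_one, one_mul] at h8
  exact mem_bot.1 (h0.le ⟨hv, mem_cent1_comm.1 h7⟩)

end Se

open Se

theorem MS.sc' (h : MS V M R B) {A I W : Subgroup X} (hA : El A) (hAM : A ≤ M) (h1 : A ≠ ⊥)
    (hI : I ≤ 𝐂(A)) (hIW : I ≤ W) (hW : W ≤ V) (hne : W ≠ V)
    (h2 : ∀ w ∈ W, ∀ t ∈ A, ⁅w, t⁆ ∈ I)
    (h3 : ∀ x ∈ V, ∀ t ∈ A, t ≠ 1 → ⁅x, t⁆ ∈ I → x ∈ W)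
    (h4 : ∀ x ∈ V, x ∉ W → ∀ w ∈ W, ∃ t ∈ A, w⁻¹ * ⁅x, t⁆ ∈ I) : False := by
  have hV := h.el
  have hAV : A ≤ 𝐍(V) := hAM.trans h.MV
  have hI1 : ∀ i ∈ I, ∀ t ∈ A, i ∈ 𝐂[t] := fun i hi t ht =>
    mem_cent1.2 (mem_cent.1 (hI hi) t ht).symm
  have hVW : ∀ x ∈ V, ∀ t ∈ A, ⁅x, t⁆ ∈ W := by
    intro x hx t ht
    by_cases e : t = 1
    · rw [e, commutatorElement_one_right]; exact W.one_mem
    · refine h3 _ (cmem hx (hAV ht)) t ht e ?_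
      rw [cinv hV hx (hAV ht) (hA t ht)]; exact I.one_mem
  -- the commutators of `W` are double commutators of any `x ∉ W`
  have hk : ∀ x ∈ V, x ∉ W → ∀ w ∈ W, ∃ t ∈ A, ∀ s ∈ A, ⁅w, s⁆ = ⁅⁅x, t⁆, s⁆ := by
    intro x hx hxW w hw
    obtain ⟨t, ht, e⟩ := h4 x hx hxW w hw
    refine ⟨t, ht, fun s hs => ?_⟩
    have := cmul hV (hW hw) (hW (hIW e)) (hAV hs)
    rw [mul_inv_cancel_left, c1 (hI1 _ e s hs), mul_one] at this
    exact this.symm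
  obtain ⟨a, ha, ha1⟩ := (A.bot_or_exists_ne_one).resolve_left h1
  obtain ⟨f, hfF, hp, hp2, hi, hd⟩ := h.exists_f hA hAM ha ha1
  have hfM : f ∈ M := fittingOf_le M hfF
  have ho : Odd (orderOf f) := hp.odd_of_ne_two hp2
  obtain ⟨k1, k2⟩ := h.split hfM ho
  have hfV : f ∈ 𝐍(V) := h.MV hfM
  have hAf : ∀ t ∈ A, t * f * t⁻¹ = f ∨ t * f * t⁻¹ = f⁻¹ := by
    intro t ht
    rcases hd t ht with e | e
    · exact Or.inl (U4.conj_eq_of_mem_cent1 e)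
    · refine Or.inr ?_
      have e1 := U4.conj_eq_of_mem_cent1 e
      have e2 : a⁻¹ = a := hA.inv ha
      calc t * f * t⁻¹ = a⁻¹ * (a * t * f * (a * t)⁻¹) * a := by group
        _ = a * f * a⁻¹ := by rw [e1, e2]
        _ = f⁻¹ := hi
  have hAz : A ≤ 𝐍(zpowers f) := by
    intro t ht
    refine CfsgLib.mem_normalizer_of_map_conj_eq ?_
    rw [MonoidHom.map_zpowers]
    change zpowers (t * f * t⁻¹) = _
    rcases hAf t ht with e | e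
    · rw [e]
    · rw [e, zpowers_inv]
  have hnc : ∀ g ∈ 𝐍(V), g ∈ 𝐍(zpowers f) → g ∈ 𝐍(⁅V, zpowers f⁆) := fun g g1 g2 =>
    CfsgLib.mem_normalizer_of_map_conj_eq (by
      rw [map_commutator, CfsgLib.map_conj_eq_of_mem_normalizer g1,
        CfsgLib.map_conj_eq_of_mem_normalizer g2])
  have hAY : A ≤ 𝐍(V ⊓ 𝐂[f]) := by
    intro t ht
    refine mem_normalizer_of_conj_mem fun y hy => ⟨nm (hAV ht) hy.1, ?_⟩
    have e : y ∈ 𝐂(zpowers f) := by rw [H1.centralizer_zpowers']; exact hy.2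
    have e2 := nm (U4.norm_le_norm_cent _ (hAz ht)) e
    rwa [H1.centralizer_zpowers'] at e2
  have hfU : f ∈ 𝐍(⁅V, zpowers f⁆) := hnc f hfV (le_normalizer (mem_zpowers f))
  have hAU : A ≤ 𝐍(⁅V, zpowers f⁆) := fun t ht => hnc t (hAV ht) (hAz ht)
  have hUV : ⁅V, zpowers f⁆ ≤ V := le_sup_left.trans k2.le
  generalize ⁅V, zpowers f⁆ = U at k1 k2 hfU hAU hUV
  have hUY : ∀ v ∈ U, v ∈ V ⊓ 𝐂[f] → v = 1 := fun v e1 e2 => mem_bot.1 (k1.le ⟨e1, e2.2⟩)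
  have hdec : ∀ v ∈ V, ∃ u ∈ U, ∃ y ∈ V ⊓ 𝐂[f], u * y = v := fun v hv =>
    (mem_sup_iff_of_le_normalizer' (inf_le_left.trans (hV.le_norm hUV))).1 (k2.ge hv)
  obtain ⟨x, hxU, hxW⟩ : ∃ x ∈ U, x ∉ W := by
    by_contra hn
    push Not at hn
    obtain ⟨y, hy, hyW⟩ : ∃ y ∈ V ⊓ 𝐂[f], y ∉ W := by
      by_contra hn2
      push Not at hn2
      exact hne (le_antisymm hW (k2.ge.trans (sup_le hn hn2)))
    have e1 : ∀ u ∈ U, u ∈ 𝐂[a] := by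
      intro u hu
      obtain ⟨t, ht, e⟩ := hk y hy.1 hyW u (hn u hu)
      refine of_c1 (hUY _ (cmem hu (hAU ha)) ?_)
      rw [e a ha]
      exact cmem (cmem hy (hAY ht)) (hAY ha)
    have e2 : U = ⊥ := le_bot_iff.1 fun u hu =>
      mem_bot.2 (tr ho hi k1 hu (e1 u hu) (e1 _ (nm hfU hu)))
    rw [e2, bot_sup_eq] at k2
    have e3 : f = 1 := mem_bot.1 (h.faith.le ⟨hfM, mem_cent.2 fun v hv =>
      mem_cent1.1 (k2.ge hv).2⟩)
    rw [e3, orderOf_one] at hp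
    exact Nat.not_prime_one hp
  have hx : x ∈ V := hUV hxU
  by_cases hs : ∀ s ∈ A, s ∈ 𝐂[f] → s = 1
  · have hA2 : ∀ t ∈ A, t = 1 ∨ t = a := by
      intro t ht
      rcases hd t ht with e | e
      · exact Or.inl (hs t ht e)
      · refine Or.inr ?_
        rw [← hA.inv ha]
        exact eq_inv_of_mul_eq_one_right (hs _ (A.mul_mem ha ht) e)
    have e1 : ∀ w ∈ W, ⁅w, a⁆ = 1 := by
      intro w hw
      obtain ⟨t, ht, e⟩ := hk x hx hxW w hw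
      rw [e a ha]
      rcases hA2 t ht with rfl | rfl
      · rw [commutatorElement_one_right, commutatorElement_one_left]
      · exact cinv hV hx (hAV ht) (hA t ht)
    have e2 : (cm hV (hAV ha)).range ≤ zpowers ⁅x, a⁆ := by
      rintro _ ⟨y, rfl⟩
      change ⁅(y : X), a⁆ ∈ _
      by_cases hy : (y : X) ∈ W
      · rw [e1 y hy]; exact one_mem _
      · obtain ⟨t, ht, e⟩ := h4 x hx hxW _ (hVW y y.2 a ha)
        rcases hA2 t ht with rfl | rfl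
        · rw [commutatorElement_one_right, mul_one, inv_mem_iff] at e
          exact absurd (h3 y y.2 a ha ha1 e) hy
        · rw [hV.inv (cmem y.2 (hAV ha)), ← cmul hV y.2 hx (hAV ha)] at e
          have e3 := e1 _ (h3 _ (V.mul_mem y.2 hx) t ha ha1 e)
          rw [cmul hV y.2 hx (hAV ha)] at e3
          rw [eq_inv_of_mul_eq_one_left e3]
          exact inv_mem (mem_zpowers _)
    have e3 := (card_le_of_le e2).trans (card_zp (hV _ (cmem hx (hAV ha))))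
    rw [card_range] at e3
    have := h.d3 (hAM ha) (hA a ha) ha1
    omega
  push Not at hs
  obtain ⟨s, hsA, hsf, hs1⟩ := hs
  have hfs : f ∈ 𝐂[s] := mem_cent1_comm.1 hsf
  have hWU : ∀ w ∈ W, ∀ t ∈ A, ⁅w, t⁆ ∈ U := by
    intro w hw t ht
    obtain ⟨r, hr, e⟩ := hk x hx hxW w hw
    rw [e t ht]
    exact cmem (cmem hxU (hAU hr)) (hAU ht)
  by_cases hY : V ⊓ 𝐂[f] ≤ W
  swap
  · obtain ⟨y, hy, hyW⟩ := SetLike.not_le_iff_exists.1 hY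
    have e1 : ∀ w ∈ W, w ∈ 𝐂[a] := by
      intro w hw
      obtain ⟨t, ht, e⟩ := hk y hy.1 hyW w hw
      refine of_c1 (hUY _ (hWU w hw a ha) ?_)
      rw [e a ha]
      exact cmem (cmem hy (hAY ht)) (hAY ha)
    refine hxW (h3 x hx s hsA hs1 ?_)
    rw [tr ho hi k1 (cmem hxU (hAU hsA)) (e1 _ (hVW x hx s hsA)) (by
      rw [ccj hfs]; exact e1 _ (hVW _ (nm hfV hx) s hsA))]
    exact I.one_mem
  have e1 : ∀ r ∈ A, r ∈ 𝐂[f] → ⁅⁅x, r⁆, s⁆ = 1 := by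
    intro r hr hrf
    refine tr ho hi k1 (cmem (cmem hxU (hAU hr)) (hAU hsA))
      (hI1 _ (h2 _ (hVW x hx r hr) s hsA) a ha) ?_
    rw [ccj hfs, ccj (mem_cent1_comm.1 hrf)]
    exact hI1 _ (h2 _ (hVW _ (nm hfV hx) r hr) s hsA) a ha
  have has : a ∈ 𝐂[s] := hA.le_cent1 hsA ha
  have e2 : ∀ w ∈ W, ⁅w, s⁆ ∈ zpowers ⁅⁅x, a⁆, s⁆ := by
    intro w hw
    obtain ⟨t, ht, e⟩ := hk x hx hxW w hw
    rw [e s hsA]
    rcases hd t ht with e3 | e3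
    · rw [e1 t ht e3]; exact one_mem _
    · have e4 : ⁅x, t⁆ = ⁅x, a⁆ * (a * ⁅x, a * t⁆ * a⁻¹) := by
        conv_lhs => rw [show t = a * (a * t) by rw [← mul_assoc, hA a ha, one_mul]]
        simp only [commutatorElement_def]; group
      have hat := A.mul_mem ha ht
      rw [e4, cmul hV (cmem hx (hAV ha)) (nm (hAV ha) (cmem hx (hAV hat))) (hAV hsA), ← ccj has,
        e1 _ hat e3, mul_one, mul_inv_cancel, mul_one]
      exact mem_zpowers _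
  have hZU : (cm hV (hAV hsA)).range ≤ U := by
    rintro _ ⟨v, rfl⟩
    change ⁅(v : X), s⁆ ∈ U
    obtain ⟨u, hu, y, hy, e⟩ := hdec v v.2
    rw [← e, cmul hV (hUV hu) hy.1 (hAV hsA)]
    exact U.mul_mem (cmem hu (hAU hsA)) (hWU y (hY hy) s hsA)
  have hZn : ∀ g ∈ 𝐍(V), g ∈ 𝐂[s] → g ∈ 𝐍((cm hV (hAV hsA)).range) := by
    intro g g1 g2
    refine mem_normalizer_of_conj_mem ?_
    rintro _ ⟨v, rfl⟩
    exact ⟨⟨_, nm g1 v.2⟩, (ccj g2).symm⟩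
  obtain ⟨k3, k4⟩ := h.free ho (hA a ha) hi (hZU.trans hUV)
    (le_bot_iff.1 ((inf_le_inf_right _ hZU).trans k1.le)) (hZn f hfV hfs) (hZn a (hAV ha) has)
  have e3 : ⁅(cm hV (hAV hsA)).range, zpowers a⁆ ≤ zpowers ⁅⁅x, a⁆, s⁆ := by
    refine commutator_le.2 ?_
    rintro _ ⟨v, rfl⟩ t ht
    rcases mem_zpowers_of_sq (hA a ha) ht with rfl | rfl
    · rw [commutatorElement_one_right]; exact one_mem _
    · change ⁅⁅(v : X), s⁆, t⁆ ∈ _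
      rw [cswap hV v.2 (hAV hsA) (hAV ha) has]
      exact e2 _ (hVW v v.2 t ha)
  have e4 := (card_le_of_le e3).trans (card_zp (hV _ (cmem (cmem hx (hAV ha)) (hAV hsA))))
  rw [k4] at e4
  rw [card_range] at k3
  have e5 := h.d3 (hAM hsA) (hA s hsA) hs1
  have e6 := Nat.pow_le_pow_left e4 2
  omega

end CfsgLib.TZ
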