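import Cfsg.Agent.Lib.TZ.MSq
import Cfsg.Agent.Lib.TZ.MSe

set_option autoImplicit false

namespace CfsgLib.TZ

open Subgroup Cfsg CfsgLib.FT CfsgLib.FT.BGN CfsgLib.GW CfsgLib.Wal
open CfsgLib.FT.U4 (mem_cent1 mem_cent1' mem_cent mem_cent1_comm cent1_conj conj_mem_conj_iff
  orderOf_conj)
open scoped commutatorElement

variable {X : Type*} [Group X] [Finite X] {V M R B : Subgroup X}

theorem MS.q1 (h : MS V M R B) {A : Subgroup X} (hA : El A) (hAM : A ≤ M) (h1 : A ≠ ⊥) :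
    2 * Nat.card A < (𝐂(A)).relIndex V := h.q1' A hA hAM h1

theorem MS.qi (h : MS V M R B) {A : Subgroup X} (h1 : A ≤ M)
    (h2 : ∀ v ∈ V, ∀ b ∈ A, ∀ b' ∈ A, ⁅⁅v, b⁆, b'⁆ = 1) {r r' : X} (hr : r ∈ A) (hr' : r' ∈ A)
    (h3 : ⁅V, zpowers r⁆ = ⁅V, zpowers r'⁆) : r = r' := h.qi' h1 h2 hr hr' h3

theorem MS.sc (h : MS V M R B) {A I W : Subgroup X} (hA : El A) (hAM : A ≤ M) (h1 : A ≠ ⊥)
    (hI : I ≤ 𝐂(A)) (hIW : I ≤ W) (hW : W ≤ V) (hne : W ≠ V)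
    (h2 : ∀ w ∈ W, ∀ t ∈ A, ⁅w, t⁆ ∈ I)
    (h3 : ∀ x ∈ V, ∀ t ∈ A, t ≠ 1 → ⁅x, t⁆ ∈ I → x ∈ W)
    (h4 : ∀ x ∈ V, x ∉ W → ∀ w ∈ W, ∃ t ∈ A, w⁻¹ * ⁅x, t⁆ ∈ I) : False :=
  h.sc' hA hAM h1 hI hIW hW hne h2 h3 h4

end CfsgLib.TZ
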