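import Cfsg.Agent.Lib.TG.Br
import Cfsg.Agent.Lib.TZ.MSd

set_option autoImplicit false
set_option linter.unusedSectionVars false
set_option linter.unusedVariables false

namespace CfsgLib.TZ

open Subgroup Cfsg CfsgLib.FT CfsgLib.FT.BGN CfsgLib.GW CfsgLib.Wal CfsgLib.TG
open CfsgLib.FT.U4 (mem_cent1 mem_cent1' mem_cent mem_cent1_comm cent1_conj conj_mem_conj_iff
  orderOf_conj)
open scoped commutatorElement

variable {X : Type*} [Group X] [Finite X] {P T : Subgroup X} {𝔄 : Subgroup (MulAut X)}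

open CfsgLib.TG.Br

theorem TS.inv_Om (hT : TS P 𝔄 T) : Inv 𝔄 (Om T) := fun σ hσ => by rw [am_Om, hT.inv σ hσ]

theorem TC.le_norm (h : TC P 𝔄) {D : Subgroup X} (hD : Inv 𝔄 D) : P ≤ 𝐍(D) := fun p hp =>
  mem_norm_of_cj (hD _ (h.inn p (le_normalizer hp)))

theorem TS.P_le (h : TC P 𝔄) (hT : TS P 𝔄 T) : P ≤ 𝐍(Om T) := h.le_norm hT.inv_Om

theorem TS.inf_cent (h : TC P 𝔄) (hT : TS P 𝔄 T) : P ⊓ 𝐂(Om T) = T :=
  hT.syl.eq_of_le h.syl.isPGroup.to_inf_left (le_inf hT.le (le_cent_Om T)) inf_le_right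

theorem TC.norm_ne_top (h : TC P 𝔄) {Y : Subgroup X} (h0 : Y ≠ ⊥) (hY : Y ≤ 𝐂(Y)) :
    𝐍(Y) ≠ ⊤ := by
  intro e
  have := h.simple
  have hn : Y.Normal := normalizer_eq_top_iff.1 e
  rcases hn.eq_bot_or_eq_top with h1 | h1
  · exact h0 h1
  · subst h1
    exact h.nonab ⟨⟨fun a b => mem_cent.1 (hY (mem_top b)) a (mem_top a)⟩⟩

theorem TS.sol_norm (h : TC P 𝔄) (hT : TS P 𝔄 T) : Group.IsSolvable 𝐍(Om T) :=
  h.sol _ (h.norm_ne_top hT.ne (Om_el T).le_cent) fun σ hσ => by rw [am_norm, hT.inv_Om σ hσ]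

theorem TS.fixR (h : TC P 𝔄) (hT : TS P 𝔄 T) {p : X} (hp : p ∈ P)
    (h3 : ∀ σ ∈ 𝔄, p⁻¹ * σ p ∈ T) : p ∈ T := by
  obtain ⟨c, hc, h4⟩ := h.fixR T hT.le hT.inv p hp h3
  have h5 : c ∈ T := (hT.inf_cent h).le ⟨hc.1, cent_anti ((Om_le T).trans hT.le) hc.2⟩
  exact inv_mem_iff.1 ((mul_mem_cancel_right h5).1 h4)

theorem br_odd_lift {G G' : Type*} [Group G] [Finite G] [Group G'] (f : G →* G') {K : Subgroup G}
    (hs : Group.IsSolvable K) (ho : Odd (Nat.card (K.map f))) :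
    ∃ H : Subgroup G, H ≤ K ∧ Odd (Nat.card H) ∧ H.map f = K.map f := by
  obtain ⟨H, hH⟩ := Hall.exists_isPiHallOf hs {2}ᶜ
  refine ⟨H, hH.1, Nat.coprime_two_right.1 (coprime_iff_isPiSubgroup.2 hH.2.1),
    le_antisymm (map_mono hH.1) (relIndex_eq_one.1 ?_)⟩
  by_contra h1
  obtain ⟨p, hp, hd⟩ := Nat.exists_prime_and_dvd h1
  refine hH.2.2 p hp (fun e => ?_) (hd.trans ?_)
  · rw [Set.mem_singleton_iff.1 e] at hd
    exact (Nat.not_even_iff_odd.2 ho) (even_iff_two_dvd.2 (hd.trans (relIndex_dvd_card _ _)))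
  · rw [← relIndex_comap, comap_map_eq]
    exact relIndex_dvd_of_le_left _ le_sup_left

theorem br_comm_le {Y : Subgroup X} (A : Subgroup X) : ⁅vt Y Y, ht Y A⁆ ≤ vt Y ⁅Y, A⁆ := by
  refine commutator_le.2 ?_
  rintro _ ⟨y, -, rfl⟩ _ ⟨n, hn, rfl⟩
  rw [comm_io_ka y n (comm_mem y n), io_mem_vt]
  exact commutator_mem_commutator y.2 hn

theorem TS.ms (h : TC P 𝔄) (hT : TS P 𝔄 T) :
    MS (vt (Om T) (Om T)) (ht (Om T) 𝐍(Om T)) (ht (Om T) P) (bt (Om T) 𝔄) where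
  el := by
    rintro _ ⟨y, -, rfl⟩
    rw [← map_mul, show y * y = 1 from Subtype.ext (Om_el T y y.2), map_one]
  MV := by
    rintro _ ⟨n, -, rfl⟩
    refine mem_norm_of_cj_le ?_
    rintro _ ⟨_, ⟨y, -, rfl⟩, rfl⟩
    exact ⟨⟨_, norm_mem n.2 y.2⟩, norm_mem n.2 y.2, (ka_io n y).symm⟩
  faith := by
    refine le_bot_iff.1 ?_
    rintro _ ⟨⟨n, -, rfl⟩, hc⟩
    refine mem_bot.2 (ka_eq_one.2 (mem_cent.2 fun y hy => ?_))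
    exact (io_comm_ka (y := ⟨y, hy⟩).1 (mem_cent.1 hc _ (io_mem_vt.2 hy)).symm).symm
  sol := by
    have := hT.sol_norm h
    rw [ht, subgroupOf_self, ← MonoidHom.range_eq_map]
    exact Group.isSolvable_of_surjective (ka (Om T)).rangeRestrict_surjective
  red := by
    intro Q h1 h2 h3
    have h4 := hT.red ((Q.comap (ka (Om T))).map 𝐍(Om T).subtype) ?_ (map_subtype_le _) ?_ ?_
    · refine le_bot_iff.1 fun x hx => ?_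
      obtain ⟨n, -, rfl⟩ := h1 hx
      exact mem_bot.2 (ka_eq_one.2 (h4 ⟨n, hx, rfl⟩))
    · intro c hc
      refine ⟨⟨c, cent_le_norm _ hc⟩, ?_, rfl⟩
      rw [SetLike.mem_coe, mem_comap, ka_eq_one.2 hc]
      exact one_mem _
    · intro n hn
      refine mem_norm_of_cj_le ?_
      rintro _ ⟨_, ⟨m, hm, rfl⟩, rfl⟩
      refine ⟨⟨n, hn⟩ * m * ⟨n, hn⟩⁻¹, ?_, rfl⟩
      rw [SetLike.mem_coe, mem_comap, map_mul, map_mul, map_inv]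
      exact norm_mem (h3 ⟨⟨n, hn⟩, hn, rfl⟩) hm
    · rintro _ ⟨m, hm, rfl⟩
      obtain ⟨k, hk⟩ := h2 ⟨_, hm⟩
      refine ⟨k, ka_eq_one (n := m ^ 2 ^ k) |>.1 ?_⟩
      rw [map_pow]
      exact congrArg Subtype.val hk
  syl := ((h.syl.mono (hT.P_le h) le_top).subgroupOf le_rfl).map _
  BV := by
    rintro _ ⟨τ, -, rfl⟩
    refine mem_norm_of_cj_le ?_
    rintro _ ⟨_, ⟨y, -, rfl⟩, rfl⟩
    exact ⟨τ y, (τ y).2, (inr_io τ y).symm⟩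
  BM := bt_norm_ht hT.inv_Om fun σ hσ => by rw [am_norm, hT.inv_Om σ hσ]
  BR := bt_norm_ht hT.inv_Om h.inv
  fixV := by
    intro H h1 h2 v hv hb
    have hs := hT.sol_norm h
    obtain ⟨K, k1, k2, k3⟩ := br_odd_lift (ka (Om T)) (K := H.comap (ka (Om T))) inferInstance
      (by rwa [map_comap_eq_self (by
        rw [MonoidHom.range_eq_map, ← subgroupOf_self 𝐍(Om T)]; exact h1)])
    rw [map_comap_eq_self (by
      rw [MonoidHom.range_eq_map, ← subgroupOf_self 𝐍(Om T)]; exact h1)] at k3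
    have k4 : ht (Om T) (K.map 𝐍(Om T).subtype) = H := by
      rw [ht, subgroupOf, comap_map_eq_self_of_injective 𝐍(Om T).subtype_injective, k3]
    rw [← k4] at hv
    obtain ⟨y, hy, rfl⟩ := br_comm_le _ hv
    have h1 : (y : X) = 1 := by
      refine h.fixV (Om T) (K.map 𝐍(Om T).subtype) ((Om_le T).trans hT.le) (Om_el T) hT.inv_Om
        (map_subtype_le _) (by rwa [card_map_of_injective 𝐍(Om T).subtype_injective]) y hy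
        fun σ hσ => ?_
      obtain ⟨τ, h1, h2⟩ := exists_bt hσ (hT.inv_Om σ hσ)
      obtain ⟨_, ⟨n, -, rfl⟩, h3⟩ := hb _ ⟨τ, h1, rfl⟩
      rw [inr_io, ka_io] at h3
      exact ⟨n, n.2, (h2 y).symm.trans (congrArg Subtype.val (io_inj h3))⟩
    rw [show y = 1 from Subtype.ext h1, map_one]
  fixR := by
    rintro _ ⟨p, hp, rfl⟩ h2 hb
    have hp' : (p : X) ∈ P := hp
    refine ka_eq_one.2 (le_cent_Om T (hT.fixR h hp' fun σ hσ => ?_))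
    obtain ⟨τ, h3, h4⟩ := exists_bt hσ (hT.inv_Om σ hσ)
    have h5 : σ p ∈ P := by rw [← h.inv σ hσ]; exact am_mem.2 hp'
    have h6 := inr_ka h4 p (hT.P_le h h5)
    rw [U4.conj_eq_of_mem_cent1 (hb ⟨τ, h3, rfl⟩)] at h6
    refine (hT.inf_cent h).le
      ⟨P.mul_mem (P.inv_mem hp') h5, ka_eq_one (n := p⁻¹ * ⟨σ p, hT.P_le h h5⟩) |>.1 ?_⟩
    rw [map_mul, map_inv, ← h6, inv_mul_cancel]

/-- Transfer from the holomorph of `Om T`. -/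
theorem TS.q1 (h : TC P 𝔄) (hT : TS P 𝔄 T) (A : Subgroup X) (h1 : A ≤ 𝐍(Om T))
    (h2 : ∀ x ∈ A, x * x ∈ 𝐂(Om T)) (h3 : ¬ A ≤ 𝐂(Om T)) :
    2 * (𝐂(Om T)).relIndex A < (𝐂(A)).relIndex (Om T) := by
  have := (hT.ms h).q1 (ht_el h2) (ht_mono h1) (ht_ne_bot h1 h3)
  rwa [card_ht h1, relIndex_cent h1] at this

theorem TS.noK (h : TC P 𝔄) (hT : TS P 𝔄 T) : NoK 𝐍(Om T) (Om T) := by
  intro K Y0 h1 h2 h3
  rw [← relIndex_vt]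
  refine (hT.ms h).noK (ht _ K) (vt _ Y0) (ht_mono h1) ?_ ?_
  · rintro _ ⟨y, hy, rfl⟩
    exact ⟨io_mem_vt.2 y.2, (io_mem_cent h1).2 (h2 hy).2⟩
  · rintro _ ⟨y, -, rfl⟩ hy _ ⟨y', -, rfl⟩ hy'
    rw [io_mem_vt] at hy hy'
    obtain ⟨k, hk, v, hv, e⟩ := h3 y y.2 hy y' y'.2 hy'
    refine ⟨ka _ ⟨k, h1 hk⟩, ⟨_, hk, rfl⟩, io _ ⟨v, (h2 hv).1⟩, io_mem_vt.2 hv, ?_⟩
    rw [ka_io, ← map_mul]
    exact congrArg _ (Subtype.ext e)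

theorem TS.qi (h : TC P 𝔄) (hT : TS P 𝔄 T) (R : Subgroup X) (h1 : R ≤ 𝐍(Om T))
    (h2 : ∀ v ∈ Om T, ∀ b ∈ R, ∀ b' ∈ R, ⁅⁅v, b⁆, b'⁆ = 1) {r r' : X} (hr : r ∈ R) (hr' : r' ∈ R)
    (h3 : ⁅Om T, zpowers r⁆ = ⁅Om T, zpowers r'⁆) : r⁻¹ * r' ∈ 𝐂(Om T) := by
  have h4 := (hT.ms h).qi (A := ht _ R) (ht_mono h1) ?_ (r := ka _ ⟨r, h1 hr⟩)
    (r' := ka _ ⟨r', h1 hr'⟩) ⟨_, hr, rfl⟩ ⟨_, hr', rfl⟩ ?_
  · refine ka_eq_one (n := (⟨r, h1 hr⟩ : 𝐍(Om T))⁻¹ * ⟨r', h1 hr'⟩) |>.1 ?_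
    rw [map_mul, map_inv, h4, inv_mul_cancel]
  · rintro _ ⟨y, -, rfl⟩ _ ⟨b, hb, rfl⟩ _ ⟨b', hb', rfl⟩
    rw [comm_io_ka y b (comm_mem y b), comm_io_ka _ b' (comm_mem _ b'), ← map_one (io (Om T))]
    exact congrArg _ (Subtype.ext (h2 y y.2 b hb b' hb'))
  · rw [← ht_zpowers, ← ht_zpowers]
    exact le_antisymm (comm_le (zpowers_le.2 (h1 hr)) (zpowers_le.2 (h1 hr')) h3.le)
      (comm_le (zpowers_le.2 (h1 hr')) (zpowers_le.2 (h1 hr)) h3.ge)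

theorem TS.sc (h : TC P 𝔄) (hT : TS P 𝔄 T) (A I W : Subgroup X) (h1 : El A)
    (h2 : A ≤ 𝐍(Om T)) (h3 : I ≤ A) (h4 : I ≤ W) (h5 : W ≤ Om T) (h6 : W ≠ Om T) (h7 : ¬ A ≤ I)
    (h8 : ∀ w ∈ W, ∀ t ∈ A, ⁅w, t⁆ ∈ I)
    (h9 : ∀ x ∈ Om T, ∀ t ∈ A, t ∉ I → ⁅x, t⁆ ∈ I → x ∈ W)
    (h10 : ∀ x ∈ Om T, x ∉ W → ∀ w ∈ W, ∃ t ∈ A, w⁻¹ * ⁅x, t⁆ ∈ I) : False := by
  have hc : ¬ A ≤ 𝐂(Om T) := by
    intro hc
    obtain ⟨t, ht, htI⟩ := SetLike.not_le_iff_exists.1 h7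
    refine h6 (le_antisymm h5 fun x hx => h9 x hx t ht htI ?_)
    rw [commutatorElement_eq_one_iff_mul_comm.2 (mem_cent.1 (hc ht) x hx)]
    exact one_mem _
  refine (hT.ms h).sc (A := ht _ A) (I := vt _ I) (W := vt _ W)
    (ht_el fun x hx => h1 x hx ▸ one_mem _) (ht_mono h2) (ht_ne_bot h2 hc) ?_ (vt_mono h4)
    (vt_mono h5) ?_ ?_ ?_ ?_
  · rintro _ ⟨y, hy, rfl⟩
    exact (io_mem_cent h2).2 (h1.le_cent (h3 hy))
  · intro e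
    refine h6 (le_antisymm h5 fun x hx => ?_)
    exact io_mem_vt (y := ⟨x, hx⟩) |>.1 (e ▸ io_mem_vt.2 hx)
  · rintro _ ⟨w, hw, rfl⟩ _ ⟨t, ht, rfl⟩
    rw [comm_io_ka w t (comm_mem w t), io_mem_vt]
    exact h8 w hw t ht
  · rintro _ ⟨x, -, rfl⟩ _ ⟨t, ht, rfl⟩ h11 h12
    rw [comm_io_ka x t (comm_mem x t), io_mem_vt] at h12
    refine io_mem_vt.2 (h9 x x.2 t ht (fun htI => h11 ?_) h12)
    exact ka_eq_one.2 ((Om_el T).le_cent (h5 (h4 htI)))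
  · rintro _ ⟨x, -, rfl⟩ hx _ ⟨w, hw, rfl⟩
    rw [io_mem_vt] at hx
    obtain ⟨t, ht, h11⟩ := h10 x x.2 hx w hw
    refine ⟨ka _ ⟨t, h2 ht⟩, ⟨_, ht, rfl⟩, ?_⟩
    rw [comm_io_ka x _ (comm_mem x _), ← map_inv, ← map_mul, io_mem_vt]
    exact h11

end CfsgLib.TZ
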