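import Cfsg.Agent.Lib.CoprimeAut
import Cfsg.Agent.Lib.H5ClassGraph
import Cfsg.Agent.Lib.FT.Main
import Cfsg.Agent.Lib.ClassCount

/-! Invariant classes whose sizes split into two coprime families: the abelian normal subgroup. -/

set_option autoImplicit false

namespace CfsgLib.TZ.Cl

open Subgroup Cfsg CfsgLib.CopAut
open scoped commutatorElement Pointwise

variable {G : Type*} [Group G] [Finite G]

/-- class size -/
noncomputable abbrev ind (x : G) : ℕ := (centralizer ({x} : Set G)).index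

/-- the left stabilizer of a class -/
def St (b : G) : Subgroup G := MulAction.stabilizer G {y | IsConj b y}

instance St_normal (b : G) : (St b).Normal := ⟨fun s hs g => by
  refine Set.eq_of_subset_of_ncard_le ?_ (by rw [Set.ncard_smul_set])
  rintro _ ⟨y, hy, rfl⟩
  have h3 : IsConj b (s * (g⁻¹ * y * g⁻¹⁻¹)) :=
    hs.le ⟨_, IsConj.trans hy (isConj_iff.mpr ⟨g⁻¹, rfl⟩), rfl⟩
  exact h3.trans (isConj_iff.mpr ⟨g, by simp [mul_assoc]⟩)⟩

omit [Finite G] in
theorem St_conj {b s : G} (hs : s ∈ St b) : IsConj b (s * b) := hs.le ⟨_, IsConj.refl _, rfl⟩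

theorem card_St_dvd (b : G) : Nat.card (St b) ∣ ind b := by
  rw [ind, Frob.index_centralizer_eq_ncard]
  exact Frob.card_dvd_ncard_of_free (A := St b) _ (fun s x hx => s.2.le ⟨x, hx, rfl⟩)
    fun x _ s h => Subtype.ext (mul_eq_right.1 h)

theorem mem_St {a b : G} (h : (ind a).Coprime (ind b)) (hle : ind (a * b) ≤ ind b) (g : G) :
    a⁻¹ * (g * a * g⁻¹) ∈ St b := by
  rw [ind, ind, Frob.index_centralizer_eq_ncard, Frob.index_centralizer_eq_ncard] at hle
  have h1 : ∀ g : G, (g * a * g⁻¹) • {y | IsConj b y} = {y | IsConj (a * b) y} := fun g =>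
    Set.eq_of_subset_of_ncard_le (by
      rintro _ ⟨y, hy, rfl⟩
      obtain ⟨k, rfl⟩ := isConj_iff.mp hy
      exact H5.isConj_mul_of_coprime_index h g k) (by rwa [Set.ncard_smul_set])
  have h2 := h1 1
  simp only [one_mul, inv_one, mul_one] at h2
  rw [St, MulAction.mem_stabilizer_iff, mul_smul, h1, ← h2, inv_smul_smul]

theorem ind_mul_dvd {a b : G} (h : (ind a).Coprime (ind b)) : ind (a * b) ∣ ind a * ind b := by
  rw [← ClassCount.index_inf_of_coprime h]
  refine index_dvd_of_le fun x hx => mem_centralizer_singleton_iff.2 ?_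
  rw [← mul_assoc, mem_centralizer_singleton_iff.1 hx.1, mul_assoc,
    mem_centralizer_singleton_iff.1 hx.2, mul_assoc]

omit [Finite G] in
theorem ind_inv (a : G) : ind a⁻¹ = ind a := by
  rw [ind, ind]
  congr 1
  ext x
  rw [mem_centralizer_singleton_iff, mem_centralizer_singleton_iff]
  exact Commute.inv_right_iff

theorem ind_pos (a : G) : 0 < ind a := Nat.pos_of_ne_zero index_ne_zero_of_finite

variable {A : Type*} [Group A] [Finite A]

/-- the configuration -/
structure Sp (φ : A →* MulAut G) (X Y : G → Prop) (b : G) : Prop where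
  cop : (Nat.card A).Coprime (Nat.card G)
  cov : ∀ c ∈ fixed φ, c ∈ center G ∨ X c ∨ Y c
  hX : ∀ a, X a → a ∈ fixed φ ∧ a ∉ center G
  hY : ∀ a, Y a → a ∈ fixed φ ∧ a ∉ center G
  spl : ∀ a c, X a → Y c → (ind a).Coprime (ind c)
  hb : Y b
  max : ∀ c ∈ fixed φ, ind c ≤ ind b
  ne : ∃ a, X a

/-- the normal closure of the small classes -/
def N0 (X : G → Prop) : Subgroup G := normalClosure {a | X a}

instance N0_normal (X : G → Prop) : (N0 X).Normal := normalClosure_normal

namespace Sp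

variable {φ : A →* MulAut G} {X Y : G → Prop} {b : G} (h : Sp φ X Y b)
include h

omit [Finite A] in
theorem solv : Group.IsSolvable A ∨ Group.IsSolvable G := by
  by_cases e : Odd (Nat.card G)
  · exact Or.inr (FT.feit_thompson e)
  · have : Finite A := Nat.finite_of_card_ne_zero fun e0 => by
      have := h.cop
      rw [e0, Nat.coprime_zero_left] at this
      exact e (this ▸ odd_one)
    exact Or.inl (FT.feit_thompson (Nat.coprime_two_right.1 (Nat.Coprime.coprime_dvd_right
      (even_iff_two_dvd.1 (Nat.not_odd_iff_even.1 e)) h.cop)))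

omit [Finite A] [Finite G] in
theorem X_of {a c : G} (ha : X a) (hc : c ∈ fixed φ) (e : ¬ (ind a).Coprime (ind c)) : X c := by
  rcases h.cov c hc with h1 | h1 | h1
  · exact absurd (by rw [show ind c = 1 from Frob.index_centralizer_eq_one_iff.2 h1]; simp) e
  · exact h1
  · exact absurd (h.spl a c ha h1) e

omit [Finite A] [Finite G] in
theorem Y_of {a c : G} (ha : Y a) (hc : c ∈ fixed φ) (e : ¬ (ind c).Coprime (ind a)) : Y c := by
  rcases h.cov c hc with h1 | h1 | h1
  · exact absurd (by rw [show ind c = 1 from Frob.index_centralizer_eq_one_iff.2 h1]; simp) e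
  · exact absurd (h.spl c a h1 ha) e
  · exact h1

omit [Finite A] [Finite G] in
theorem X_inv {a : G} (ha : X a) : X a⁻¹ := h.X_of ha (inv_mem (h.hX a ha).1) fun e => by
  rw [ind_inv, Nat.coprime_self] at e
  exact (h.hX a ha).2 (Frob.index_centralizer_eq_one_iff.1 e)

omit [Finite A] in
theorem mem_S {a : G} (ha : X a) (g : G) : a⁻¹ * (g * a * g⁻¹) ∈ St b :=
  mem_St (h.spl a b ha h.hb) (h.max _ (mul_mem (h.hX a ha).1 (h.hY b h.hb).1)) g

omit [Finite A] in
theorem cop_S {a : G} (ha : X a) : (ind a).Coprime (Nat.card (St b)) :=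
  (h.spl a b ha h.hb).coprime_dvd_right (card_St_dvd b)

omit [Finite A] in
theorem N0_le_cent_S : N0 X ≤ centralizer (St b : Set G) :=
  normalClosure_le_normal fun a ha => by
    have : St b ≤ centralizer {a} := relIndex_eq_one.1 (Nat.eq_one_of_dvd_coprimes (h.cop_S ha)
      (Frob.relIndex_normal_dvd_index _ _) (relIndex_dvd_card _ _))
    exact fun s hs => mem_centralizer_singleton_iff.1 (this hs)

omit [Finite A] in
theorem N0_le_cent {a : G} (ha : X a) : N0 X ≤ centralizer {a} := by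
  let f : N0 X →* G := MonoidHom.mk' (fun x => a⁻¹ * (x * a * (x : G)⁻¹)) fun x y => by
    have := h.N0_le_cent_S x.2 _ (h.mem_S ha y)
    simp only [Subgroup.coe_mul]
    calc _ = a⁻¹ * (x * a) * (a⁻¹ * (y * a * (y : G)⁻¹) * (x : G)⁻¹) := by group
      _ = a⁻¹ * (x * a) * ((x : G)⁻¹ * (a⁻¹ * (y * a * (y : G)⁻¹) * x) * (x : G)⁻¹ * (x : G)⁻¹ * x) := by
          rw [this]; group
      _ = a⁻¹ * (x * a) * ((x : G)⁻¹ * (x * (a⁻¹ * (y * a * (y : G)⁻¹))) * (x : G)⁻¹ * (x : G)⁻¹ * x) := by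
          rw [this]
      _ = _ := by
          rw [show (x : G)⁻¹ * (x * (a⁻¹ * (y * a * (y : G)⁻¹))) * (x : G)⁻¹ * (x : G)⁻¹ * x =
            (x : G)⁻¹ * (x * (a⁻¹ * (y * a * (y : G)⁻¹))) * (x : G)⁻¹ by group, ← this]
          group
  have hk : f.ker = (centralizer {a}).subgroupOf (N0 X) := by
    ext x
    rw [MonoidHom.mem_ker, mem_subgroupOf, mem_centralizer_singleton_iff]
    change a⁻¹ * (x * a * (x : G)⁻¹) = 1 ↔ _
    rw [inv_mul_eq_one, eq_mul_inv_iff_mul_eq, eq_comm]
  refine relIndex_eq_one.1 (Nat.eq_one_of_dvd_coprimes (h.cop_S ha)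
    (Frob.relIndex_normal_dvd_index _ _) ?_)
  rw [relIndex, ← hk, index_ker]
  exact card_dvd_of_le (by rintro _ ⟨x, rfl⟩; exact h.mem_S ha x)

omit [Finite A] in
theorem N0_comm : N0 X ≤ centralizer (N0 X : Set G) :=
  normalClosure_le_normal fun _ ha _ hx => mem_centralizer_singleton_iff.1 (h.N0_le_cent ha hx)

omit [Finite A] in
theorem comm_S {n : G} (hn : n ∈ N0 X) (g : G) : n⁻¹ * (g * n * g⁻¹) ∈ St b := by
  have : N0 X ≤ (center (G ⧸ St b)).comap (QuotientGroup.mk' _) :=
    normalClosure_le_normal fun a ha => mem_center_iff.2 fun q => by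
      obtain ⟨g, rfl⟩ := QuotientGroup.mk'_surjective _ q
      have := (QuotientGroup.eq_one_iff _).2 (h.mem_S ha g)
      rw [← QuotientGroup.mk'_apply, map_mul, map_mul, map_mul, map_inv, map_inv, inv_mul_eq_one,
        eq_mul_inv_iff_mul_eq] at this
      exact this.symm
  have h1 := mem_center_iff.1 (this hn) (QuotientGroup.mk' _ g)
  rw [← QuotientGroup.eq_one_iff, ← QuotientGroup.mk'_apply, map_mul, map_mul, map_mul, map_inv,
    map_inv, h1]
  group

omit [Finite A] in
theorem Y_mul {n a : G} (hn : n ∈ N0 X) (hY : Y n) (ha : X a) : Y (n * a) := by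
  have h1 := h.spl a n ha hY
  refine h.Y_of hY (mul_mem (h.hY n hY).1 (h.hX a ha).1) fun e => (h.hY n hY).2 ?_
  have h2 : ind (n * a) ≤ ind a :=
    Nat.le_of_dvd (ind_pos a) (e.dvd_of_dvd_mul_left (ind_mul_dvd h1.symm))
  refine mem_center_iff.2 fun g => ?_
  have h3 : n⁻¹ * (g * n * g⁻¹) ∈ St a ⊓ St b := ⟨mem_St h1.symm h2 g, h.comm_S hn g⟩
  rw [inf_eq_bot_of_coprime ((h.cop_S ha).coprime_dvd_left (card_St_dvd a)), mem_bot,
    inv_mul_eq_one, eq_mul_inv_iff_mul_eq] at h3
  exact h3.symm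

omit [Finite A] in
theorem not_Y {n : G} (hn : n ∈ N0 X) : ¬ Y n := fun hY => by
  have key : ∀ x ∈ closure {a | X a}, ∀ m ∈ N0 X, Y m → Y (m * x) := fun x hx => by
    induction hx using closure_induction'' with
    | mem a ha => exact fun m hm h1 => h.Y_mul hm h1 ha
    | inv_mem a ha => exact fun m hm h1 => h.Y_mul hm h1 (h.X_inv ha)
    | one => exact fun m _ h1 => by rwa [mul_one]
    | mul x y hx _ h1 h2 =>
      exact fun m hm h3 => mul_assoc m x y ▸ h2 _ (mul_mem hm
        ((closure_le (N0 X)).2 subset_normalClosure hx)) (h1 m hm h3)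
  have h1 : ∀ a, X a → ∀ g, a⁻¹ * (g * a * g⁻¹) ∈ St n := fun a ha => by
    refine mem_St (h.spl a n ha hY) (Nat.le_of_dvd (ind_pos n) ?_)
    have e : a * n = n * a := (mem_centralizer_singleton_iff.1 (h.N0_le_cent ha hn)).symm
    refine Nat.Coprime.dvd_of_dvd_mul_left ?_ (ind_mul_dvd (h.spl a n ha hY))
    rw [e]
    exact (h.spl a _ ha (h.Y_mul hn hY ha)).symm
  have h2 : N0 X ≤ St n ⊔ closure {a | X a} := (closure_le _).2 fun y hy => by
    obtain ⟨a, ha, hy⟩ := Group.mem_conjugatesOfSet_iff.1 hy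
    obtain ⟨g, rfl⟩ := isConj_iff.1 hy
    simpa using mul_mem (mem_sup_right (subset_closure ha) : a ∈ St n ⊔ closure {a | X a})
      (mem_sup_left (h1 a ha g))
  obtain ⟨s, hs, x, hx, e⟩ := mem_sup_of_normal_left.1 (h2 hn)
  have h3 : IsConj n x := by
    have := St_conj (inv_mem hs)
    rwa [show s⁻¹ * n = x by rw [← e]; group] at this
  obtain ⟨g, hg⟩ := isConj_iff.1 h3
  have h4 : Y x := h.Y_of hY ((closure_le (fixed φ)).2 (fun a ha => (h.hX a ha).1) hx) fun e => by
    rw [← hg, ind, Frob.index_centralizer_conj, Nat.coprime_self] at e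
    exact (h.hY n hY).2 (Frob.index_centralizer_eq_one_iff.1 e)
  have h5 := key _ (inv_mem hx) x ((closure_le (N0 X)).2 subset_normalClosure hx) h4
  rw [mul_inv_cancel] at h5
  exact (h.hY 1 h5).2 (one_mem _)

end Sp

end CfsgLib.TZ.Cl
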