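import Cfsg.Agent.Lib.TG.Defs

/-!
# Variant of the project `TG` with central involutions upstairs: definitions

`TC`, `TS`, `MS` replace the structures of the same names of `TG/Defs`; everything else is shared.
-/

set_option autoImplicit false

namespace CfsgLib.TZ

open Subgroup Cfsg CfsgLib.FT CfsgLib.FT.BGN CfsgLib.GW CfsgLib.Wal CfsgLib.TG
open scoped commutatorElement

universe u

variable {X : Type*} [Group X]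

/-- The minimal counterexample. -/
structure TC (P : Subgroup X) (𝔄 : Subgroup (MulAut X)) : Prop where
  simple : IsSimpleGroup X
  nonab : ¬ IsMulCommutative X
  syl : IsSylowIn 2 P ⊤
  inv : Inv 𝔄 P
  inn : ∀ n ∈ 𝐍(P), MulAut.conj n ∈ 𝔄
  fixV : ∀ Y H : Subgroup X, Y ≤ P → El Y → Inv 𝔄 Y → H ≤ 𝐍(Y) → Odd (Nat.card H) →
    ∀ v ∈ ⁅Y, H⁆, (∀ σ ∈ 𝔄, ∃ g ∈ 𝐍(Y), σ v = g * v * g⁻¹) → v = 1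
  fixR : ∀ D : Subgroup X, D ≤ P → Inv 𝔄 D → ∀ p ∈ P, (∀ σ ∈ 𝔄, p⁻¹ * σ p ∈ D) →
    ∃ c ∈ P ⊓ 𝐂(P), p⁻¹ * c ∈ D
  fin : ∀ (E : Subgroup X) (u v f e : X), E ≤ P → El E → Inv 𝔄 E → u ∈ E → v ∈ P →
    f * u * f⁻¹ = v → f * v * f⁻¹ = u * v → u * v = v * u → e ∉ 𝐂[u] →
    (∀ σ ∈ 𝔄, σ u ≠ u → e ∈ 𝐂[σ u] ∧ u ∈ ⁅𝐂[σ u], 𝐂[σ u]⁆ ∧ v ∈ ⁅𝐂[σ u], 𝐂[σ u]⁆) → False
  sol : ∀ H : Subgroup X, H ≠ ⊤ → Inv 𝔄 H → Group.IsSolvable H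

/-- Copy of `TG.TS`. -/
structure TS (P : Subgroup X) (𝔄 : Subgroup (MulAut X)) (T : Subgroup X) : Prop where
  le : T ≤ P
  inv : Inv 𝔄 T
  ne : Om T ≠ ⊥
  syl : IsSylowIn 2 T 𝐂(Om T)
  red : Red (Om T)
  up : ∀ D : Subgroup X, D ≤ P → Inv 𝔄 D → 𝐍(T) ≤ 𝐍(D) → Om T ≤ Om D → 𝐍(D) ≤ 𝐍(Om T)

/-- `TG.MS` with a weaker `fixV`. -/
structure MS (V M R B : Subgroup X) : Prop where
  el : El V
  MV : M ≤ 𝐍(V)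
  faith : M ⊓ 𝐂(V) = ⊥
  sol : Group.IsSolvable M
  red : ∀ Q : Subgroup X, Q ≤ M → IsPGroup 2 Q → M ≤ 𝐍(Q) → Q = ⊥
  syl : IsSylowIn 2 R M
  BV : B ≤ 𝐍(V)
  BM : B ≤ 𝐍(M)
  BR : B ≤ 𝐍(R)
  fixV : ∀ H : Subgroup X, H ≤ M → Odd (Nat.card H) → ∀ v ∈ ⁅V, H⁆,
    (∀ b ∈ B, ∃ m ∈ M, b * v * b⁻¹ = m * v * m⁻¹) → v = 1
  fixR : ∀ t ∈ R, t * t = 1 → B ≤ 𝐂[t] → t = 1

/-- The strengthened independence property. -/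
def Ind3 (T W : Subgroup X) (u : X) : Prop :=
  ∃ e : X, e ∉ 𝐂[u] ∧ ∀ σ : MulAut X, σ •ᵃ T = T → σ u ≠ u →
    WB T (T ⊓ 𝐂[σ u]) = WB T (T ⊓ 𝐂[u]) → e ∈ 𝐂[σ u] ∧ W ≤ ⁅𝐂[σ u], 𝐂[σ u]⁆

def NoTC : Prop := ∀ (X : Type u) [Group X] [Finite X] (P : Subgroup X)
  (𝔄 : Subgroup (MulAut X)), TC P 𝔄 → False

/-- The theorem: coprime operators whose fixed `2`-elements are `2`-central and whose fixed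
involutions are central. -/
def Thm : Prop := ∀ (X : Type u) [Group X] [Finite X] (G A : Subgroup X), A ≤ 𝐍(G) →
  (Nat.card A).Coprime (Nat.card G) →
  (∀ Q : Subgroup X, Q ≤ G → IsPGroup 2 Q → A ≤ 𝐍(Q) → Q ⊓ 𝐂(A) ≤ 𝐂(Q)) →
  (∀ t ∈ G, t * t = 1 → t ∈ 𝐂(A) → t ∈ 𝐂(G)) → Group.IsSolvable G

end CfsgLib.TZ
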