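import Cfsg.Agent.Lib.TZ.Cl1
import Cfsg.Agent.Lib.TZ.Defs
import Cfsg.Agent.Lib.H8SqClass
import Cfsg.Agent.Lib.CoreSolvable

/-! Invariant classes whose sizes split into two coprime families: solvability. -/

set_option autoImplicit false

namespace CfsgLib.TZ.Cl

open Subgroup Cfsg CfsgLib.CopAut SemidirectProduct
open scoped commutatorElement Pointwise

universe u v

variable {G : Type u} [Group G] [Finite G] {A : Type v} [Group A] [Finite A]
  {φ : A →* MulAut G}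

theorem act_solv (hT : Thm.{max u v}) {K : Subgroup G} (hK : Inv φ K)
    (hcop : (Nat.card A).Coprime (Nat.card K))
    (h1 : ∀ Q ≤ K, IsPGroup 2 Q → Inv φ Q → ∀ t ∈ Q, t ∈ fixed φ → ∀ x ∈ Q, x * t = t * x)
    (h2 : ∀ t ∈ K, t * t = 1 → t ∈ fixed φ → ∀ x ∈ K, x * t = t * x) : Group.IsSolvable K := by
  have := finite_semidirect (φ := φ)
  have h := hT (G ⋊[φ] A) (L φ K) (R φ ⊤) (R_top_le_normalizer_iff.2 hK) (coprime_R_L hcop)
    (fun Q hQ hp hn => by
      obtain ⟨Q, hQK, rfl⟩ := exists_L_eq hQ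
      rw [L_inf_centralizer]
      rintro _ ⟨t, ht, rfl⟩ _ ⟨x, hx, rfl⟩
      rw [← map_mul, ← map_mul, h1 Q hQK
        (hp.of_equiv (Q.equivMapOfInjective _ inl_injective).symm)
        (R_top_le_normalizer_iff.1 hn) t ht.1 ht.2 x hx])
    (by
      rintro _ ⟨t, ht, rfl⟩ h3 h4 _ ⟨x, hx, rfl⟩
      rw [← map_mul, ← map_one inl, inl_inj] at h3
      rw [← map_mul, ← map_mul, h2 t ht h3
        (fun a => inl_mem_centralizer_R_iff.1 h4 a (mem_top a)) x hx])
  exact Group.isSolvable_of_surjective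
    (f := (K.equivMapOfInjective (inl : G →* G ⋊[φ] A) inl_injective).symm.toMonoidHom)
    (MulEquiv.surjective _)

omit [Finite G] [Finite A] in
/-- the action on a quotient -/
def quotAct (φ : A →* MulAut G) (D : Subgroup G) [D.Normal] (hD : Inv φ D) :
    A →* MulAut (G ⧸ D) :=
  MonoidHom.mk' (fun a => QuotientGroup.congr D D (φ a) (inv_iff_map_eq.1 hD a)) fun a b => by
    ext q
    obtain ⟨g, rfl⟩ := QuotientGroup.mk_surjective q
    change ((φ (a * b) g : G) : G ⧸ D) = (φ a (φ b g) : G)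
    rw [map_mul]
    rfl

omit [Finite G] [Finite A] in
theorem quotAct_mk {D : Subgroup G} [D.Normal] (hD : Inv φ D) (a : A) (g : G) :
    quotAct φ D hD a (g : G ⧸ D) = (φ a g : G) := rfl

theorem lift_fixed {D : Subgroup G} [D.Normal] (hD : Inv φ D)
    (hcop : (Nat.card A).Coprime (Nat.card G)) (hs : Group.IsSolvable D) {q : G ⧸ D}
    (hq : q ∈ fixed (quotAct φ D hD)) : ∃ t ∈ fixed φ, (t : G ⧸ D) = q := by
  obtain ⟨g, rfl⟩ := QuotientGroup.mk_surjective q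
  obtain ⟨d, hd, h⟩ := exists_mul_fixed_of_coset hD
    (hcop.coprime_dvd_right (card_subgroup_dvd_card D)) (Or.inr hs) (g := g)
    fun a => QuotientGroup.eq.1 (hq a).symm
  exact ⟨_, h, QuotientGroup.mk_mul_of_mem g hd⟩

theorem syl_conj (hcop : (Nat.card A).Coprime (Nat.card G))
    (hs : Group.IsSolvable A ∨ Group.IsSolvable G) {p : ℕ} [Fact p.Prime] {P Q : Sylow p G}
    (hP : Inv φ P) (hQ : Inv φ Q) : ∃ c ∈ fixed φ, ∀ x, x ∈ Q ↔ c⁻¹ * x * c ∈ P := by
  obtain ⟨g, hg⟩ := MulAction.exists_smul_eq G P Q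
  obtain ⟨c, hc, h⟩ := exists_fixed_conj hcop hs hP hQ (g := g) (by rw [← hg]; rfl)
  refine ⟨c, hc, fun x => ?_⟩
  change x ∈ (Q : Subgroup G) ↔ _
  rw [h, mem_map_equiv]
  rfl

theorem inv_syl_le (hcop : (Nat.card A).Coprime (Nat.card G))
    (hs : Group.IsSolvable A ∨ Group.IsSolvable G) {p : ℕ} [hp : Fact p.Prime] {K : Subgroup G}
    (hK : Inv φ K) (hi : ¬ p ∣ K.index) : ∃ Q : Sylow p G, Inv φ Q ∧ (Q : Subgroup G) ≤ K := by
  have := finite_semidirect (φ := φ)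
  obtain ⟨P, h1, h2⟩ := Cop.exists_invariant_sylowOf p (R_top_le_normalizer_iff.2 hK)
    (coprime_R_L (hcop.coprime_dvd_right (card_subgroup_dvd_card K)))
    (solvable_or (hs.imp_right fun (_ : Group.IsSolvable G) => inferInstance))
  obtain ⟨P, hP, rfl⟩ := exists_L_eq h1.1
  obtain ⟨-, h4, h5⟩ := Cop.isPiHallOf_singleton_iff.1 (isPiHallOf_L_iff.1 h1)
  refine ⟨h4.toSylow fun h => ?_, R_top_le_normalizer_iff.1 h2, hP⟩
  rw [← relIndex_mul_index hP] at h
  exact (hp.out.dvd_mul.1 h).elim h5 hi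

omit [Finite G] [Finite A] in
theorem inv_cent {c : G} (hc : c ∈ fixed φ) : Inv φ (centralizer {c}) := fun a x hx => by
  rw [mem_centralizer_singleton_iff] at hx ⊢
  rw [← hc a, ← map_mul, hx, map_mul]

omit [Finite G] [Finite A] in
theorem inv_centralizer {K : Subgroup G} (hK : Inv φ K) : Inv φ (centralizer (K : Set G)) :=
  fun a x hx y hy => by
    have := congrArg (φ a) (hx _ (hK a⁻¹ y hy))
    simpa using this

/-- a fixed element whose class size is prime to `p` is conjugate into `C(P)` -/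
theorem conj_cent (hcop : (Nat.card A).Coprime (Nat.card G))
    (hs : Group.IsSolvable A ∨ Group.IsSolvable G) {p : ℕ} [Fact p.Prime] {P : Sylow p G}
    (hP : Inv φ P) {c : G} (hc : c ∈ fixed φ) (hi : ¬ p ∣ ind c) :
    ∃ d ∈ fixed φ, d * c * d⁻¹ ∈ centralizer ((P : Subgroup G) : Set G) := by
  obtain ⟨Q, hQ, hle⟩ := inv_syl_le hcop hs (inv_cent hc) hi
  obtain ⟨d, hd, h⟩ := syl_conj hcop hs hQ hP
  refine ⟨d, hd, fun x hx => ?_⟩
  have := mem_centralizer_singleton_iff.1 (hle ((h x).1 hx))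
  calc _ = d * (d⁻¹ * x * d * c) * d⁻¹ := by group
    _ = _ := by rw [this]; group

/-- abbreviation -/
abbrev DD (X : G → Prop) : Subgroup G := centralizer (N0 X : Set G)

namespace Sp

variable {X Y : G → Prop} {b : G} (h : Sp φ X Y b)
include h

omit [Finite G] [Finite A] in
theorem inv_N0 : Inv φ (N0 X) := fun a x hx => by
  have : N0 X ≤ (N0 X).comap (φ a).toMonoidHom := normalClosure_le_normal fun y hy => by
    change φ a y ∈ N0 X
    rw [(h.hX y hy).1 a]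
    exact subset_normalClosure hy
  exact this hx

omit [Finite A] in
theorem N_cent {n : G} (hn : n ∈ N0 X ⊔ center G) {d : G} (hd : d ∈ DD X) : n * d = d * n := by
  obtain ⟨x, hx, z, hz, rfl⟩ := mem_sup_of_normal_left.1 hn
  rw [mul_assoc, ← mem_center_iff.1 hz, ← mul_assoc, hd x hx, mul_assoc]

omit [Finite A] in
theorem N_le_D : N0 X ⊔ center G ≤ DD X := sup_le h.N0_comm (center_le_centralizer _)

omit [Finite A] [Finite G] in
theorem Y_of_not {c : G} (hc : c ∈ fixed φ) (hn : c ∉ N0 X ⊔ center G) : Y c :=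
  ((h.cov c hc).resolve_left fun e => hn (mem_sup_right e)).resolve_left
    fun e => hn (mem_sup_left (subset_normalClosure e))

omit [Finite A] [Finite G] in
theorem not_dvd {a c : G} (ha : X a) (hc : Y c) {p : ℕ} [hp : Fact p.Prime] (hd : p ∣ ind a) :
    ¬ p ∣ ind c := fun e => hp.out.one_lt.ne' (Nat.eq_one_of_dvd_coprimes (h.spl a c ha hc) hd e)

theorem fact {a : G} (ha : X a) {p : ℕ} [Fact p.Prime] (hd : p ∣ ind a) {P : Sylow p G}
    (hP : Inv φ P) {c : G} (hc : c ∈ fixed φ) : ∃ n ∈ N0 X ⊔ center G, n ∈ fixed φ ∧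
      ∃ e ∈ centralizer ((P : Subgroup G) : Set G), n * e = c := by
  let N := (N0 X ⊔ center G).subgroupOf (fixed φ)
  let E := (centralizer ((P : Subgroup G) : Set G)).subgroupOf (fixed φ)
  have ht : N ⊔ E = ⊤ := SqClass.eq_top_of_forall_exists_conj_mem fun x => by
    by_cases hx : (x : G) ∈ N0 X ⊔ center G
    · exact ⟨1, mem_sup_left (by simpa [N, mem_subgroupOf] using hx)⟩
    · obtain ⟨d, hd, e⟩ := conj_cent h.cop h.solv hP x.2 (h.not_dvd ha (h.Y_of_not x.2 hx) hd)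
      exact ⟨⟨d, hd⟩, mem_sup_right e⟩
  obtain ⟨n, hn, e, he, h1⟩ := mem_sup_of_normal_left.1 (ht.ge (mem_top (⟨c, hc⟩ : fixed φ)))
  exact ⟨n, hn, n.2, e, he, congrArg Subtype.val h1⟩

omit [Finite A] in
theorem exists_prime {a : G} (ha : X a) : ∃ p, p.Prime ∧ p ∣ ind a :=
  Nat.exists_prime_and_dvd fun e => (h.hX a ha).2 (Frob.index_centralizer_eq_one_iff.1 e)

theorem CD_le {c : G} (hc : c ∈ fixed φ) (hD : c ∈ DD X) : c ∈ N0 X ⊔ center G := by
  by_contra hn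
  obtain ⟨a, ha⟩ := h.ne
  obtain ⟨p, hp, hd⟩ := h.exists_prime ha
  have := Fact.mk hp
  obtain ⟨P, hP⟩ := exists_inv_sylow (φ := φ) p h.cop h.solv
  obtain ⟨n, hn1, hn2, e, he, rfl⟩ := h.fact ha hd hP hc
  have heD : e ∈ DD X := (mul_mem_cancel_left (h.N_le_D hn1)).1 hD
  have haN : a ∈ N0 X ⊔ center G := mem_sup_left (subset_normalClosure ha)
  have h1 : a * e ∈ fixed φ := mul_mem (h.hX a ha).1 ((mul_mem_cancel_left hn2).1 hc)
  obtain ⟨d, hd1, hd2⟩ := conj_cent h.cop h.solv hP h1 (h.not_dvd ha (h.Y_of_not h1 fun e =>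
    hn (mul_mem hn1 ((mul_mem_cancel_left haN).1 e))) hd)
  obtain ⟨m, hm1, -, f, hf, rfl⟩ := h.fact ha hd hP hd1
  have h2 := h.N_cent hm1 (Normal.conj_mem inferInstance e heD f)
  have h3 : m * f * (a * e) * (m * f)⁻¹ = m * f * a * (m * f)⁻¹ * (f * e * f⁻¹) := by
    calc _ = m * f * a * (m * f)⁻¹ * (m * (f * e * f⁻¹)) * m⁻¹ := by group
      _ = _ := by rw [h2]; group
  rw [h3, mul_mem_cancel_right (mul_mem (mul_mem hf he) (inv_mem hf))] at hd2
  have h4 : (P : Subgroup G) ≤ centralizer {m * f * a * (m * f)⁻¹} := fun x hx =>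
    mem_centralizer_singleton_iff.2 (hd2 x hx)
  have h5 := index_dvd_of_le h4
  rw [Frob.index_centralizer_conj] at h5
  exact P.not_dvd_index (hd.trans h5)

theorem solv_D (hT : Thm.{max u v}) : Group.IsSolvable (DD X) :=
  act_solv hT (inv_centralizer h.inv_N0) (h.cop.coprime_dvd_right (card_subgroup_dvd_card _))
    (fun _ hQ _ _ _ ht hf _ hx => (h.N_cent (h.CD_le hf (hQ ht)) (hQ hx)).symm)
    fun _ ht _ hf _ hx => (h.N_cent (h.CD_le hf ht) hx).symm

/-- fixed points centralize invariant Sylow subgroups modulo `D` -/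
theorem syl_comm {a : G} (ha : X a) {p : ℕ} [Fact p.Prime] (hd : p ∣ ind a) {P : Sylow p G}
    (hP : Inv φ P) {t : G} (ht : t ∈ fixed φ) {x : G} (hx : x ∈ (P : Subgroup G)) :
    (x : G ⧸ DD X) * t = t * x := by
  obtain ⟨n, hn, -, e, he, rfl⟩ := h.fact ha hd hP ht
  rw [QuotientGroup.mk_mul, (QuotientGroup.eq_one_iff n).2 (h.N_le_D hn), one_mul,
    ← QuotientGroup.mk_mul, he x hx, QuotientGroup.mk_mul]

/-- conjugates of a fixed element of `N0` -/
theorem eig {t n : G} (ht : t ∈ fixed φ) (hn : n ∈ N0 X) (hf : n ∈ fixed φ) (g : G) :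
    ∃ z, g * n * g⁻¹ = z * n * z⁻¹ ∧ ∀ x ∈ N0 X, t * (z * x * z⁻¹) * t⁻¹ = z * (t * x * t⁻¹) * z⁻¹ := by
  let Z := (centralizer {(t : G ⧸ DD X)}).comap (QuotientGroup.mk' _)
  have hc : Z.index.Coprime (ind n) := by
    refine Nat.coprime_of_dvd fun p hp h1 h2 => ?_
    have := Fact.mk hp
    have hX : X n := ((h.cov n hf).resolve_left fun e => hp.one_lt.ne' (Nat.dvd_one.1
      (Frob.index_centralizer_eq_one_iff.2 e ▸ h2))).resolve_right (h.not_Y hn)
    obtain ⟨P, hP⟩ := exists_inv_sylow (φ := φ) p h.cop h.solv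
    have h3 : (P : Subgroup G) ≤ Z := fun x hx =>
      mem_centralizer_singleton_iff.2 (h.syl_comm hX h2 hP ht hx)
    exact P.not_dvd_index (h1.trans (index_dvd_of_le h3))
  obtain ⟨z, hz, c, hc, rfl⟩ := ClassCount.exists_mul_of_coprime_index hc g
  refine ⟨z, ?_, fun x hx => ?_⟩
  · rw [mul_assoc z, mem_centralizer_singleton_iff.1 hc]
    group
  · have h1 : (t * z)⁻¹ * (z * t) ∈ DD X :=
      QuotientGroup.eq.1 (mem_centralizer_singleton_iff.1 hz).symm
    have h2 := h1 x hx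
    calc _ = t * z * (x * ((t * z)⁻¹ * (z * t))) * t⁻¹ * z⁻¹ := by group
      _ = _ := by rw [h2]; group

omit [Finite A] [Finite G] h in
theorem mem_DD {w : G} (hw : ∀ a, X a → ∀ g, w * (g * a * g⁻¹) * w⁻¹ = g * a * g⁻¹) :
    w ∈ DD X := fun x hx => by
  have : N0 X ≤ centralizer {w} := (closure_le _).2 fun y hy => by
    obtain ⟨a, ha, hy⟩ := Group.mem_conjugatesOfSet_iff.1 hy
    obtain ⟨g, rfl⟩ := isConj_iff.1 hy
    exact mem_centralizer_singleton_iff.2 (mul_inv_eq_iff_eq_mul.1 (hw a ha g)).symm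
  exact mem_centralizer_singleton_iff.1 (this hx)

theorem odd_case (ho : ∀ a, X a → ¬ 2 ∣ ind a) {t : G} (ht : t ∈ fixed φ) {k : ℕ}
    (hk : t ^ 2 ^ k ∈ DD X) : t ∈ DD X := mem_DD fun a ha g => by
  have haN : a ∈ N0 X := subset_normalClosure ha
  have hcj : ∀ s y : G, IsConj a y → IsConj a (s * y * s⁻¹) := fun s y hy =>
    hy.trans (isConj_iff.2 ⟨s, rfl⟩)
  let σ : Equiv.Perm {y // IsConj a y} :=
    ⟨fun y => ⟨_, hcj t y y.2⟩, fun y => ⟨_, hcj t⁻¹ y y.2⟩,
      fun y => Subtype.ext (by simp only; group), fun y => Subtype.ext (by simp only; group)⟩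
  have hp : ∀ (n : ℕ) y, ((σ ^ n) y : G) = t ^ n * y * (t ^ n)⁻¹ := fun n y => by
    induction n with
    | zero => simp
    | succ n ih =>
      rw [pow_succ', Equiv.Perm.mul_apply]
      change t * ((σ ^ n) y : G) * t⁻¹ = _
      rw [ih]
      group
  have := Fintype.ofFinite {y // IsConj a y}
  obtain ⟨⟨y, hy⟩, h1⟩ := Equiv.Perm.exists_fixed_point_of_prime (p := 2) (n := k) (σ := σ)
    (by
      have := ho a ha
      rwa [ind, Frob.index_centralizer_eq_ncard, ← Nat.card_coe_set_eq, ← Nat.card_eq_fintype_card]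
        at *)
    (Equiv.ext fun y => Subtype.ext (by
      obtain ⟨s, hs⟩ := isConj_iff.1 y.2
      rw [hp, ← hk y (hs ▸ Normal.conj_mem inferInstance a haN s)]
      simp))
  obtain ⟨s, rfl⟩ := isConj_iff.1 hy
  have h2 : t * (s * a * s⁻¹) * t⁻¹ = s * a * s⁻¹ := congrArg Subtype.val h1
  obtain ⟨z, h3, h4⟩ := h.eig ht haN (h.hX a ha).1 s
  rw [h3, h4 a haN, mul_left_inj, mul_right_inj] at h2
  obtain ⟨z, h3, h4⟩ := h.eig ht haN (h.hX a ha).1 g
  rw [h3, h4 a haN, h2]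

theorem even_case {a₀ : G} (ha₀ : X a₀) (he : 2 ∣ ind a₀) {t : G} (ht : t ∈ fixed φ)
    (hk : t * t ∈ DD X) (g : G) : t * (g * t * g⁻¹)⁻¹ ∈ DD X := mem_DD fun a ha k => by
  have haN : a ∈ N0 X := subset_normalClosure ha
  have hf := (h.hX a ha).1
  have htN : t * a * t⁻¹ ∈ N0 X := Normal.conj_mem inferInstance a haN t
  have htf : t * a * t⁻¹ ∈ fixed φ := mul_mem (mul_mem ht hf) (inv_mem ht)
  have hc : a * (t * a * t⁻¹) = t * a * t⁻¹ * a := h.N0_comm htN a haN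
  have h2 : t * (t * a * t⁻¹) * t⁻¹ = a := by
    calc _ = (t * t * a) * t⁻¹ * t⁻¹ := by group
      _ = _ := by rw [← hk a haN]; group
  have key : ∀ n ∈ N0 X, n ∈ fixed φ → ∀ j : ℤ, t * n * t⁻¹ = n ^ j → ∀ y,
      t * (y * n * y⁻¹) * t⁻¹ = (y * n * y⁻¹) ^ j := fun n hn hnf j hj y => by
    obtain ⟨z, h1, h3⟩ := h.eig ht hn hnf y
    rw [h1, h3 n hn, hj, conj_zpow]
  have key2 : ∀ n ∈ N0 X, n ∈ fixed φ → ∀ j : ℤ, t * n * t⁻¹ = n ^ j →
      (k * n * k⁻¹) ∈ centralizer {t * (g * t * g⁻¹)⁻¹} := fun n hn hnf j hj => by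
    have h1 := key n hn hnf j hj
    have h3 : ∀ y, g * t * g⁻¹ * (y * n * y⁻¹) * (g * t * g⁻¹)⁻¹ = (y * n * y⁻¹) ^ j := fun y => by
      calc _ = g * (t * (g⁻¹ * y * n * (g⁻¹ * y)⁻¹) * t⁻¹) * g⁻¹ := by group
        _ = _ := by rw [h1, ← conj_zpow]; group
    have h4 := (h1 ((g * t * g⁻¹)⁻¹ * k)).trans (h3 _).symm
    rw [mem_centralizer_singleton_iff]
    calc _ = g * t * g⁻¹ * ((g * t * g⁻¹)⁻¹ * k * n * ((g * t * g⁻¹)⁻¹ * k)⁻¹) * (g * t * g⁻¹)⁻¹
          * (t * (g * t * g⁻¹)⁻¹) := by group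
      _ = _ := by rw [← h4]; group
  have k1 := key2 _ (mul_mem haN htN) (mul_mem hf htf) 1 (by
    rw [zpow_one, hc]
    calc _ = t * a * t⁻¹ * (t * (t * a * t⁻¹) * t⁻¹) := by rw [← hc]; group
      _ = _ := by rw [h2])
  have k2 := key2 _ (mul_mem haN (inv_mem htN)) (mul_mem hf (inv_mem htf)) (-1) (by
    calc _ = t * a * t⁻¹ * (t * (t * a * t⁻¹) * t⁻¹)⁻¹ := by group
      _ = _ := by rw [h2]; group)
  have k3 : (k * a * k⁻¹) * (k * a * k⁻¹) ∈ centralizer {t * (g * t * g⁻¹)⁻¹} := by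
    convert mul_mem k1 k2 using 1
    calc _ = k * (a * (a * (t * a * t⁻¹)) * (t * a * t⁻¹)⁻¹) * k⁻¹ := by group
      _ = _ := by rw [hc]; nth_rw 2 [← hc]; group
  set w := t * (g * t * g⁻¹)⁻¹
  set x := k * a * k⁻¹
  have hx : x ∈ N0 X := Normal.conj_mem inferInstance a haN k
  have hs := h.comm_S hx w
  have hcm : x * (w * x * w⁻¹) = w * x * w⁻¹ * x :=
    h.N0_comm (Normal.conj_mem inferInstance x hx w) x hx
  have hsq : (x⁻¹ * (w * x * w⁻¹)) ^ 2 = 1 := by
    have := mem_centralizer_singleton_iff.1 k3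
    rw [(Commute.inv_left hcm).mul_pow, conj_pow, sq x, ← this]
    group
  have h1 : orderOf (x⁻¹ * (w * x * w⁻¹)) = 1 := Nat.eq_one_of_dvd_coprimes
    ((h.cop_S ha₀).coprime_dvd_left he) (orderOf_dvd_of_pow_eq_one hsq)
    (orderOf_dvd_natCard _ hs)
  rw [orderOf_eq_one_iff, inv_mul_eq_one] at h1
  exact h1.symm

theorem solv_Q (hT : Thm.{max u v}) : Group.IsSolvable (G ⧸ DD X) := by
  have hD : Inv φ (DD X) := inv_centralizer h.inv_N0
  have hcop : (Nat.card A).Coprime (Nat.card (G ⧸ DD X)) :=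
    h.cop.coprime_dvd_right (card_quotient_dvd_card _)
  have hs : Group.IsSolvable A ∨ Group.IsSolvable (G ⧸ DD X) :=
    h.solv.imp_right fun (_ : Group.IsSolvable G) => inferInstance
  have hl := fun q => lift_fixed hD h.cop (h.solv_D hT) (q := q)
  have := act_solv hT (φ := quotAct φ (DD X) hD) inv_top (by rwa [card_top]) ?_ ?_
  · exact Group.isSolvable_of_surjective (f := (⊤ : Subgroup (G ⧸ DD X)).subtype)
      fun x => ⟨⟨x, mem_top x⟩, rfl⟩
  · intro Q _ hQ hI q hq hf x hx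
    obtain ⟨t, ht, rfl⟩ := hl q hf
    by_cases ho : ∀ a, X a → ¬ 2 ∣ ind a
    · obtain ⟨k, hk⟩ := hQ ⟨_, hq⟩
      rw [(QuotientGroup.eq_one_iff t).2 (h.odd_case ho ht (k := k)
        ((QuotientGroup.eq_one_iff _).1 (congrArg Subtype.val hk))), mul_one, one_mul]
    · push Not at ho
      obtain ⟨a, ha, he⟩ := ho
      obtain ⟨P, hP⟩ := exists_inv_sylow (φ := φ) 2 h.cop h.solv
      obtain ⟨S, hS, hle⟩ := exists_inv_sylow_ge hcop hs hQ hI
      obtain ⟨c, hc, h1⟩ := syl_conj hcop hs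
        (P := P.mapSurjective (QuotientGroup.mk'_surjective (DD X))) (by
          rintro a _ ⟨y, hy, rfl⟩
          exact ⟨_, hP a y hy, rfl⟩) hS
      obtain ⟨c, hc', rfl⟩ := hl c hc
      obtain ⟨y, hy, e⟩ := (h1 x).1 (hle hx)
      have h2 := h.syl_comm ha he hP hc' hy
      have h3 : (y : G ⧸ DD X) = x := by
        change (y : G ⧸ DD X) = _ at e
        rw [mul_assoc, eq_inv_mul_iff_mul_eq, ← h2] at e
        exact mul_right_cancel e
      rw [← h3]
      exact h.syl_comm ha he hP ht hy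
  · intro q _ hq hf x _
    obtain ⟨t, ht, rfl⟩ := hl q hf
    have hk : t * t ∈ DD X := (QuotientGroup.eq_one_iff _).1 hq
    by_cases ho : ∀ a, X a → ¬ 2 ∣ ind a
    · rw [(QuotientGroup.eq_one_iff t).2 (h.odd_case ho ht (k := 1) (by rwa [pow_one, sq])),
        mul_one, one_mul]
    · push Not at ho
      obtain ⟨a, ha, he⟩ := ho
      obtain ⟨g, rfl⟩ := QuotientGroup.mk_surjective x
      have := (QuotientGroup.eq_one_iff _).2 (h.even_case ha he ht hk g)
      simp only [QuotientGroup.mk_mul, QuotientGroup.mk_inv] at this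
      rw [mul_inv_eq_one, eq_mul_inv_iff_mul_eq] at this
      exact this.symm

theorem solvable (hT : Thm.{max u v}) : Group.IsSolvable G :=
  (Group.isSolvable_iff_subgroup_quotient (DD X)).mpr ⟨h.solv_D hT, h.solv_Q hT⟩

end Sp

end CfsgLib.TZ.Cl
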