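import Cfsg.Agent.Lib.TZ.Cl2

/-! Invariant classes whose sizes split into two coprime families: the final form. -/

set_option autoImplicit false

namespace CfsgLib.TZ.Cl

open Subgroup Cfsg CfsgLib.CopAut

universe u v

theorem split_solvable (hT : Thm.{max u v}) {G : Type u} {A : Type v} [Group G] [Finite G]
    [Group A] [Finite A] [MulDistribMulAction A G] (hcop : (Nat.card A).Coprime (Nat.card G))
    (X Y : Set (ConjClasses G)) (hX : X.Nonempty) (hY : Y.Nonempty)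
    (hcover : ∀ C : ConjClasses G, (1 < Nat.card C.carrier ∧
      ∀ a : A, ∀ g ∈ C.carrier, a • g ∈ C.carrier) ↔ (C ∈ X ∨ C ∈ Y))
    (hsplit : ∀ C ∈ X, ∀ D ∈ Y, (Nat.card C.carrier).Coprime (Nat.card D.carrier)) :
    Group.IsSolvable G := by
  let φ := MulDistribMulAction.toMulAut A G
  have hs : Group.IsSolvable A ∨ Group.IsSolvable G := by
    by_cases e : Odd (Nat.card G)
    · exact Or.inr (FT.feit_thompson e)
    · exact Or.inl (FT.feit_thompson (Nat.coprime_two_right.1 (Nat.Coprime.coprime_dvd_right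
        (even_iff_two_dvd.1 (Nat.not_odd_iff_even.1 e)) hcop)))
  have h1 : ∀ c : G, 1 < Nat.card (ConjClasses.mk c).carrier ↔ c ∉ center G := fun c => by
    rw [← Frob.index_centralizer_eq_card_carrier, ← Frob.index_centralizer_eq_one_iff]
    have := ind_pos c
    unfold ind at this
    omega
  have h2 : ∀ c ∈ fixed φ, c ∈ center G ∨ ConjClasses.mk c ∈ X ∨ ConjClasses.mk c ∈ Y :=
    fun c hc => or_iff_not_imp_left.2 fun hz => (hcover _).1 ⟨(h1 c).2 hz, fun a g hg => by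
      rw [ConjClasses.mem_carrier_iff_mk_eq, ConjClasses.mk_eq_mk_iff_isConj] at hg ⊢
      obtain ⟨k, rfl⟩ := isConj_iff.1 hg.symm
      refine (isConj_iff.2 ⟨a • k, ?_⟩ : IsConj c _).symm
      rw [smul_mul', smul_mul', smul_inv', show a • c = c from hc a]⟩
  have h3 : ∀ C, C ∈ X ∨ C ∈ Y → ∃ c ∈ fixed φ, ConjClasses.mk c = C := fun C hC => by
    obtain ⟨x, rfl⟩ := ConjClasses.mk_surjective C
    obtain ⟨g, hg⟩ := exists_conj_fixed (φ := φ) hcop hs (x := x) fun a => by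
      have := ((hcover _).2 hC).2 a x ConjClasses.mem_carrier_mk
      rw [ConjClasses.mem_carrier_iff_mk_eq, ConjClasses.mk_eq_mk_iff_isConj] at this
      obtain ⟨k, hk⟩ := isConj_iff.1 this.symm
      exact ⟨k, hk.symm⟩
    exact ⟨_, hg, ConjClasses.mk_eq_mk_iff_isConj.2 (isConj_iff.2 ⟨g, rfl⟩ : IsConj x _).symm⟩
  have h4 : ∀ c : G, ConjClasses.mk c ∈ X ∨ ConjClasses.mk c ∈ Y → c ∉ center G :=
    fun c hc => (h1 c).1 ((hcover _).2 hc).1
  obtain ⟨b, hb, hm⟩ := Set.exists_max_image (fixed φ : Set G) ind (Set.toFinite _) ⟨1, one_mem _⟩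
  obtain ⟨x, hx, hx'⟩ := h3 _ (Or.inl hX.some_mem)
  obtain ⟨y, hy, hy'⟩ := h3 _ (Or.inr hY.some_mem)
  have hxX : ConjClasses.mk x ∈ X := hx' ▸ hX.some_mem
  have hyY : ConjClasses.mk y ∈ Y := hy' ▸ hY.some_mem
  have h5 : ∀ a c : G, ConjClasses.mk a ∈ X → ConjClasses.mk c ∈ Y → (ind a).Coprime (ind c) :=
    fun a c ha hc => by
      rw [ind, ind, Frob.index_centralizer_eq_card_carrier, Frob.index_centralizer_eq_card_carrier]
      exact hsplit _ ha _ hc
  rcases h2 b hb with h | h | h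
  · have h6 := hm x hx
    rw [show ind b = 1 from Frob.index_centralizer_eq_one_iff.2 h] at h6
    exact absurd (Frob.index_centralizer_eq_one_iff.1 (le_antisymm h6 (ind_pos x)))
      (h4 x (Or.inl hxX))
  · exact Sp.solvable (φ := φ) (X := fun a => a ∈ fixed φ ∧ ConjClasses.mk a ∈ Y)
      (Y := fun a => a ∈ fixed φ ∧ ConjClasses.mk a ∈ X) (b := b)
      ⟨hcop, fun c hc => (h2 c hc).imp_right fun e => e.symm.imp (⟨hc, ·⟩) (⟨hc, ·⟩),
        fun a ha => ⟨ha.1, h4 a (Or.inr ha.2)⟩, fun a ha => ⟨ha.1, h4 a (Or.inl ha.2)⟩,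
        fun a c ha hc => (h5 c a hc.2 ha.2).symm, ⟨hb, h⟩, hm, y, hy, hyY⟩ hT
  · exact Sp.solvable (φ := φ) (X := fun a => a ∈ fixed φ ∧ ConjClasses.mk a ∈ X)
      (Y := fun a => a ∈ fixed φ ∧ ConjClasses.mk a ∈ Y) (b := b)
      ⟨hcop, fun c hc => (h2 c hc).imp_right fun e => e.imp (⟨hc, ·⟩) (⟨hc, ·⟩),
        fun a ha => ⟨ha.1, h4 a (Or.inl ha.2)⟩, fun a ha => ⟨ha.1, h4 a (Or.inr ha.2)⟩,
        fun a c ha hc => h5 a c ha.2 hc.2, ⟨hb, h⟩, hm, x, hx, hxX⟩ hT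

end CfsgLib.TZ.Cl
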