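import Cfsg.Agent.Lib.TZ.Defs
import Cfsg.Agent.Lib.TG.B5b
import Cfsg.Agent.Lib.TG.MSc
import Cfsg.Agent.Lib.CoprimeAut

/-!
# Central covers with coprime operators: the fields of `TZ.TC`
-/

set_option autoImplicit false
set_option linter.unusedSectionVars false

namespace CfsgLib.TZ

open Subgroup Cfsg CfsgLib.FT CfsgLib.FT.BGN CfsgLib.GW CfsgLib.Wal CfsgLib.TG
open CfsgLib.FT.U4 (mem_cent1 mem_cent1' mem_cent mem_cent1_comm cent1_conj conj_mem_conj_iff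
  orderOf_conj)
open scoped commutatorElement

variable {Γ Y A : Type*} [Group Γ] [Finite Γ] [Group Y] [Finite Y] [Group A] [Finite A]

/-- A central cover `π : Γ → Y` with compatible coprime operators. -/
structure Cv (π : Γ →* Y) (φ : A →* MulAut Γ) (ψ : A →* MulAut Y) (Ph : Subgroup Γ) : Prop where
  surj : Function.Surjective π
  hk : ∀ z, π z = 1 → ∀ g, g * z = z * g
  cop : (Nat.card A).Coprime (Nat.card Γ)
  pP : IsPGroup 2 Ph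
  inv : ∀ a, ∀ x ∈ Ph, φ a x ∈ Ph
  kP : ∀ z, π z = 1 → z ∈ Ph
  cq : ∀ g ∈ Ph, (∀ a, φ a g = g) → g ∈ 𝐂(Ph)
  ct : ∀ t, t * t = 1 → (∀ a, φ a t = t) → t ∈ center Γ
  compat : ∀ a g, ψ a (π g) = π (φ a g)

namespace Cv

variable {π : Γ →* Y} {φ : A →* MulAut Γ} {ψ : A →* MulAut Y} {Ph : Subgroup Γ}
variable (h : Cv π φ ψ Ph)
include h

theorem mem_of_map {x : Γ} (hx : π x ∈ Ph.map π) : x ∈ Ph := by
  obtain ⟨y, hy, e⟩ := hx
  have h1 := h.kP (y⁻¹ * x) (by rw [map_mul, map_inv, e, inv_mul_cancel])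
  simpa using mul_mem hy h1

/-- Fixed points modulo an invariant subgroup lift. -/
theorem lift_mod {U : Subgroup Γ} (hU : U ≤ Ph) (hi : ∀ a, ∀ x ∈ U, φ a x ∈ U) {g : Γ}
    (hg : ∀ a, g⁻¹ * φ a g ∈ U) : ∃ u ∈ U, ∀ a, φ a (g * u) = g * u := by
  haveI : Fact (Nat.Prime 2) := ⟨Nat.prime_two⟩
  haveI := (h.pP.to_le hU).isNilpotent
  exact CopAut.exists_mul_fixed_of_coset (φ := φ) hi
    (h.cop.coprime_dvd_right (card_subgroup_dvd_card U)) (Or.inr inferInstance) hg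

theorem lift {J : Subgroup Γ} (hi : ∀ a, ∀ x ∈ J, φ a x ∈ J) {w : Y} (hw : w ∈ J.map π)
    (hf : ∀ a, ψ a w = w) : ∃ g ∈ J, π g = w ∧ ∀ a, φ a g = g := by
  obtain ⟨g, hg, rfl⟩ := hw
  obtain ⟨u, hu, h1⟩ := h.lift_mod (U := J ⊓ π.ker) (fun z hz => h.kP z hz.2)
    (fun a x hx => mem_inf.2 ⟨hi a x hx.1, MonoidHom.mem_ker.2 (by
      rw [← h.compat, (MonoidHom.mem_ker.1 (mem_inf.1 hx).2), map_one])⟩) (g := g)
    fun a => mem_inf.2 ⟨J.mul_mem (J.inv_mem hg) (hi a g hg), MonoidHom.mem_ker.2 (by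
      rw [map_mul, map_inv, ← h.compat, hf, inv_mul_cancel])⟩
  exact ⟨g * u, J.mul_mem hg (mem_inf.1 hu).1,
    by rw [map_mul, MonoidHom.mem_ker.1 (mem_inf.1 hu).2, mul_one], h1⟩

theorem LJ {J : Subgroup Γ} (hi : ∀ a, ∀ x ∈ J, φ a x ∈ J) (hJ : El J) {w : Y}
    (hw : w ∈ J.map π) (hf : ∀ a, ψ a w = w) : w ∈ (center Γ).map π := by
  obtain ⟨g, hg, rfl, h1⟩ := h.lift hi hw hf
  exact mem_map_of_mem π (h.ct g (hJ g hg) h1)

theorem lift_cent {w : Y} (hw : w ∈ Ph.map π) (hf : ∀ a, ψ a w = w) :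
    ∃ g ∈ Ph, π g = w ∧ g ∈ 𝐂(Ph) := by
  obtain ⟨g, hg, e, h1⟩ := h.lift h.inv hw hf
  exact ⟨g, hg, e, h.cq g hg h1⟩

theorem exists_ker {x y : Γ} (e : π x = π y) : ∃ z, π z = 1 ∧ x = y * z :=
  ⟨y⁻¹ * x, by rw [map_mul, map_inv, e, inv_mul_cancel], by group⟩

theorem cent_of_map {x y : Γ} (hy : π y ∈ (𝐂[x]).map π) : y ∈ 𝐂[x] := by
  obtain ⟨w, hw, e⟩ := hy
  obtain ⟨z, hz, rfl⟩ := h.exists_ker e.symm
  exact mul_mem hw (mem_cent1.2 (h.hk z hz x).symm)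

theorem comm_le (x : Γ) : ⁅𝐂[π x], 𝐂[π x]⁆ ≤ (𝐂[x]).map π := by
  rw [commutator_le]
  intro a ha b hb
  obtain ⟨a, rfl⟩ := h.surj a
  obtain ⟨b, rfl⟩ := h.surj b
  have key : ∀ c : Γ, π c ∈ 𝐂[π x] → ∃ z, π z = 1 ∧ c * x = x * c * z := fun c hc =>
    h.exists_ker (by rw [map_mul, map_mul]; exact mem_cent1.1 hc)
  obtain ⟨z, hz, e1⟩ := key a ha
  obtain ⟨z', hz', e2⟩ := key b hb
  refine ⟨⁅a, b⁆, mem_cent1.2 ?_, map_commutatorElement π a b⟩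
  have e3 : a * b * x = x * (a * b) * (z * z') := by
    calc a * b * x = a * (b * x) := by group
      _ = (a * x) * b * z' := by rw [e2]; group
      _ = x * a * (z * b) * z' := by rw [e1]; group
      _ = _ := by rw [← h.hk z hz b]; group
  have e4 : b * a * x = x * (b * a) * (z * z') := by
    calc b * a * x = b * (a * x) := by group
      _ = (b * x) * a * z := by rw [e1]; group
      _ = x * b * (z' * a) * z := by rw [e2]; group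
      _ = x * b * a * (z' * z) := by rw [← h.hk z' hz' a]; group
      _ = _ := by rw [h.hk z hz z']; group
  have e5 : (b * a)⁻¹ * x = x * (z * z')⁻¹ * (b * a)⁻¹ := by
    have hzz : π (z * z')⁻¹ = 1 := by rw [map_inv, map_mul, hz, hz', one_mul, inv_one]
    calc (b * a)⁻¹ * x = (b * a)⁻¹ * (x * (b * a) * (z * z')) * (z * z')⁻¹ * (b * a)⁻¹ := by group
      _ = _ := by rw [← e4]; group
  calc ⁅a, b⁆ * x = a * b * ((b * a)⁻¹ * x) := by rw [commutatorElement_def]; group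
    _ = (a * b * x) * (z * z')⁻¹ * (b * a)⁻¹ := by rw [e5]; group
    _ = x * ⁅a, b⁆ := by rw [e3, commutatorElement_def]; group

theorem fin_core {𝔄 : Subgroup (MulAut Y)} (hA : ∀ a, ψ a ∈ 𝔄) (E : Subgroup Y) (u v f e : Y)
    (hE : E ≤ Ph.map π) (hel : El E) (hI : Inv 𝔄 E) (hu : u ∈ E) (hv : v ∈ Ph.map π)
    (e1 : f * u * f⁻¹ = v) (e2 : f * v * f⁻¹ = u * v) (_e3 : u * v = v * u) (he : e ∉ 𝐂[u])
    (hind : ∀ σ ∈ 𝔄, σ u ≠ u → e ∈ 𝐂[σ u] ∧ u ∈ ⁅𝐂[σ u], 𝐂[σ u]⁆ ∧ v ∈ ⁅𝐂[σ u], 𝐂[σ u]⁆) :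
    False := by
  have hI0 : Inv ψ.range E := fun σ ⟨a, ha⟩ => ha ▸ hI _ (hA a)
  obtain ⟨x, rfl⟩ := h.surj u
  obtain ⟨f, rfl⟩ := h.surj f
  have hy : π (f * x * f⁻¹) = v := by rw [map_mul, map_mul, map_inv, e1]
  subst hy
  set y := f * x * f⁻¹ with hydef
  have hxy : x ∈ 𝐂[y] := by
    obtain ⟨p, hp, h1, h2⟩ := b5b_orbit_prod hel hI0 hu ((𝐂[y]).map π) (by
      rintro _ ⟨a, rfl⟩ hne
      have h3 := (hind _ (hA a) hne).2.2
      rw [h.compat] at h3 ⊢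
      exact mem_map_of_mem π (mem_cent1_comm.1 (h.cent_of_map (h.comm_le _ h3))))
    obtain ⟨g, -, rfl, h3⟩ := h.lift_cent (hE hp) fun a => h1 _ ⟨a, rfl⟩
    have h4 : π g ∈ (𝐂[y]).map π := mem_map_of_mem π (U4.cent_le_cent1 (h.mem_of_map hv) h3)
    refine h.cent_of_map ?_
    have := mul_mem h4 (inv_mem h2)
    simpa using this
  obtain ⟨z, hz, e4⟩ : ∃ z, π z = 1 ∧ f * y * f⁻¹ = x * y * z :=
    h.exists_ker (by rw [map_mul π (f * y), map_mul π f, map_inv, e2, map_mul π x])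
  have hxx : π (x * x) = 1 := by rw [map_mul]; exact hel _ hu
  have hyy : y * y = x * x := by
    calc y * y = f * (x * x) * f⁻¹ := by rw [hydef]; group
      _ = _ := by rw [h.hk _ hxx f]; group
  have ht : (x * z) * (x * z) = 1 := by
    have c1 : f * (y * y) * f⁻¹ = y * y := by rw [hyy, h.hk _ hxx f]; group
    have c2 : (x * y * z) * (x * y * z) = y * y := by rw [← e4, ← c1]; group
    have c3 : x * y = y * x := mem_cent1.1 hxy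
    have c4 : (x * z) * (x * z) * (y * y) = y * y := by
      have c5 : z * y = y * z := (h.hk z hz y).symm
      calc (x * z) * (x * z) * (y * y) = x * z * x * (z * y) * y := by simp only [mul_assoc]
        _ = x * z * (x * y) * (z * y) := by rw [c5]; simp only [mul_assoc, c5]
        _ = x * (z * y) * x * (z * y) := by rw [c3]; simp only [mul_assoc]
        _ = (x * y * z) * (x * y * z) := by rw [c5]; simp only [mul_assoc]
        _ = y * y := c2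
    exact mul_eq_right.1 c4
  have hπt : π (x * z) = π x := by rw [map_mul, hz, mul_one]
  generalize x * z = t at ht hπt
  have hc : ∀ a, t * φ a t = φ a t * t := by
    intro a
    by_cases hne : ψ a (π x) = π x
    · obtain ⟨z', hz', e5⟩ : ∃ z', π z' = 1 ∧ φ a t = t * z' :=
        h.exists_ker (by rw [← h.compat, hπt, hne])
      rw [e5, mul_assoc, ← h.hk z' hz' t]
    · have h3 := (hind _ (hA a) hne).2.1
      rw [← hπt, h.compat] at h3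
      exact mem_cent1.1 (h.cent_of_map (h.comm_le _ h3))
  have hJ : El (closure (Set.range fun a => φ a t)) := by
    refine Msc.el_closure ?_ ?_
    · rintro _ ⟨a, rfl⟩
      rw [← map_mul, ht, map_one]
    · rintro _ ⟨a, rfl⟩ _ ⟨b, rfl⟩
      have := congrArg (φ a) (hc (a⁻¹ * b))
      have e0 : φ a (φ (a⁻¹ * b) t) = φ b t := by
        rw [← MulAut.mul_apply, ← map_mul, mul_inv_cancel_left]
      rwa [map_mul (φ a), map_mul (φ a), e0] at this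
  have hi : ∀ a, ∀ w ∈ closure (Set.range fun a => φ a t),
      φ a w ∈ closure (Set.range fun a => φ a t) := by
    intro a w hw
    have : closure (Set.range fun a => φ a t) ≤
        (closure (Set.range fun a => φ a t)).comap (φ a).toMonoidHom := by
      rw [closure_le]
      rintro _ ⟨b, rfl⟩
      exact subset_closure ⟨a * b, by simp⟩
    exact this hw
  have hm : ∀ a, ψ a (π x) ∈ (closure (Set.range fun a => φ a t)).map π := fun a => by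
    rw [← hπt, h.compat]
    exact mem_map_of_mem π (subset_closure ⟨a, rfl⟩)
  obtain ⟨p, hp, h1, h2⟩ := b5b_orbit_prod hel hI0 hu
    (𝐂[e] ⊓ (closure (Set.range fun a => φ a t)).map π) (by
      rintro _ ⟨a, rfl⟩ hne
      exact ⟨mem_cent1_comm.1 (hind _ (hA a) hne).1, hm a⟩)
  have h3 : p ∈ (center Γ).map π := by
    refine h.LJ hi hJ ?_ fun a => h1 _ ⟨a, rfl⟩
    have h4 := hm 1
    rw [map_one, MulAut.one_apply] at h4
    simpa using mul_mem h4 h2.2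
  obtain ⟨c, hc0, rfl⟩ := h3
  have h5 : π c ∈ 𝐂[e] := by
    obtain ⟨e, rfl⟩ := h.surj e
    rw [mem_cent1, ← map_mul, ← map_mul, mem_center_iff.1 hc0]
  have h6 := (𝐂[e]).mul_mem h2.1 ((𝐂[e]).inv_mem h5)
  rw [mul_inv_cancel_right] at h6
  exact he (mem_cent1_comm.1 (inv_mem_iff.1 h6))

theorem fixR_core {𝔄 : Subgroup (MulAut Y)} (hA : ∀ a, ψ a ∈ 𝔄) (D : Subgroup Y)
    (hD : D ≤ Ph.map π) (hI : Inv 𝔄 D) (p : Y) (hp : p ∈ Ph.map π)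
    (hf : ∀ σ ∈ 𝔄, p⁻¹ * σ p ∈ D) : ∃ c ∈ Ph.map π ⊓ 𝐂(Ph.map π), p⁻¹ * c ∈ D := by
  obtain ⟨g, hg, rfl⟩ := hp
  have hU : D.comap π ≤ Ph := fun x hx => h.mem_of_map (hD hx)
  obtain ⟨u, hu, h1⟩ := h.lift_mod hU (fun a x hx => by
      rw [mem_comap, ← h.compat]
      exact hI.b5mem (hA a) hx) (g := g)
    fun a => by
      rw [mem_comap, map_mul, map_inv, ← h.compat]
      exact hf _ (hA a)
  have h2 : g * u ∈ Ph := mul_mem hg (hU hu)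
  have h3 := h.cq _ h2 h1
  refine ⟨π (g * u), ⟨mem_map_of_mem π h2, mem_cent.2 ?_⟩, by simpa using hu⟩
  rintro _ ⟨w, hw, rfl⟩
  rw [← map_mul, ← map_mul, mem_cent.1 h3 w hw]

end Cv

/-- The explicit form of the hypotheses gives a cover. -/
theorem exists_cv (π : Γ →* Y) (surj : Function.Surjective π) (hk : π.ker ≤ center Γ)
    (𝔅 : Subgroup (MulAut Γ)) (cop : (Nat.card 𝔅).Coprime (Nat.card Γ)) (Ph : Subgroup Γ)
    (pg : IsPGroup 2 Ph) (inv : Inv 𝔅 Ph) (kerle : π.ker ≤ Ph)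
    (cq : ∀ g ∈ Ph, (∀ β ∈ 𝔅, β g = g) → g ∈ 𝐂(Ph))
    (ct : ∀ t : Γ, t * t = 1 → (∀ β ∈ 𝔅, β t = t) → t ∈ center Γ)
    (𝔄 : Subgroup (MulAut Y)) (hA : ∀ β ∈ 𝔅, ∃ σ ∈ 𝔄, ∀ g, σ (π g) = π (β g)) :
    ∃ ψ : 𝔅 →* MulAut Y, (∀ a, ψ a ∈ 𝔄) ∧ Cv π 𝔅.subtype ψ Ph := by
  choose s hs1 hs2 using hA
  refine ⟨MonoidHom.mk' (fun a => s a.1 a.2) ?_, fun a => hs1 _ _, surj,
    fun z hz g => mem_center_iff.1 (hk hz) g, cop, pg, fun a x hx => inv.b5mem a.2 hx,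
    fun z hz => kerle hz, fun g hg h1 => cq g hg fun β hβ => h1 ⟨β, hβ⟩,
    fun t h0 h1 => ct t h0 fun β hβ => h1 ⟨β, hβ⟩, fun a g => hs2 _ a.2 g⟩
  intro a b
  ext y
  obtain ⟨g, rfl⟩ := surj y
  rw [MulAut.mul_apply, hs2, hs2, hs2]
  rfl

section Explicit

variable (π : Γ →* Y) (surj : Function.Surjective π) (hk : π.ker ≤ center Γ)
    (𝔅 : Subgroup (MulAut Γ)) (cop : (Nat.card 𝔅).Coprime (Nat.card Γ)) (Ph : Subgroup Γ)
    (pg : IsPGroup 2 Ph) (inv : Inv 𝔅 Ph) (kerle : π.ker ≤ Ph)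
    (cq : ∀ g ∈ Ph, (∀ β ∈ 𝔅, β g = g) → g ∈ 𝐂(Ph))
    (ct : ∀ t : Γ, t * t = 1 → (∀ β ∈ 𝔅, β t = t) → t ∈ center Γ)
    (𝔄 : Subgroup (MulAut Y)) (hA : ∀ β ∈ 𝔅, ∃ σ ∈ 𝔄, ∀ g, σ (π g) = π (β g))
include surj hk cop pg inv kerle cq ct hA

/-- The field `TC.fin`. -/
theorem fin_core0 : ∀ (E : Subgroup Y) (u v f e : Y), E ≤ Ph.map π → El E → Inv 𝔄 E → u ∈ E →
    v ∈ Ph.map π → f * u * f⁻¹ = v → f * v * f⁻¹ = u * v → u * v = v * u → e ∉ 𝐂[u] →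
    (∀ σ ∈ 𝔄, σ u ≠ u → e ∈ 𝐂[σ u] ∧ u ∈ ⁅𝐂[σ u], 𝐂[σ u]⁆ ∧ v ∈ ⁅𝐂[σ u], 𝐂[σ u]⁆) → False := by
  obtain ⟨ψ, h1, h⟩ := exists_cv π surj hk 𝔅 cop Ph pg inv kerle cq ct 𝔄 hA
  exact h.fin_core h1

theorem fin_core (_hz : center Γ ≤ π.ker) : ∀ (E : Subgroup Y) (u v f e : Y), E ≤ Ph.map π → El E →
    Inv 𝔄 E → u ∈ E →
    v ∈ Ph.map π → f * u * f⁻¹ = v → f * v * f⁻¹ = u * v → u * v = v * u → e ∉ 𝐂[u] →
    (∀ σ ∈ 𝔄, σ u ≠ u → e ∈ 𝐂[σ u] ∧ u ∈ ⁅𝐂[σ u], 𝐂[σ u]⁆ ∧ v ∈ ⁅𝐂[σ u], 𝐂[σ u]⁆) → False :=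
  fin_core0 π surj hk 𝔅 cop Ph pg inv kerle cq ct 𝔄 hA

theorem lift_core (_hz : center Γ ≤ π.ker) {J : Subgroup Γ} (hi : Inv 𝔅 J) {w : Y} (hw : w ∈ J.map π)
    (hf : ∀ β ∈ 𝔅, ∀ σ ∈ 𝔄, (∀ g, σ (π g) = π (β g)) → σ w = w) :
    ∃ g ∈ J, π g = w ∧ ∀ β ∈ 𝔅, β g = g := by
  obtain ⟨ψ, h1, h⟩ := exists_cv π surj hk 𝔅 cop Ph pg inv kerle cq ct 𝔄 hA
  obtain ⟨g, hg, e, h2⟩ := h.lift (fun a x hx => hi.b5mem a.2 hx) hw
    fun a => hf _ a.2 _ (h1 a) (h.compat a)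
  exact ⟨g, hg, e, fun β hβ => h2 ⟨β, hβ⟩⟩

theorem LJ_core (hz : center Γ ≤ π.ker) {J : Subgroup Γ} (hi : Inv 𝔅 J) (hJ : El J) {w : Y} (hw : w ∈ J.map π)
    (hf : ∀ β ∈ 𝔅, ∀ σ ∈ 𝔄, (∀ g, σ (π g) = π (β g)) → σ w = w) : w = 1 := by
  obtain ⟨ψ, h1, h⟩ := exists_cv π surj hk 𝔅 cop Ph pg inv kerle cq ct 𝔄 hA
  obtain ⟨c, hc, rfl⟩ :=
    h.LJ (fun a x hx => hi.b5mem a.2 hx) hJ hw fun a => hf _ a.2 _ (h1 a) (h.compat a)
  exact hz hc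

end Explicit

end CfsgLib.TZ
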