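import Cfsg.Agent.Lib.TZ.Defs
import Cfsg.Agent.Lib.TG.B5b
import Cfsg.Agent.Lib.TG.B3a
import Cfsg.Agent.Lib.TG.Can

set_option autoImplicit false

namespace CfsgLib.TZ

open Subgroup Cfsg CfsgLib.FT CfsgLib.FT.BGN CfsgLib.GW CfsgLib.Wal CfsgLib.TG
open CfsgLib.FT.U4 (mem_cent1 mem_cent1' mem_cent mem_cent1_comm cent1_conj conj_mem_conj_iff
  orderOf_conj)
open scoped commutatorElement

variable {X : Type*} [Group X] [Finite X] {T W : Subgroup X} {u : X}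

theorem Ind3.ind (h : Ind3 T W u) : Ind T u := by
  obtain ⟨e, he, h⟩ := h
  exact ⟨e, he, fun σ h1 h2 h3 => (h σ h1 h2 h3).1⟩

/-- A three-cycle on the involutions of `W`. -/
theorem exists_three_cycle {H A0 : Subgroup X} {d z0 : X} (h : VxD T W u H A0 d z0) :
    ∃ v ∈ W, ∃ f : X, f * u * f⁻¹ = v ∧ f * v * f⁻¹ = u * v := by
  obtain ⟨a, ha, haW⟩ := h.exists_a
  have haN : a ∈ 𝐍(W) := (h.AN ha).2
  have hau : a ∈ 𝐂[u] := h.Nu (h.AN ha)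
  have hdN : d ∈ 𝐍(W) := h.HW h.dH
  have hw : d * u * d⁻¹ ∈ W := h.conj_mem
  have hwu : d * u * d⁻¹ ≠ u := h.conj_ne
  have hw1 : d * u * d⁻¹ ≠ 1 := fun e => h.u1 (by
    have : u = d⁻¹ * (d * u * d⁻¹) * d := by group
    rw [this, e]; group)
  have hbN : d * a * d⁻¹ ∈ 𝐍(W) := mul_mem (mul_mem hdN haN) (inv_mem hdN)
  have hbw : d * a * d⁻¹ ∈ 𝐂[d * u * d⁻¹] := by
    refine mem_cent1.2 ?_
    have e := mem_cent1.1 hau
    calc d * a * d⁻¹ * (d * u * d⁻¹) = d * (a * u) * d⁻¹ := by group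
      _ = d * (u * a) * d⁻¹ := by rw [e]
      _ = d * u * d⁻¹ * (d * a * d⁻¹) := by group
  have hbW : d * a * d⁻¹ ∉ 𝐂(W) := fun e => haW (by
    have := B3.cent_conj (inv_mem hdN) e
    have e2 : d⁻¹ * (d * a * d⁻¹) * d⁻¹⁻¹ = a := by group
    rwa [e2] at this)
  have e1 := four_conj' h.elW h.cardW h.uW h.u1 haN hau haW hw hw1 hwu
  have e2 := four_conj' h.elW h.cardW hw hw1 hbN hbw hbW h.uW h.u1 hwu.symm
  have e3 : a * u * a⁻¹ = u := B3.conj_eq_of_cent1 hau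
  have e4 := B3.conj_eq_of_cent1 hbw
  have e5 : u * (d * u * d⁻¹) = d * u * d⁻¹ * u := h.elW.comm h.uW hw
  have e6 : u * u = 1 := h.elW u h.uW
  refine ⟨d * u * d⁻¹, hw, a * (d * a * d⁻¹), ?_, ?_⟩
  · calc a * (d * a * d⁻¹) * u * (a * (d * a * d⁻¹))⁻¹
        = a * (d * a * d⁻¹ * u * (d * a * d⁻¹)⁻¹) * a⁻¹ := by group
      _ = (a * u * a⁻¹) * (a * (d * u * d⁻¹) * a⁻¹) := by rw [e2]; group
      _ = (u * (d * u * d⁻¹)) * u := by rw [e1, e3]; simp only [mul_assoc]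
      _ = d * u * d⁻¹ := by rw [e5, mul_assoc, e6, mul_one]
  · calc a * (d * a * d⁻¹) * (d * u * d⁻¹) * (a * (d * a * d⁻¹))⁻¹
        = a * (d * a * d⁻¹ * (d * u * d⁻¹) * (d * a * d⁻¹)⁻¹) * a⁻¹ := by group
      _ = u * (d * u * d⁻¹) := by rw [e4, e1, e5]

theorem TC.final {P : Subgroup X} {𝔄 : Subgroup (MulAut X)} (hc : TC P 𝔄) (hTP : T ≤ P)
    (hI : Inv 𝔄 T) (hT : GS T) (h : Vx T W u) (ind : Ind3 T W u) (hJ : WB T T ≤ 𝐂[u]) :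
    False := by
  obtain ⟨H, A0, d, z0, h⟩ := h
  obtain ⟨e, he, hind⟩ := ind
  obtain ⟨v, hv, f, e1, e2⟩ := exists_three_cycle h
  have hu0 := h.W_le_Om hT h.uW
  have hu : u ∈ Om (WB T T) :=
    ⟨WB_mono inf_le_left hu0.1, mem_cent.2 fun y hy => mem_cent1.1 (hJ hy), hu0.2.2⟩
  have hIJ : Inv 𝔄 (Om (WB T T)) := fun σ hσ => by
    rw [am_Om, ← WB_am (hI σ hσ), hI σ hσ]
  refine hc.fin (Om (WB T T)) u v f e ((Om_le _).trans ((WB_le T T).trans hTP)) (Om_el _) hIJ hu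
    (hTP (h.WT hv)) e1 e2 (h.elW.comm h.uW hv) he fun σ hσ hne => ?_
  have h1 := hind σ (hI σ hσ) hne (by
    rw [b5b_WB_inf_cent_eq (hIJ.b5mem hσ hu).2.1, b5b_WB_inf_cent_eq hu.2.1])
  exact ⟨h1.1, h1.2 h.uW, h1.2 hv⟩

end CfsgLib.TZ
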