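import Cfsg.Agent.Lib.TG.B5b
import Cfsg.Agent.Lib.TZ.Defs
import Cfsg.Agent.Lib.CoprimeAut

set_option autoImplicit false
set_option linter.unusedSectionVars false
set_option linter.unusedVariables false

namespace CfsgLib.TZ

open Subgroup Cfsg CfsgLib.FT CfsgLib.FT.BGN CfsgLib.GW CfsgLib.Wal CfsgLib.TG
open CfsgLib.FT.U4 (mem_cent)

theorem fixR_core {Γ Y : Type*} [Group Γ] [Finite Γ] [Group Y] [Finite Y] (π : Γ →* Y)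
    (surj : Function.Surjective π) (hk : π.ker ≤ center Γ) (𝔅 : Subgroup (MulAut Γ))
    (cop : (Nat.card 𝔅).Coprime (Nat.card Γ)) (Ph : Subgroup Γ) (pg : IsPGroup 2 Ph)
    (inv : Inv 𝔅 Ph) (kerle : π.ker ≤ Ph)
    (cq : ∀ g ∈ Ph, (∀ β ∈ 𝔅, β g = g) → g ∈ 𝐂(Ph))
    (ct : ∀ t : Γ, t * t = 1 → (∀ β ∈ 𝔅, β t = t) → t ∈ center Γ) (𝔄 : Subgroup (MulAut Y))
    (hA : ∀ β ∈ 𝔅, ∃ σ ∈ 𝔄, ∀ g, σ (π g) = π (β g)) :
    ∀ D : Subgroup Y, D ≤ Ph.map π → Inv 𝔄 D → ∀ p ∈ Ph.map π, (∀ σ ∈ 𝔄, p⁻¹ * σ p ∈ D) →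
      ∃ c ∈ Ph.map π ⊓ 𝐂(Ph.map π), p⁻¹ * c ∈ D := by
  rintro D hD hI _ ⟨g, hg, rfl⟩ hp
  have := Fact.mk Nat.prime_two
  have h1 : D.comap π ≤ Ph := (comap_mono hD).trans (by rw [comap_map_eq, sup_eq_left.2 kerle])
  have h2 : Group.IsSolvable (D.comap π) := by
    have := (pg.to_le h1).isNilpotent
    infer_instance
  obtain ⟨u, hu, h3⟩ := CopAut.exists_mul_fixed_of_coset (φ := 𝔅.subtype) (U := D.comap π)
    (fun β x hx => by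
      obtain ⟨σ, hσ, e⟩ := hA β β.2
      change π (β.1 x) ∈ D
      rw [← e]
      exact hI.b5mem hσ hx)
    (cop.coprime_dvd_right (card_subgroup_dvd_card _)) (Or.inr h2) (g := g) (fun β => by
      obtain ⟨σ, hσ, e⟩ := hA β β.2
      change π (g⁻¹ * β.1 g) ∈ D
      rw [map_mul, map_inv, ← e]
      exact hp σ hσ)
  have h4 : g * u ∈ Ph := Ph.mul_mem hg (h1 hu)
  have h5 := cq _ h4 fun β hβ => h3 ⟨β, hβ⟩
  refine ⟨π (g * u), ⟨⟨_, h4, rfl⟩, mem_cent.2 ?_⟩, ?_⟩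
  · rintro _ ⟨x, hx, rfl⟩
    rw [← map_mul, ← map_mul, mem_cent.1 h5 x hx]
  · rw [map_mul, inv_mul_cancel_left]
    exact hu

end CfsgLib.TZ
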