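import Cfsg.Agent.Lib.TG.B5b
import Cfsg.Agent.Lib.TG.MSa
import Cfsg.Agent.Lib.TZ.Defs
import Cfsg.Agent.Lib.CoprimeAut

set_option autoImplicit false
set_option linter.unusedSectionVars false
set_option linter.unusedVariables false

namespace CfsgLib.TZ

open Subgroup Cfsg CfsgLib.FT CfsgLib.FT.BGN CfsgLib.GW CfsgLib.Wal CfsgLib.TG
open CfsgLib.FT.U4 (mem_cent)
open scoped commutatorElement

/-- An invariant class of subgroups under an invariant subgroup has an invariant member. -/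
theorem fv_exists_inv_conj {A G : Type*} [Group A] [Group G] [Finite A] [Finite G]
    (φ : A →* MulAut G) (hcop : (Nat.card A).Coprime (Nat.card G)) (hs : Group.IsSolvable A)
    {N H : Subgroup G} (hN : CopAut.Inv φ N)
    (hH : ∀ a, ∃ g ∈ N, H.map (φ a).toMonoidHom = H.map (MulAut.conj g).toMonoidHom) :
    ∃ g ∈ N, CopAut.Inv φ (H.map (MulAut.conj g).toMonoidHom) := by
  have := CopAut.finite_semidirect (φ := φ)
  obtain ⟨_, ⟨g, hg, rfl⟩, h1⟩ := Cop.exists_invariant_conj (CopAut.R_top_le_normalizer_iff.2 hN)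
    (CopAut.coprime_R_L (hcop.coprime_dvd_right (card_subgroup_dvd_card N)))
    (CopAut.solvable_or (Or.inl hs)) (H := CopAut.L φ H) (by
      rintro _ ⟨a, -, rfl⟩
      obtain ⟨g, hg, e⟩ := hH a
      refine ⟨SemidirectProduct.inl g, CopAut.inl_mem_L.2 hg, ?_⟩
      rw [CopAut.L_map_conj, ← e]
      simp only [CopAut.L, map_map]
      congr 1
      exact MonoidHom.ext fun x => CopAut.inr_conj_inl a x)
  rw [CopAut.L_map_conj] at h1
  exact ⟨g, hg, CopAut.R_top_le_normalizer_iff.1 h1⟩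

theorem fv_mem_zpowers {Y : Type*} [Group Y] {v w : Y} (hv : v * v = 1) :
    w ∈ zpowers v ↔ w = 1 ∨ w = v := by
  constructor
  · rintro ⟨n, rfl⟩
    have h2 : v ^ (2 : ℤ) = 1 := by rw [zpow_two, hv]
    rcases Int.even_or_odd' n with ⟨k, rfl | rfl⟩
    · exact Or.inl (by simp only [zpow_mul, h2, one_zpow])
    · exact Or.inr (by simp only [zpow_add, zpow_mul, h2, one_zpow, zpow_one, one_mul])
  · rintro (rfl | rfl)
    · exact one_mem _
    · exact mem_zpowers _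

theorem fixV_core {Γ X : Type*} [Group Γ] [Finite Γ] [Group X] [Finite X] (π : Γ →* X)
    (surj : Function.Surjective π) (hk : π.ker ≤ center Γ) (𝔅 : Subgroup (MulAut Γ))
    (cop : (Nat.card 𝔅).Coprime (Nat.card Γ)) (Ph : Subgroup Γ) (pg : IsPGroup 2 Ph)
    (inv : Inv 𝔅 Ph) (kerle : π.ker ≤ Ph)
    (cq : ∀ g ∈ Ph, (∀ β ∈ 𝔅, β g = g) → g ∈ 𝐂(Ph))
    (ct : ∀ t : Γ, t * t = 1 → (∀ β ∈ 𝔅, β t = t) → t ∈ center Γ) (𝔄 : Subgroup (MulAut X))
    (hA : ∀ β ∈ 𝔅, ∃ σ ∈ 𝔄, ∀ g, σ (π g) = π (β g)) (hsol : Group.IsSolvable 𝔅) :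
    ∀ Y H : Subgroup X, Y ≤ Ph.map π → El Y → Inv 𝔄 Y → H ≤ 𝐍(Y) → Odd (Nat.card H) →
      ∀ v ∈ ⁅Y, H⁆, (∀ σ ∈ 𝔄, ∃ g ∈ 𝐍(Y), σ v = g * v * g⁻¹) → v = 1 := by
  intro Y H hY hE hI hH hO v hv hσ
  by_contra hv1
  have := Fact.mk Nat.prime_two
  have hvY : v ∈ Y := MSa.comm_le hH hv
  have hvv : v * v = 1 := hE v hvY
  have hinv : ∀ D : Subgroup X, Inv 𝔄 D → CopAut.Inv 𝔅.subtype (D.comap π) := fun D hD β x hx => by
    obtain ⟨σ, hσ, e⟩ := hA β β.2
    change π (β.1 x) ∈ D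
    rw [← e]
    exact hD.b5mem hσ hx
  have hIN : Inv 𝔄 𝐍(Y) := fun σ h => by rw [am_norm, hI σ h]
  -- a fixed conjugate
  obtain ⟨g, hg, h1⟩ := fv_exists_inv_conj 𝔅.subtype cop hsol (hinv _ hIN)
    (H := (zpowers v).comap π) (fun β => by
      obtain ⟨σ, h2, e⟩ := hA β β.2
      obtain ⟨n, hn, e2⟩ := hσ σ h2
      obtain ⟨n, rfl⟩ := surj n
      refine ⟨n, hn, eq_of_le_of_card_ge ?_ ?_⟩
      · rintro _ ⟨x, hx, rfl⟩
        rw [mem_map_conj_iff, mem_comap, map_mul, map_mul, map_inv]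
        change (π n)⁻¹ * π (β.1 x) * π n ∈ zpowers v
        rw [← e]
        rcases (fv_mem_zpowers hvv).1 hx with h3 | h3
        · rw [h3, map_one, mul_one, inv_mul_cancel]; exact one_mem _
        · rw [h3, e2, show (π n)⁻¹ * (π n * v * (π n)⁻¹) * π n = v by group]
          exact mem_zpowers _
      · rw [card_map_of_injective (MulAut.conj n).injective,
          card_map_of_injective (𝔅.subtype β).injective])
  have hg' : π g ∈ 𝐍(Y) := hg
  set w := π g * v * (π g)⁻¹ with hw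
  have hwY : w ∈ Y := CO.norm_mem hg' hvY
  have hw1 : w ≠ 1 := U4.conj_ne_one_iff.2 hv1
  have hfix : ∀ β ∈ 𝔅, ∀ x, π x = w → π (β x) = w := by
    intro β hβ x hx
    have h2 : x ∈ ((zpowers v).comap π).map (MulAut.conj g).toMonoidHom := by
      rw [mem_map_conj_iff, mem_comap, map_mul, map_mul, map_inv, hx, hw,
        show (π g)⁻¹ * (π g * v * (π g)⁻¹) * π g = v by group]
      exact mem_zpowers _
    have h3 := h1 ⟨β, hβ⟩ x h2
    rw [mem_map_conj_iff, mem_comap, map_mul, map_mul, map_inv] at h3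
    change (π g)⁻¹ * π (β x) * π g ∈ zpowers v at h3
    rcases (fv_mem_zpowers hvv).1 h3 with h4 | h4
    · obtain ⟨σ, -, e⟩ := hA β hβ
      rw [← e, hx] at h4
      have h5 : σ w = 1 := by
        calc σ w = π g * ((π g)⁻¹ * σ w * π g) * (π g)⁻¹ := by group
          _ = 1 := by rw [h4]; group
      exact absurd (by simpa using h5) hw1
    · rw [hw, ← h4]; group
  -- lifting inside an invariant subgroup of `Ph`
  have lift : ∀ K : Subgroup Γ, K ≤ Ph → CopAut.Inv 𝔅.subtype K → w ∈ K.map π →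
      ∃ t ∈ K, π t = w ∧ ∀ β ∈ 𝔅, β t = t := by
    rintro K hK hKi ⟨x, hx, e⟩
    have h2 : Group.IsSolvable (K ⊓ π.ker : Subgroup Γ) := by
      have := (pg.to_le (inf_le_left.trans hK : K ⊓ π.ker ≤ Ph)).isNilpotent
      infer_instance
    obtain ⟨u, hu, h3⟩ := CopAut.exists_mul_fixed_of_coset (φ := 𝔅.subtype) (U := K ⊓ π.ker)
      (fun β y hy => ⟨hKi β y hy.1, by
        obtain ⟨σ, -, e⟩ := hA β β.2
        change π (β.1 y) = 1
        rw [← e, show π y = 1 from hy.2, map_one]⟩)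
      (cop.coprime_dvd_right (card_subgroup_dvd_card _)) (Or.inr h2) (g := x) (fun β =>
        ⟨K.mul_mem (K.inv_mem hx) (hKi β x hx), by
          change π (x⁻¹ * β.1 x) = 1
          rw [map_mul, map_inv, hfix β β.2 x e, e, inv_mul_cancel]⟩)
    exact ⟨x * u, mul_mem hx hu.1, by rw [map_mul, e, show π u = 1 from hu.2, mul_one],
      fun β hβ => h3 ⟨β, hβ⟩⟩
  have hYh : Y.comap π ≤ Ph := (comap_mono hY).trans (by rw [comap_map_eq, sup_eq_left.2 kerle])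
  obtain ⟨t, ht, htw, htf⟩ := lift _ hYh (hinv Y hI) (by rwa [map_comap_eq_self_of_surjective surj])
  have htc : t ∈ 𝐂(Y.comap π) := centralizer_le (SetLike.coe_subset_coe.2 hYh) (cq t (hYh ht) htf)
  -- the odd group
  set H1 := π g •ᶜ H with hH1
  have hH1N : H1 ≤ 𝐍(Y) := cj_le_of_norm hH (le_normalizer hg')
  have hH1O : Odd (Nat.card H1) := by rw [hH1, card_map_conj]; exact hO
  have hwH : w ∈ ⁅Y, H1⁆ := by
    rw [hH1, ← CO.cj_eq hg', ← cj_commutator]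
    exact CO.cj_mem hv
  set Z := Y.comap π ⊓ 𝐂(Y.comap π) with hZ
  have hZn : ∀ x : Γ, π x ∈ 𝐍(Y) → ∀ z ∈ Z, x * z * x⁻¹ ∈ Z := by
    intro x hx z hz
    refine ⟨?_, mem_cent.2 fun y hy => ?_⟩
    · change π (x * z * x⁻¹) ∈ Y
      rw [map_mul, map_mul, map_inv]
      exact CO.norm_mem hx hz.1
    · have h2 : x⁻¹ * y * x ∈ Y.comap π := by
        change π (x⁻¹ * y * x) ∈ Y
        rw [map_mul, map_mul, map_inv]
        simpa using CO.norm_mem (inv_mem hx) (show π y ∈ Y from hy)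
      have h3 := mem_cent.1 hz.2 _ h2
      calc y * (x * z * x⁻¹) = x * (x⁻¹ * y * x * z) * x⁻¹ := by group
        _ = _ := by rw [h3]; group
  have hRY : Z.map π ≤ Y := map_le_iff_le_comap.2 inf_le_left
  have hRE : El (Z.map π) := fun x hx => hE x (hRY hx)
  have hRN : H1 ≤ 𝐍(Z.map π) := fun h hh => mem_normalizer_of_conj_mem (by
    rintro _ ⟨z, hz, rfl⟩
    obtain ⟨x, rfl⟩ := surj h
    exact ⟨_, hZn x (hH1N hh) z hz, by simp⟩)
  obtain ⟨y, hy, c, hc, e⟩ := MSa.split hRE hRN hH1O (v := w) ⟨t, ⟨ht, htc⟩, htw⟩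
  have hc1 : c = 1 := MSa.eq_one hE hH1N hH1O (by
    rw [eq_inv_mul_of_mul_eq e]
    exact mul_mem (inv_mem (commutator_mono hRY le_rfl hy)) hwH) hc.2
  rw [hc1, mul_one] at e
  have hJ : ⁅Z.map π, H1⁆ ≤ (Om (Y.comap π)).map π := commutator_le.2 (by
    rintro _ ⟨z, hz, rfl⟩ h hh
    obtain ⟨x, rfl⟩ := surj h
    have h2 := hZn x (hH1N hh) _ (inv_mem hz)
    refine ⟨⁅z, x⁆, ?_, by simp [commutatorElement_def]⟩
    have e1 : ⁅z, x⁆ = z * (x * z⁻¹ * x⁻¹) := by simp only [commutatorElement_def, mul_assoc]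
    have h3 : z * z ∈ center Γ := hk (by
      change π (z * z) = 1
      rw [map_mul]; exact hE _ hz.1)
    refine ⟨e1 ▸ (mul_mem hz h2).1, e1 ▸ (mul_mem hz h2).2, ?_⟩
    rw [e1]
    have h4 := mem_cent.1 hz.2 _ h2.1
    have h5 := mem_center_iff.1 h3 x
    calc z * (x * z⁻¹ * x⁻¹) * (z * (x * z⁻¹ * x⁻¹))
        = z * ((x * z⁻¹ * x⁻¹) * z) * (x * z⁻¹ * x⁻¹) := by group
      _ = z * (z * (x * z⁻¹ * x⁻¹)) * (x * z⁻¹ * x⁻¹) := by rw [h4]
      _ = z * z * x * (z * z)⁻¹ * x⁻¹ := by group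
      _ = 1 := by rw [← h5]; group)
  obtain ⟨s, hs, hsw, hsf⟩ := lift (Om (Y.comap π)) (fun x hx => hYh hx.1) (fun β x hx => by
    have h2 : β.1 •ᵃ Y.comap π = Y.comap π := CopAut.inv_iff_map_eq.1 (hinv Y hI) β
    change β.1 x ∈ Om (Y.comap π)
    rw [← h2, ← am_Om]
    exact am_mem.2 hx) (hJ (e ▸ hy))
  have h6 := ct s hs.2.2 hsf
  refine hw1 (MSa.eq_one hE hH1N hH1O hwH (mem_cent.2 fun h _ => ?_))
  obtain ⟨x, rfl⟩ := surj h
  rw [← hsw, ← map_mul, ← map_mul, mem_center_iff.1 h6 x]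

end CfsgLib.TZ
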