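import Cfsg.Agent.Lib.TZ.Final
import Cfsg.Agent.Lib.TG.B3b
import Cfsg.Agent.Lib.TG.B3c
import Cfsg.Agent.Lib.TG.B5a
import Cfsg.Agent.Lib.TG.B5b

/-! The strengthened independence property and the endgame of the variant `TZ`. -/

set_option autoImplicit false

namespace CfsgLib.TZ

open Subgroup Cfsg CfsgLib.FT CfsgLib.FT.BGN CfsgLib.GW CfsgLib.Wal CfsgLib.TG CfsgLib.TG.B3
open CfsgLib.FT.U4 (mem_cent1 mem_cent1' mem_cent mem_cent1_comm cent1_conj conj_mem_conj_iff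
  orderOf_conj)
open scoped commutatorElement

variable {X : Type*} [Group X] [Finite X] {T : Subgroup X}

variable {W : Subgroup X} {u : X}

/-- A four-group inside `K` on which `K` induces a transvection and moves its centre lies in
`⁅K, K⁆`. -/
theorem i3_le_comm (hW : El W) (h4 : Nat.card W = 4) {c : X} (hc : c ∈ W) (h1 : c ≠ 1)
    {K : Subgroup X} (hK : W ≤ K) {x y : X} (hx : x ∈ K) (hxN : x ∈ 𝐍(W)) (hxc : x ∈ 𝐂[c])
    (hxW : x ∉ 𝐂(W)) (hy : y ∈ K) (hyN : y ∈ 𝐍(W)) (hyc : y ∉ 𝐂[c]) : W ≤ ⁅K, K⁆ := by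
  obtain ⟨v, hv, hv1, hvc⟩ := four_exists h4 c
  have k1 : c ∈ ⁅K, K⁆ := by
    have e : c = ⁅v⁻¹, x⁆ := by
      have := four_conj' hW h4 hc h1 hxN hxc hxW hv hv1 hvc
      calc c = v⁻¹ * (v * c) := by group
        _ = _ := by rw [← this, commutatorElement_def]; group
    rw [e]
    exact commutator_mem_commutator (inv_mem (hK hv)) hx
  have k2 : y * c * y⁻¹ ∈ ⁅K, K⁆ := by
    have e : y * c * y⁻¹ = ⁅y, c⁆ * c := by rw [commutatorElement_def]; group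
    rw [e]
    exact mul_mem (commutator_mem_commutator hy (hK hc)) k1
  intro w hw
  rcases four_mem hW h4 hc h1 (conj_mem_of_mem_normalizer hyN hc) (U4.conj_ne_one_iff.2 h1)
    (fun e => hyc (U4.mem_cent1_of_conj_eq e)) hw with rfl | rfl | rfl | rfl
  · exact one_mem _
  · exact k1
  · exact k2
  · exact mul_mem k2 k1

theorem i3_blk (hT : GS T) (h : Vx T W u) (hb : ¬ T ⊓ 𝐂[u] ≤ 𝐍(W)) :
    ∃ (F : Subgroup X) (v v' t d1 : X), Blk T W F u v v' t d1 ∧ d1 ∈ 𝐍(W) := by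
  obtain ⟨H, A0, d, z0, hD⟩ := id h
  have hTp : IsPGroup 2 T := hT.isPGroup
  have hW := hD.elW
  have h4 := hD.cardW
  have hu := hD.uW
  have h1 := hD.u1
  have hlt : T ⊓ 𝐍(W) < T ⊓ 𝐂[u] :=
    lt_of_le_of_ne (le_inf inf_le_left hD.Nu) (fun e => hb (e ▸ inf_le_right))
  have : Fact (Nat.Prime 2) := ⟨Nat.prime_two⟩
  have hnil : Group.IsNilpotent (T ⊓ 𝐂[u] : Subgroup X) := (hTp.to_le inf_le_left).isNilpotent
  obtain ⟨t, ⟨⟨htT, htu⟩, htN⟩, htn⟩ :=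
    SetLike.exists_of_lt (lt_inf_normalizer_of_isNilpotent hnil hlt)
  have htW : t ∉ 𝐍(W) := fun e => htn ⟨htT, e⟩
  have htu' : t * u * t⁻¹ = u := conj_eq_of_cent1 htu
  have hWN : W ≤ T ⊓ 𝐍(W) := le_inf hD.WT le_normalizer
  have hW'N : t •ᶜ W ≤ T ⊓ 𝐍(W) := cj_le_of_norm hWN htN
  have hNW' : T ⊓ 𝐍(W) ≤ 𝐍(t •ᶜ W) := by
    have := le_norm_cj (g := t) (inf_le_right : T ⊓ 𝐍(W) ≤ 𝐍(W))
    rwa [map_conj_eq_of_mem_normalizer htN] at this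
  have hvx' : Vx T (t •ᶜ W) u := by
    have := h.cj (le_normalizer htT)
    rwa [htu'] at this
  have hne : W ≠ t •ᶜ W := fun e => htW (mem_normalizer_of_map_conj_eq e.symm)
  have hEN : T ⊓ 𝐂(W) ≤ T ⊓ 𝐍(W) := inf_le_inf_left _ (centralizer_le_normalizer _)
  have hnc : ¬ t •ᶜ W ≤ 𝐂(W) := fun hc => by
    obtain ⟨e, he, he'⟩ := hD.exists_e
    exact he' (hD.two_vx hT hvx' hne hc ((WB_le _ _).trans (hEN.trans hNW')) he)
  obtain ⟨v, hv, hv1, hvu⟩ := four_exists h4 u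
  obtain ⟨v', hv'⟩ : ∃ v', v' = t * v * t⁻¹ := ⟨_, rfl⟩
  have hv'W' : v' ∈ t •ᶜ W := hv' ▸ conj_mem_map_conj hv
  have huW' : u ∈ t •ᶜ W := htu' ▸ conj_mem_map_conj hu
  have hv'N : v' ∈ T ⊓ 𝐍(W) := hW'N hv'W'
  have huC : u ∈ 𝐂(W) := hW.le_cent hu
  have hv'c : v' ∉ 𝐂(W) := fun hc => hnc fun x hx => by
    obtain ⟨y, hy, rfl⟩ := hx
    change t * y * t⁻¹ ∈ 𝐂(W)
    rcases four_mem hW h4 hu h1 hv hv1 hvu hy with rfl | rfl | rfl | rfl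
    · simp
    · rwa [htu']
    · rwa [← hv']
    · have : t * (v * u) * t⁻¹ = v' * u := by
        calc t * (v * u) * t⁻¹ = (t * v * t⁻¹) * (t * u * t⁻¹) := by group
          _ = v' * u := by rw [htu', hv']
      rw [this]
      exact mul_mem hc huC
  have hv'2 : v' * v' = 1 := hW.cj t v' hv'W'
  have hv'i : v'⁻¹ = v' := inv_eq_of_mul_eq_one_right hv'2
  have hv'u : v' ∈ 𝐂[u] := hD.Nu hv'N
  have hNv' : ∀ n ∈ T ⊓ 𝐍(W), n * v' * n⁻¹ = v' ∨ n * v' * n⁻¹ = v' * u := fun n hn =>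
    four_conj (hW.cj t) ((card_map_conj t W).trans h4) huW' h1 (hNW' hn) (hD.Nu hn) hv'W'
  have hdW : d ∈ 𝐍(W) := hD.HW hD.dH
  have hdE : d ∈ 𝐍(T ⊓ 𝐂(W)) := hD.HE hD.dH
  obtain ⟨w, hw⟩ : ∃ w, w = d * u * d⁻¹ := ⟨_, rfl⟩
  have hwW : w ∈ W := hw ▸ conj_mem_of_mem_normalizer hdW hu
  have hw1 : w ≠ 1 := by rw [hw]; simpa using h1
  have hwu : w ≠ u := fun e => hD.du (U4.mem_cent1_of_conj_eq (hw.symm.trans e))
  obtain ⟨v'', hv''⟩ : ∃ v'', v'' = d * v' * d⁻¹ := ⟨_, rfl⟩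
  have hv''N : v'' ∈ 𝐍(W) := hv'' ▸ mul_mem (mul_mem hdW hv'N.2) (inv_mem hdW)
  have hv''w : v'' ∈ 𝐂[w] := by
    rw [hw, hv'', cent1_conj]
    exact conj_mem_map_conj hv'u
  have hv''c : v'' ∉ 𝐂(W) := fun hc => hv'c (by
    have := cent_conj (inv_mem hdW) hc
    rw [hv''] at this
    simpa [mul_assoc] using this)
  have hv''2 : v'' * v'' = 1 := by
    rw [hv'']
    calc d * v' * d⁻¹ * (d * v' * d⁻¹) = d * (v' * v') * d⁻¹ := by group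
      _ = 1 := by rw [hv'2]; group
  have hv''i : v''⁻¹ = v'' := inv_eq_of_mul_eq_one_right hv''2
  have huu : u * u = 1 := hW u hu
  have hww : w * w = 1 := hW w hwW
  have huw : u * w = w * u := hW.comm hu hwW
  have a1 : v' * u * v'⁻¹ = u := conj_eq_of_cent1 hv'u
  have a2 : v' * w * v'⁻¹ = w * u := four_conj' hW h4 hu h1 hv'N.2 hv'u hv'c hwW hw1 hwu
  have b1 : v'' * w * v''⁻¹ = w := conj_eq_of_cent1 hv''w
  have b2 : v'' * u * v''⁻¹ = u * w := four_conj' hW h4 hwW hw1 hv''N hv''w hv''c hu h1 hwu.symm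
  obtain ⟨g, hg⟩ : ∃ g, g = v' * v'' := ⟨_, rfl⟩
  have g1 : g * u * g⁻¹ = w := by
    calc g * u * g⁻¹ = v' * (v'' * u * v''⁻¹) * v'⁻¹ := by rw [hg]; group
      _ = (v' * u * v'⁻¹) * (v' * w * v'⁻¹) := by rw [b2]; group
      _ = u * (w * u) := by rw [a1, a2]
      _ = w := by rw [← mul_assoc, huw, mul_assoc, huu, mul_one]
  have g2 : g * w * g⁻¹ = w * u := by
    calc g * w * g⁻¹ = v' * (v'' * w * v''⁻¹) * v'⁻¹ := by rw [hg]; group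
      _ = w * u := by rw [b1, a2]
  have g3 : g * (w * u) * g⁻¹ = u := by
    calc g * (w * u) * g⁻¹ = (g * w * g⁻¹) * (g * u * g⁻¹) := by group
      _ = w * u * w := by rw [g1, g2]
      _ = u := by rw [← huw, mul_assoc, hww, mul_one]
  have hgu : g ∉ 𝐂[u] := fun e => hwu (g1.symm.trans (conj_eq_of_cent1 e))
  have hfix : ∀ x ∈ W, g * x * g⁻¹ = x → x = 1 := fun x hx e => by
    rcases four_mem hW h4 hu h1 hwW hw1 hwu hx with rfl | rfl | rfl | rfl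
    · rfl
    · exact absurd (g1.symm.trans e) hwu
    · exact absurd (by simpa using g2.symm.trans e) h1
    · have := g3.symm.trans e
      exact absurd (by simpa using this) hw1
  have c1 : ∀ x ∈ T ⊓ 𝐂(W), ∃ c ∈ W, v' * x * v'⁻¹ = x * c := fun x hx => by
    rcases hNv' x⁻¹ (inv_mem (hEN hx)) with e | e
    · refine ⟨1, one_mem _, ?_⟩
      calc v' * x * v'⁻¹ = x * (x⁻¹ * v' * x⁻¹⁻¹) * v'⁻¹ := by group
        _ = x * 1 := by rw [e]; group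
    · refine ⟨u, hu, ?_⟩
      calc v' * x * v'⁻¹ = x * (x⁻¹ * v' * x⁻¹⁻¹) * v'⁻¹ := by group
        _ = x * (v' * u * v'⁻¹) := by rw [e]; group
        _ = x * u := by rw [a1]
  have c2 : ∀ x ∈ T ⊓ 𝐂(W), ∃ c ∈ W, g * x * g⁻¹ = x * c := fun x hx => by
    obtain ⟨c, hc, e⟩ := c1 _ (conj_mem_of_mem_normalizer' hdE hx)
    obtain ⟨c', hc', e'⟩ := c1 x hx
    refine ⟨c' * (v' * (d * c * d⁻¹) * v'⁻¹), mul_mem hc'
      (conj_mem_of_mem_normalizer hv'N.2 (conj_mem_of_mem_normalizer hdW hc)), ?_⟩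
    calc g * x * g⁻¹ = v' * (d * (v' * (d⁻¹ * x * d) * v'⁻¹) * d⁻¹) * v'⁻¹ := by
          rw [hg, hv'']; group
      _ = (v' * x * v'⁻¹) * (v' * (d * c * d⁻¹) * v'⁻¹) := by rw [e]; group
      _ = _ := by rw [e', mul_assoc]
  have hWE : W ≤ T ⊓ 𝐂(W) := le_inf hD.WT hW.le_cent
  have hdec : ∀ x ∈ T ⊓ 𝐂(W), ∃ f ∈ T ⊓ 𝐂(W) ⊓ 𝐂[g], ∃ w ∈ W, x = f * w := fun x hx => by
    obtain ⟨c, hc, e⟩ := c2 x hx
    have key : ∃ b ∈ W, c * (g * b * g⁻¹) = b := by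
      rcases four_mem hW h4 hu h1 hwW hw1 hwu hc with rfl | rfl | rfl | rfl
      · exact ⟨1, one_mem _, by simp⟩
      · exact ⟨w, hwW, by rw [g2, ← mul_assoc, huw, mul_assoc, huu, mul_one]⟩
      · exact ⟨c * u, mul_mem hwW hu, by rw [g3]⟩
      · exact ⟨u, hu, by rw [g1, ← huw, mul_assoc, hww, mul_one]⟩
    obtain ⟨b, hb, e'⟩ := key
    refine ⟨x * b, ⟨mul_mem hx (hWE hb), mem_cent1_comm.1 (U4.mem_cent1_of_conj_eq ?_)⟩, b, hb, ?_⟩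
    · calc g * (x * b) * g⁻¹ = (g * x * g⁻¹) * (g * b * g⁻¹) := by group
        _ = x * b := by rw [e, mul_assoc, e']
    · rw [mul_assoc, hW b hb, mul_one]
  have hFv' : T ⊓ 𝐂(W) ⊓ 𝐂[g] ≤ 𝐂[v'] := fun f hf => by
    rcases hNv' f (hEN hf.1) with e | e
    · exact U4.mem_cent1_of_conj_eq e
    · exfalso
      apply hgu
      have hinv : v'⁻¹ * g * v' = g⁻¹ := by
        rw [hg, mul_inv_rev, hv''i, hv'i]
        calc v' * (v' * v'') * v' = (v' * v') * v'' * v' := by group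
          _ = v'' * v' := by rw [hv'2, one_mul]
      have k1 : v' * f * v'⁻¹ ∈ 𝐂[g] := by
        have k := mem_cent1.1 hf.2
        have k' : f * g⁻¹ = g⁻¹ * f := by
          calc f * g⁻¹ = g⁻¹ * (g * f) * g⁻¹ := by group
            _ = g⁻¹ * f := by rw [← k]; group
        rw [mem_cent1]
        calc v' * f * v'⁻¹ * g = v' * (f * (v'⁻¹ * g * v')) * v'⁻¹ := by group
          _ = v' * ((v'⁻¹ * g * v') * f) * v'⁻¹ := by rw [hinv, k']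
          _ = g * (v' * f * v'⁻¹) := by group
      have k2 : u = (v' * f * v'⁻¹ * f⁻¹)⁻¹ := by
        calc u = v' * u * v'⁻¹ := a1.symm
          _ = (f * v' * f⁻¹) * v'⁻¹ := by rw [e]
          _ = _ := by group
      rw [mem_cent1_comm, k2]
      exact inv_mem (mul_mem k1 (inv_mem hf.2))
  have hEF : T ⊓ 𝐂(W) ≤ 𝐍(T ⊓ 𝐂(W) ⊓ 𝐂[g]) := fun x hx => by
    obtain ⟨f, hf, b, hb, rfl⟩ := hdec x hx
    refine mul_mem (le_normalizer hf) (centralizer_le_normalizer _ ?_)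
    rw [mem_cent]
    intro y hy
    exact (mem_cent.1 hy.1.2 b hb).symm
  refine ⟨T ⊓ 𝐂(W) ⊓ 𝐂[g], v, v', t, g, ⟨hv, hv1, hvu, htT, htu, hv', hv'N.2, hv'c, inf_le_left,
    hFv', ?_, fun n hn => ?_, hdec, inf_le_right, hgu⟩, hg ▸ mul_mem hv'N.2 hv''N⟩
  · rw [eq_bot_iff]
    rintro x ⟨hx1, hx2⟩
    exact hfix x hx2 (conj_eq_of_cent1 (mem_cent1_comm.1 hx1.2))
  · by_cases hc : n ∈ 𝐂(W)
    · exact hEF ⟨hn.1, hc⟩
    · have k : n * v' ∈ T ⊓ 𝐂(W) := ⟨mul_mem hn.1 hv'N.1,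
        four_mul_mem hW h4 hu h1 hn.2 (hD.Nu hn) hc hv'N.2 hv'u hv'c⟩
      have k2 : v' ∈ 𝐍(T ⊓ 𝐂(W) ⊓ 𝐂[g]) := centralizer_le_normalizer _ (by
        rw [mem_cent]
        intro y hy
        exact mem_cent1.1 (hFv' hy))
      have := mul_mem (hEF k) (inv_mem k2)
      simpa using this

/-- (R3) in the block case. -/
theorem i3_block (hT : GS T) (h : Vx T W u) (hb : ¬ T ⊓ 𝐂[u] ≤ 𝐍(W))
    (lc : LC T W u) : Ind3 T W u := by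
  obtain ⟨F, v, v', t, d1, hB, hd1⟩ := i3_blk hT h hb
  obtain ⟨H, A0, d, z0, hD⟩ := id h
  refine ⟨d1, hB.du, fun s hs hne hJ => ?_⟩
  have htu := conj_eq_of_cent1 hB.tu
  have hEu : T ⊓ 𝐂(W) ≤ T ⊓ 𝐂[u] := inf_le_inf_left _ (U4.cent_le_cent1 hD.uW)
  have hWJ : W ≤ WB T (T ⊓ 𝐂[u]) := (hD.W_le_Om hT).trans ((Om_le _).trans (WB_mono hEu))
  have hcj : ∀ g : MulAut X, g •ᵃ T = T → g u = s u → g •ᵃ W ≤ T ⊓ 𝐂(W) := fun g hg e => by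
    have e1 : g •ᵃ (T ⊓ 𝐂[u]) = T ⊓ 𝐂[s u] := by
      rw [← am_inf_cent1 hg, e]
    have e2 : g •ᵃ W ≤ T ⊓ 𝐂[u] := by
      refine le_trans ?_ (WB_le T _)
      rw [← hJ, ← e1, WB_am hg]
      exact am_le_am.2 hWJ
    refine le_inf (e2.trans inf_le_left) ?_
    refine h.comm hT lc (h.am hg) (lc.am hg) (by rw [e]; exact hne.symm) ?_ (e2.trans inf_le_right)
    rw [e]
    exact hWJ.trans (hJ ▸ (WB_le T _).trans inf_le_right)
  have k1 := hcj s hs rfl (am_mem.2 hB.vW)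
  have k2 := hcj (s * MulAut.conj t) (by rw [am_mul, am_conj, cj_eq (le_normalizer hB.tT), hs]) (by
    rw [MulAut.mul_apply, MulAut.conj_apply, htu]) (am_mem.2 hB.vW)
  have k3 : (s * MulAut.conj t) v = s v' := by rw [MulAut.mul_apply, MulAut.conj_apply, hB.hv']
  rw [k3] at k2
  obtain ⟨f1, hf1, w1, hw1, e1⟩ := hB.dec _ k1
  obtain ⟨f2, hf2, w2, hw2, e2⟩ := hB.dec _ k2
  have c1 : w1 * f2 = f2 * w1 := mem_cent.1 (hB.FE hf2).2 w1 hw1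
  have c2 : w2 * f1 = f1 * w2 := mem_cent.1 (hB.FE hf1).2 w2 hw2
  have c3 : w1 * w2 = w2 * w1 := hD.elW.comm hw1 hw2
  have hu : u = v⁻¹ * (v' * v * v'⁻¹) := by rw [v'v hD hB]; group
  have key : s u = f1⁻¹ * f2 * f1 * f2⁻¹ := by
    have c4 : w1⁻¹ * f1⁻¹ = f1⁻¹ * w1⁻¹ := by
      rw [← mul_inv_rev, ← mul_inv_rev, mem_cent.1 (hB.FE hf1).2 w1 hw1]
    have c5 : w1 * f1 = f1 * w1 := mem_cent.1 (hB.FE hf1).2 w1 hw1
    have d1 : w2 * f1 * w2⁻¹ = f1 := by rw [c2]; group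
    have d2 : w2 * w1 * w2⁻¹ = w1 := by rw [← c3]; group
    have d3 : f2 * w1 * f2⁻¹ = w1 := by rw [← c1]; group
    have d4 : w1⁻¹ * (f1⁻¹ * f2 * f1 * f2⁻¹) * w1 = f1⁻¹ * f2 * f1 * f2⁻¹ := by
      have := mem_cent.1 (hB.FE (mul_mem (mul_mem (mul_mem (inv_mem hf1) hf2) hf1)
        (inv_mem hf2))).2 w1 hw1
      rw [mul_assoc, ← this]; group
    calc s u = (s v)⁻¹ * (s v' * s v * (s v')⁻¹) := by
          rw [hu]; simp only [map_mul, map_inv]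
      _ = w1⁻¹ * f1⁻¹ * (f2 * ((w2 * f1 * w2⁻¹) * (w2 * w1 * w2⁻¹)) * f2⁻¹) := by
          rw [e1, e2]; group
      _ = w1⁻¹ * (f1⁻¹ * f2 * f1 * f2⁻¹) * (f2 * w1 * f2⁻¹) := by rw [d1, d2]; group
      _ = _ := by rw [d3, d4]
  have hF : s u ∈ F := key ▸ mul_mem (mul_mem (mul_mem (inv_mem hf1) hf2) hf1) (inv_mem hf2)
  have k4 : d1 ∈ 𝐂[s u] := mem_cent1_comm.1 (hB.Fd hF)
  exact ⟨k4, i3_le_comm hD.elW hD.cardW hD.uW hD.u1
    (hWJ.trans (hJ ▸ (WB_le T _).trans inf_le_right)) (mem_cent1_comm.1 (hB.Fv' hF)) hB.v'N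
    (hD.Nu ⟨v'T hD hB, hB.v'N⟩) hB.v'W k4 hd1 hB.du⟩

theorem i3_nb_aux {H A0 : Subgroup X} {d z0 : X} (hT : GS T) (hd : VxD T W u H A0 d z0)
    (hb : T ⊓ 𝐂[u] ≤ 𝐍(W)) {s : MulAut X} (hs : s •ᵃ T = T) (h2 : s u ≠ u)
    (h3 : WB T (T ⊓ 𝐂[s u]) = WB T (T ⊓ 𝐂[u])) : W ≤ 𝐂[s u] ∧ d •ᶜ A0 ≤ 𝐂[s u] := by
  have h : Vx T W u := ⟨H, A0, d, z0, hd⟩
  have lc : LC T W u := fun n h1 h2 _ => hb ⟨h1, h2⟩
  have hd' := hd.am hs
  have h4 : WB T (T ⊓ 𝐂(W)) ≤ T ⊓ 𝐂[s u] :=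
    ((WB_mono (inf_le_inf_left T (U4.cent_le_cent1 hd.uW))).trans h3.ge).trans (WB_le _ _)
  have h5 : WB T (T ⊓ 𝐂(s •ᵃ W)) ≤ T ⊓ 𝐂[u] :=
    ((WB_mono (inf_le_inf_left T (U4.cent_le_cent1 hd'.uW))).trans h3.le).trans (WB_le _ _)
  have h7 := (((hd.W_le_Om hT).trans (Om_le _)).trans h4).trans inf_le_right
  refine ⟨h7, hd.two_vx hT (h.am hs) (fun e => hd.AW fun x hx => by_contra fun h6 => ?_)
    (h.comm hT lc (h.am hs) (lc.am hs) h2.symm h7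
      ((((hd'.W_le_Om hT).trans (Om_le _)).trans h5).trans inf_le_right)) (h4.trans ?_)⟩
  · exact b4_moves hd.elW hd.cardW hd.uW hd.u1 (e ▸ hd'.uW) hd'.u1 h2 (hd.AN hx).2
      (hd.Nu (hd.AN hx)) h6 (hd'.Nu (e ▸ hd.AN hx))
  · rw [am_inf_cent1 hs, ← am_norm]
    exact am_le_am.2 hb

/-- The transvections `a` and `e = d a d⁻¹` of the four-group `W`. -/
theorem i3_tv {H A0 : Subgroup X} {d z0 : X} (hd : VxD T W u H A0 d z0) :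
    ∃ a ∈ A0, a * u * a⁻¹ = u ∧ a * (d * u * d⁻¹) * a⁻¹ = d * u * d⁻¹ * u ∧
      d * a * d⁻¹ ∈ 𝐍(W) ∧ d * a * d⁻¹ ∈ 𝐂[d * u * d⁻¹] ∧ d * a * d⁻¹ ∉ 𝐂(W) ∧
      d * a * d⁻¹ * u * (d * a * d⁻¹)⁻¹ = u * (d * u * d⁻¹) := by
  obtain ⟨a, ha, haW⟩ := hd.exists_a
  have hdN := hd.HW hd.dH
  have h1 : d * u * d⁻¹ ≠ 1 := U4.conj_ne_one_iff.2 hd.u1
  have h2 : d * a * d⁻¹ ∈ 𝐍(W) := mul_mem (mul_mem hdN (hd.AN ha).2) (inv_mem hdN)
  have h3 : d * a * d⁻¹ ∈ 𝐂[d * u * d⁻¹] := by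
    rw [cent1_conj]; exact conj_mem_map_conj (hd.Nu (hd.AN ha))
  have h4 : d * a * d⁻¹ ∉ 𝐂(W) := fun hc => haW (by
    simpa [mul_assoc] using cent_conj (inv_mem hdN) hc)
  exact ⟨a, ha, conj_eq_of_cent1 (hd.Nu (hd.AN ha)),
    four_conj' hd.elW hd.cardW hd.uW hd.u1 (hd.AN ha).2 (hd.Nu (hd.AN ha)) haW hd.conj_mem h1
      hd.conj_ne, h2, h3, h4,
    four_conj' hd.elW hd.cardW hd.conj_mem h1 h2 h3 h4 hd.uW hd.u1 hd.conj_ne.symm⟩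

theorem i3_nonblock (hT : GS T) (h : Vx T W u) (hb : T ⊓ 𝐂[u] ≤ 𝐍(W)) : Ind3 T W u := by
  obtain ⟨H, A0, d, z0, hd⟩ := h
  obtain ⟨a, ha, a1, a2, e1, e2, e3, e4⟩ := i3_tv hd
  have h1 : d * u * d⁻¹ ≠ 1 := U4.conj_ne_one_iff.2 hd.u1
  have huw : u * (d * u * d⁻¹) = d * u * d⁻¹ * u := hd.elW.comm hd.uW hd.conj_mem
  have huu := hd.elW u hd.uW
  have haa := hd.elA a ha
  have hd' : VxD T W u H A0 (a * d) z0 :=
    { hd with
      dH := mul_mem (hd.NH (hd.AN ha)) hd.dH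
      du := fun e => h1 (by
        have k := conj_eq_of_cent1 e
        have k2 : a * (d * u * d⁻¹) * a⁻¹ = u := by rw [← k]; rw [k]; group; simpa [mul_assoc] using k
        rw [a2] at k2
        simpa using k2) }
  refine ⟨d * a * d⁻¹, fun e => h1 ?_, fun s hs h2 h3 => ?_⟩
  · have k := conj_eq_of_cent1 e
    rw [e4] at k
    simpa using k
  obtain ⟨k1, k2⟩ := i3_nb_aux hT hd hb hs h2 h3
  obtain ⟨-, k3⟩ := i3_nb_aux hT hd' hb hs h2 h3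
  have k4 := k2 (conj_mem_map_conj ha)
  refine ⟨k4, i3_le_comm hd.elW hd.cardW hd.conj_mem h1 k1 k4 e1 e2 e3 (k3 (conj_mem_map_conj ha))
    ?_ fun e => hd.conj_ne ?_⟩
  · have haN : a ∈ 𝐍(W) := (hd.AN ha).2
    have := mul_mem (mul_mem haN e1) (inv_mem haN)
    simpa [mul_assoc] using this
  · have k5 := conj_eq_of_cent1 e
    have a3 : a⁻¹ * (d * u * d⁻¹) * a = d * u * d⁻¹ * u := by
      rw [← a2, inv_eq_of_mul_eq_one_right haa]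
    have k6 := conj_eq_of_cent1 e2
    calc d * u * d⁻¹ = a * d * a * (a * d)⁻¹ * (d * u * d⁻¹) * (a * d * a * (a * d)⁻¹)⁻¹ := k5.symm
      _ = a * (d * a * d⁻¹ * (a⁻¹ * (d * u * d⁻¹) * a) * (d * a * d⁻¹)⁻¹) * a⁻¹ := by group
      _ = a * ((d * a * d⁻¹ * (d * u * d⁻¹) * (d * a * d⁻¹)⁻¹) *
            (d * a * d⁻¹ * u * (d * a * d⁻¹)⁻¹)) * a⁻¹ := by rw [a3]; group
      _ = a * u * a⁻¹ := by
          rw [k6, e4, huw, ← mul_assoc (d * u * d⁻¹), hd.elW _ hd.conj_mem, one_mul]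
      _ = u := a1

/-- There is no vertex. -/
theorem TC.false_of_vx {P : Subgroup X} {𝔄 : Subgroup (MulAut X)} (hc : TC P 𝔄) (hTP : T ≤ P)
    (hI : Inv 𝔄 T) (hT : GS T) (h : Vx T W u) : False := by
  have key : LC T W u ∧ IB T W u ∧ Ind3 T W u := by
    by_cases hb : T ⊓ 𝐂[u] ≤ 𝐍(W)
    · exact ⟨(h.nonblock hT hb).1, (h.nonblock hT hb).2.1, i3_nonblock hT h hb⟩
    · have lc := h.block_lc hT hb
      exact ⟨lc, h.block_ib hT hb lc, i3_block hT h hb lc⟩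
  exact hc.final hTP hI hT h key.2.2 (h.WB_le_cent hT key.1 key.2.1 key.2.2.ind)

end CfsgLib.TZ
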