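import Cfsg.Agent.Lib.TZ.Defs
import Cfsg.Agent.Lib.TG.MSa

set_option autoImplicit false
set_option linter.unusedSectionVars false

namespace CfsgLib.TZ

open Subgroup Cfsg CfsgLib.FT CfsgLib.FT.BGN CfsgLib.GW CfsgLib.Wal CfsgLib.TG CfsgLib.TG.MSa
open scoped commutatorElement

variable {X : Type*} [Group X] [Finite X] {V M R B : Subgroup X}

theorem msa_noK (hV : El V) (hM : M ≤ 𝐍(V)) (hs : Group.IsSolvable M) (hBV : B ≤ 𝐍(V))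
    (hBM : B ≤ 𝐍(M)) (fixV : ∀ H : Subgroup X, H ≤ M → Odd (Nat.card H) → ∀ v ∈ ⁅V, H⁆,
      (∀ b ∈ B, ∃ m ∈ M, b * v * b⁻¹ = m * v * m⁻¹) → v = 1) :
    NoK M V := by
  intro K Y0 hK h0 tr
  by_contra hi
  have := Fact.mk Nat.prime_two
  obtain ⟨K1, hK1, t1⟩ := exists_tr hV (hK.trans hM) (isSolvable_of_le hs hK) h0 tr hi
  obtain ⟨H, hH, hK1H⟩ := Hall.exists_hallOf_ge hs
    (coprime_iff_isPiSubgroup.1 (Nat.coprime_two_right.2 t1.odd)) (hK1.trans hK)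
  have hHo : Odd (Nat.card H) := Nat.coprime_two_right.1 (coprime_iff_isPiSubgroup.2 hH.2.1)
  have hHN := hH.1.trans hM
  let 𝒢 : Set X := {g | ∃ L, L ≤ H ∧ Tr V L ∧ g ∈ L}
  let S : Set X := {x | ∃ L, L ≤ H ∧ Tr V L ∧ x ∈ ⁅V, L⁆ ∧ x ≠ 1}
  have hNH : closure 𝒢 ≤ H := (closure_le _).2 fun g ⟨L, h1, _, h2⟩ => h1 h2
  have hLN : ∀ L, L ≤ H → Tr V L → L ≤ closure 𝒢 := fun L h1 h2 g hg =>
    subset_closure ⟨L, h1, h2, hg⟩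
  have hS : ∀ l ∈ 𝐍(V), l ∈ 𝐍(H) → ∀ x ∈ S, l * x * l⁻¹ ∈ S := by
    rintro l hl hl' x ⟨L, h1, h2, h3, h4⟩
    refine ⟨l •ᶜ L, cj_le_of_norm h1 hl', h2.cj hl, ?_, U4.conj_ne_one_iff.2 h4⟩
    rw [← CO.cj_eq hl, ← cj_commutator]
    exact CO.cj_mem h3
  have hg : ∀ g ∈ 𝒢, ∃ x0, ∀ x ∈ S, x ∉ PR.cls (closure 𝒢) x0 → g * x * g⁻¹ = x := by
    rintro g ⟨L, h1, h2, hg⟩
    obtain ⟨x0, hx0, -, -, m1, -, -⟩ := h2.two
    refine ⟨x0, ?_⟩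
    rintro x ⟨L', h1', h2', hx, hx1⟩ hn
    refine conj_cent hg ((show ⁅V, L'⁆ ≤ 𝐂(L) from ?_) hx)
    by_cases c1 : ⁅V, L⁆ ≤ 𝐂(L')
    · exact one_sided hV hHo h1 h1' hHN c1
    by_contra c2
    obtain ⟨a, ha, b, hb, k1, k2, k3, k4⟩ := grid hV h2 h2' c1 c2
    obtain ⟨k, hk, e⟩ := h2.move hV (comm_le h2'.nm hb) k2 ha k3
    rw [hV.comm (comm_le h2.nm ha) (comm_le h2'.nm hb)] at k4 e
    obtain ⟨k', hk', e'⟩ := h2'.move hV (comm_le h2.nm ha) k1 hb k4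
    obtain ⟨p, hp, e1⟩ := h2.tr x0 hx0 m1 a ha (by rintro rfl; exact k1 (one_mem _))
    obtain ⟨q, hq, e2⟩ := h2'.tr b hb (by rintro rfl; exact k2 (one_mem _)) x hx hx1
    refine hn ⟨q * k⁻¹ * k' * p, mul_mem (mul_mem (mul_mem (hLN _ h1' h2' hq)
      (inv_mem (hLN _ h1 h2 hk))) (hLN _ h1' h2' hk')) (hLN _ h1 h2 hp), ?_⟩
    calc x = q * k⁻¹ * (k * b * k⁻¹) * (q * k⁻¹)⁻¹ := by rw [e2]; group
      _ = _ := by rw [← e, e', e1]; group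
  obtain ⟨y, hy, y', hy', n1, n2, n3⟩ := t1.two
  obtain ⟨v, hv, hv1, hv2⟩ := PR.product (El.mulComm (fun x hx => hV x (comm_le hHN hx)))
    (V := ⁅V, H⁆) (𝒢 := 𝒢) (S := S)
    (fun x ⟨L, h1, _, h3, _⟩ => commutator_mono le_rfl h1 h3)
    (hNH.trans (normalizer_commutator_ge_right V H)) hg
    (fun n hn => hS n (hHN (hNH hn)) (le_normalizer (hNH hn))) ⟨K1, hK1H, t1, hy, n1⟩
    (by
      obtain ⟨k, hk, e⟩ := t1.tr y hy n1 y' hy' n2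
      exact ⟨k, hLN K1 hK1H t1 hk, e⟩) n3.symm
  · refine hv1 (fixV H hH.1 hHo v hv fun b hb => ?_)
    have h1 := U4.hallOf_conj hH b
    rw [CO.cj_eq (hBM hb)] at h1
    obtain ⟨m, hm, h2⟩ := Hall.exists_conj_le_hallOf hs h1.2.1 h1.1 hH
    rw [← map_conj_mul] at h2
    have h3 := CO.mem_norm_of_cj_le h2
    have h4 : m * b ∈ 𝐍(V) := mul_mem (hM hm) (hBV hb)
    have h5 : m * b ∈ 𝐍(⁅V, H⁆) :=
      CO.mem_norm_of_cj_le (by rw [cj_commutator, CO.cj_eq h4, CO.cj_eq h3])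
    obtain ⟨n, hn, e⟩ := hv2 (m * b) h5 (CO.mem_norm_of_cj_le (by
        rw [map_le_iff_le_comap, closure_le]
        rintro g ⟨L, k1, k2, k3⟩
        exact hLN _ (cj_le_of_norm k1 h3) (k2.cj h4) (CO.cj_mem k3)))
      (hS _ h4 h3) (fun x hx => by simpa using hS _ (inv_mem h4) (inv_mem h3) x hx)
    refine ⟨m⁻¹ * n, mul_mem (inv_mem hm) (hH.1 (hNH hn)), ?_⟩
    calc b * v * b⁻¹ = m⁻¹ * (m * b * v * (m * b)⁻¹) * m := by group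
      _ = _ := by rw [e]; group

/-- Lemma S. -/
theorem MS.noK (h : MS V M R B) : NoK M V := msa_noK h.el h.MV h.sol h.BV h.BM h.fixV

end CfsgLib.TZ
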