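import Cfsg.Agent.Lib.TZ.Defs
import Cfsg.Agent.Lib.CO.B1ax

set_option autoImplicit false

namespace CfsgLib.TZ

open Subgroup Cfsg CfsgLib.FT CfsgLib.FT.BGN CfsgLib.GW CfsgLib.Wal CfsgLib.H1
open CfsgLib.FT.U4 (mem_cent1 mem_cent1' mem_cent mem_cent1_comm cent1_conj conj_mem_conj_iff
  orderOf_conj)
open scoped commutatorElement

variable {X : Type*} [Group X] [Finite X] {V M R B : Subgroup X}

omit [Finite X] in
theorem mem_zpowers_of_sq {t z : X} (ht : t * t = 1) (hz : z ∈ zpowers t) : z = 1 ∨ z = t := by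
  obtain ⟨k, rfl⟩ := hz
  have h2 : t ^ (2 : ℤ) = 1 := by rw [zpow_two, ht]
  rcases Int.even_or_odd' k with ⟨m, rfl | rfl⟩
  · left; simp only [zpow_mul, h2, one_zpow]
  · right; simp only [zpow_add, zpow_mul, h2, one_zpow, one_mul, zpow_one]

theorem MS.odd_fitting (h : MS V M R B) : Odd (Nat.card (fittingOf M)) := by
  have := Fact.mk Nat.prime_two
  have hO : pCoreOf 2 M = ⊥ := h.red _ (pCoreOf_le _) (pCoreOf_isPGroup _) (le_normalizer_pCoreOf _)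
  rw [← Nat.coprime_two_right, ← pCoreOf_sup_piCoreOf_of_isNilpotent 2 (fittingOf_isNilpotent M),
    pCoreOf_fittingOf, hO, bot_sup_eq]
  exact piCoreOf_compl_coprime 2 _

theorem MS.cent_fitting (h : MS V M R B) : M ⊓ 𝐂(fittingOf M) ≤ fittingOf M :=
  inf_centralizer_fittingOf_le (layerIn_eq_bot_of_isSolvable h.sol)

/-- An element of the Fitting subgroup inverted by `a` and centralized by a hyperplane of `A`. -/
theorem MS.exists_f (h : MS V M R B) {A : Subgroup X} (hA : El A) (hAM : A ≤ M) {a : X}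
    (ha : a ∈ A) (h1 : a ≠ 1) : ∃ f ∈ fittingOf M, (orderOf f).Prime ∧ orderOf f ≠ 2 ∧
      a * f * a⁻¹ = f⁻¹ ∧ ∀ x ∈ A, x ∈ 𝐂[f] ∨ a * x ∈ 𝐂[f] := by
  have ho := h.odd_fitting
  have hAF : A ≤ 𝐍(fittingOf M) := hAM.trans (le_normalizer_fittingOf _)
  have hodd : ∀ f ∈ fittingOf M, Odd (orderOf f) := fun f hf =>
    ho.of_dvd_nat (orderOf_dvd_natCard _ hf)
  obtain ⟨A0, hA0, ⟨a', ha', hs⟩, hn⟩ : ∃ A0 : Subgroup X, A0 ≤ A ∧
      (∃ a' ∈ A, A0 ⊔ zpowers a' = A) ∧ ¬ fittingOf M ⊓ 𝐂(A0) ≤ 𝐂[a] := by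
    by_contra hn
    push Not at hn
    have h2 := Cop.le_of_cocyclic_centralizer_le hA.mulComm hAF (hA.coprime ho) hn
    have h3 : a ∈ fittingOf M := h.cent_fitting ⟨hAM ha, mem_cent.2 fun x hx =>
      mem_cent1.1 (h2 hx)⟩
    have := hodd a h3
    rw [hA.ord ha h1] at this
    exact absurd this (by decide)
  obtain ⟨g, hg, hga⟩ := SetLike.not_le_iff_exists.1 hn
  have hdec : ∀ x ∈ A, x ∈ A0 ∨ a' * x ∈ A0 := fun x hx => by
    rw [← hs] at hx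
    obtain ⟨y, hy, z, hz, rfl⟩ := (mem_sup_iff_of_le_normalizer'
      ((zpowers_le_of_mem ha').trans (hA.le_norm hA0))).1 hx
    rcases mem_zpowers_of_sq (hA a' ha') hz with rfl | rfl
    · left; simpa using hy
    · right
      rwa [hA.comm (hA0 hy) ha', ← mul_assoc, hA _ ha', one_mul]
  have haA : a ∉ A0 := fun k => hga (mem_cent1.2 (mem_cent.1 hg.2 a k).symm)
  have hdec' : ∀ x ∈ A, x ∈ A0 ∨ a * x ∈ A0 := fun x hx => (hdec x hx).imp_right fun k => by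
    have := mul_mem ((hdec a ha).resolve_left haA) k
    rwa [hA.comm ha' ha, mul_assoc, ← mul_assoc a', hA _ ha', one_mul] at this
  have ai := hA.inv ha
  set f0 := g * (a * g⁻¹ * a⁻¹) with hf0
  have f0F : f0 ∈ fittingOf M := mul_mem hg.1 ((mem_normalizer_iff.1 (hAF ha) _).1 (inv_mem hg.1))
  have f0C : f0 ∈ 𝐂(A0) := mul_mem hg.2 (mul_mem (mul_mem (hA.le_cent' le_rfl hA0 ha)
    (inv_mem hg.2)) (inv_mem (hA.le_cent' le_rfl hA0 ha)))
  have f01 : f0 ≠ 1 := fun e => hga (mem_cent1.2 (by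
    rw [hf0, ← mul_assoc, ← mul_assoc, mul_inv_eq_one, mul_inv_eq_iff_eq_mul] at e
    exact e))
  have f0i : a * f0 * a⁻¹ = f0⁻¹ := by
    calc a * f0 * a⁻¹ = a * g * a⁻¹ * (a * a * g⁻¹ * (a * a)⁻¹) := by rw [hf0]; group
      _ = f0⁻¹ := by rw [hA a ha, hf0]; group
  obtain ⟨p, hp, hd⟩ := Nat.exists_prime_and_dvd (fun e => f01 (orderOf_eq_one_iff.1 e))
  have := Fact.mk hp
  obtain ⟨f, hf⟩ := exists_prime_orderOf_dvd_card' (G := zpowers f0) p (by rwa [Nat.card_zpowers])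
  obtain ⟨f, k, rfl⟩ := f
  have hf' : orderOf (f0 ^ k) = p := by rw [← hf, ← orderOf_coe]
  refine ⟨f0 ^ k, zpow_mem f0F k, hf' ▸ hp, fun e => ?_, by rw [← conj_zpow, f0i, inv_zpow],
    fun x hx => ?_⟩
  · have := hodd _ (zpow_mem f0F k)
    rw [e] at this
    exact absurd this (by decide)
  · exact (hdec' x hx).imp (fun k' => mem_cent1.2 (mem_cent.1 (zpow_mem f0C k) _ k'))
      fun k' => mem_cent1.2 (mem_cent.1 (zpow_mem f0C k) _ k')

/-- `V = [V, f] × C_V(f)` for `f` of odd order. -/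
theorem MS.split (h : MS V M R B) {f : X} (hf : f ∈ M) (ho : Odd (orderOf f)) :
    ⁅V, zpowers f⁆ ⊓ 𝐂[f] = ⊥ ∧ ⁅V, zpowers f⁆ ⊔ (V ⊓ 𝐂[f]) = V := by
  have h1 : zpowers f ≤ 𝐍(V) := zpowers_le_of_mem (h.MV hf)
  have h2 : (Nat.card (zpowers f)).Coprime (Nat.card V) := by
    rw [Nat.card_zpowers]; exact (h.el.coprime ho).symm
  rw [← H1.centralizer_zpowers']
  exact ⟨Cop.commutator_inf_centralizer_eq_bot h1 h2 h.el.mulComm,
    Cop.commutator_sup_centralizer h1 h2 (Or.inr h.el.solv)⟩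

/-- An involution inverting `f` acts freely on every invariant subgroup of `[V, f]`. -/
theorem free_el {U : Subgroup X} (hU : El U) {f t : X} (ho : Odd (orderOf f)) (ht : t * t = 1)
    (hi : t * f * t⁻¹ = f⁻¹) (h0 : U ⊓ 𝐂[f] = ⊥) (hf : f ∈ 𝐍(U)) (htU : t ∈ 𝐍(U)) :
    Nat.card U = Nat.card (U ⊓ 𝐂[t] : Subgroup X) ^ 2 ∧ ⁅U, zpowers t⁆ = U ⊓ 𝐂[t] := by
  have ti : t⁻¹ = t := inv_eq_of_mul_eq_one_right ht
  have tU : ∀ u ∈ U, t * u * t⁻¹ ∈ U := fun u hu => (mem_normalizer_iff.1 htU u).1 hu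
  have k1 : ⁅U, zpowers t⁆ ≤ U ⊓ 𝐂[t] := by
    refine commutator_le.2 fun u hu z hz => ?_
    rcases mem_zpowers_of_sq ht hz with rfl | rfl
    · simp
    · have e : ⁅u, z⁆ = u * (z * u * z⁻¹) := by
        rw [commutatorElement_def, hU.inv hu]; group
      refine ⟨e ▸ mul_mem hu (tU u hu), mem_cent1.2 ?_⟩
      rw [e, eq_comm, ← mul_inv_eq_iff_eq_mul, hU.comm hu (tU u hu)]
      calc _ = z * z * u * (z * z)⁻¹ * (z * u * z⁻¹) := by group
        _ = _ := by rw [ht, hU.comm (tU u hu) hu]; group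
  let φ : U →* X := MonoidHom.mk' (fun u => u * (t * u * t⁻¹)) fun x y => by
    push_cast
    rw [← _root_.conj_mul, mul_assoc, mul_assoc (x : X), ← mul_assoc (y : X), hU.comm y.2 (tU _ x.2), mul_assoc]
  have k2 : φ.range ≤ ⁅U, zpowers t⁆ := by
    rintro _ ⟨u, rfl⟩
    have := commutator_mem_commutator u.2 (mem_zpowers t)
    rw [commutatorElement_def, hU.inv u.2] at this
    simpa only [φ, MonoidHom.mk'_apply, mul_assoc] using this
  have k3 : Nat.card φ.ker ≤ Nat.card (U ⊓ 𝐂[t] : Subgroup X) := by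
    refine Nat.card_le_card_of_injective (fun x : φ.ker => (⟨x.1, x.1.2, ?_⟩ :
      (U ⊓ 𝐂[t] : Subgroup X))) fun x y h =>
      Subtype.ext (Subtype.ext (congrArg (fun z : (U ⊓ 𝐂[t] : Subgroup X) => (z : X)) h))
    have h1 : (x.1 : X) * (t * x.1 * t⁻¹) = 1 := x.2
    rw [mul_eq_one_iff_inv_eq, hU.inv x.1.2, eq_mul_inv_iff_mul_eq] at h1
    exact mem_cent1.2 h1
  have k4 : Nat.card U = Nat.card φ.ker * Nat.card φ.range := by
    rw [← φ.ker.card_mul_index, index_ker]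
  have k5 : Nat.card (U ⊓ 𝐂[t] : Subgroup X) * Nat.card (U ⊓ 𝐂[t] : Subgroup X) ≤ Nat.card U := by
    have hE : f •ᶜ (U ⊓ 𝐂[t]) ≤ U := cj_le_of_norm inf_le_left hf
    have h1 := CO.B1a.card_sup_inf (A := U ⊓ 𝐂[t]) (B := f •ᶜ (U ⊓ 𝐂[t]))
      (hE.trans (hU.le_norm inf_le_left))
    have h2 : (U ⊓ 𝐂[t]) ⊓ f •ᶜ (U ⊓ 𝐂[t]) = ⊥ := by
      rw [eq_bot_iff, ← h0]
      rintro x ⟨hx, y, hy, rfl⟩
      refine ⟨hx.1, ?_⟩
      have e1 := mem_cent1.1 hx.2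
      have e2 := mem_cent1.1 hy.2
      simp only [MulEquiv.coe_toMonoidHom, MulAut.conj_apply] at e1 ⊢
      have e3 : f * y * f⁻¹ ∈ 𝐂[f * t * f⁻¹ * t] := by
        refine mem_cent1.2 ?_
        calc f * y * f⁻¹ * (f * t * f⁻¹ * t) = f * (y * t) * f⁻¹ * t := by group
          _ = f * t * f⁻¹ * (f * y * f⁻¹ * t) := by rw [e2]; group
          _ = _ := by rw [e1]; group
      have e4 : f * t * f⁻¹ * t = f ^ 2 := by
        rw [← hi, sq]
        calc _ = f * (t * t) * f * (t⁻¹ * t) := by group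
          _ = _ := by rw [ht]; group
      rw [e4, mem_cent1_comm] at e3
      exact mem_cent1_comm.1 (FrobNPC.mem_of_pow_mem_of_coprime (Nat.coprime_two_right.2 ho) e3)
    rw [h2, card_bot, one_mul, CO.B1a.card_cj] at h1
    rw [h1]
    exact card_le_of_le (sup_le inf_le_left hE)
  have k6 := card_le_of_le (k2.trans k1)
  have k7 : Nat.card U = Nat.card (U ⊓ 𝐂[t] : Subgroup X) * Nat.card (U ⊓ 𝐂[t] : Subgroup X) :=
    le_antisymm (k4 ▸ Nat.mul_le_mul k3 k6) k5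
  refine ⟨by rw [k7, sq], eq_of_le_of_card_ge k1 (le_trans ?_ (card_le_of_le k2))⟩
  refine Nat.le_of_mul_le_mul_left (a := Nat.card (U ⊓ 𝐂[t] : Subgroup X)) ?_
    (Nat.card_pos (α := (U ⊓ 𝐂[t] : Subgroup X)))
  rw [← k7, k4]
  exact Nat.mul_le_mul_right _ k3

/-- An involution inverting `f` acts freely on every invariant subgroup of `[V, f]`. -/
theorem MS.free (h : MS V M R B) {f t : X} (ho : Odd (orderOf f)) (ht : t * t = 1)
    (hi : t * f * t⁻¹ = f⁻¹) {U : Subgroup X} (hU : U ≤ V) (h0 : U ⊓ 𝐂[f] = ⊥) (hf : f ∈ 𝐍(U))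
    (htU : t ∈ 𝐍(U)) :
    Nat.card U = Nat.card (U ⊓ 𝐂[t] : Subgroup X) ^ 2 ∧ ⁅U, zpowers t⁆ = U ⊓ 𝐂[t] :=
  free_el (h.el.mono hU) ho ht hi h0 hf htU

end CfsgLib.TZ
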