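import Cfsg.Agent.Lib.TZ.MSa
import Cfsg.Agent.Lib.TZ.MSb
import Cfsg.Agent.Lib.Sig.Q1
import Cfsg.Agent.Lib.H1Misc

set_option autoImplicit false
set_option linter.unusedSectionVars false

namespace CfsgLib.TZ

open Subgroup Cfsg CfsgLib.FT CfsgLib.FT.BGN CfsgLib.GW CfsgLib.Wal
open CfsgLib.FT.U4 (mem_cent1 mem_cent1' mem_cent mem_cent1_comm cent1_conj conj_mem_conj_iff
  orderOf_conj)
open scoped commutatorElement

variable {X : Type*} [Group X] [Finite X] {V M R B : Subgroup X}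

namespace Msc

theorem nm {g x : X} {H : Subgroup X} (hg : g ∈ 𝐍(H)) (h : x ∈ H) : g * x * g⁻¹ ∈ H :=
  (mem_normalizer_iff.1 hg x).1 h

theorem cm_le {U : Subgroup X} {x : X} (hx : x ∈ 𝐍(U)) : ⁅U, zpowers x⁆ ≤ U :=
  Cop.commutator_le_left_of_le_normalizer (zpowers_le.2 hx)

theorem cm_mem {U : Subgroup X} {x v : X} (hv : v ∈ U) : ⁅v, x⁆ ∈ ⁅U, zpowers x⁆ :=
  commutator_mem_commutator hv (mem_zpowers x)

theorem cm_ex {U : Subgroup X} {x v : X} (hU : El U) (hx : x ∈ 𝐍(U)) (hv : v ∈ ⁅U, zpowers x⁆) :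
    ∃ w ∈ U, ⁅w, x⁆ = v := Sig.Q1.mem_comm_zpowers hU.le_cent hx hv

theorem cm_card {U : Subgroup X} {x : X} (hU : El U) (hx : x ∈ 𝐍(U)) :
    Nat.card ↥⁅U, zpowers x⁆ = (𝐂[x]).relIndex U := Sig.card_commutator_zpowers hU.le_cent hx

theorem cm_le_cent {U : Subgroup X} {x : X} (hU : El U) (hx : x ∈ 𝐍(U)) (h2 : x * x = 1) :
    ⁅U, zpowers x⁆ ≤ 𝐂[x] := fun v hv => by
  obtain ⟨w, hw, rfl⟩ := cm_ex hU hx hv
  have hi : x⁻¹ = x := inv_eq_of_mul_eq_one_right h2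
  have h3 := hU.comm hw (nm hx hw)
  rw [mem_cent1, commutatorElement_def, hU.inv hw]
  calc w * x * w * x⁻¹ * x = w * (x * w * x⁻¹) * x := by group
    _ = x * w * x⁻¹ * w * x := by rw [h3]
    _ = x * (w * x * w * x⁻¹) := by rw [hi]; group

theorem norm_zp {g x : X} (h : g * x * g⁻¹ ∈ zpowers x) : g ∈ 𝐍(zpowers x) := by
  refine mem_normalizer_fintype ?_
  rintro _ ⟨m, rfl⟩
  rw [← conj_zpow]
  exact zpow_mem h m

theorem norm_zp_inv {g x : X} (h : g * x * g⁻¹ = x⁻¹) : g ∈ 𝐍(zpowers x) :=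
  norm_zp (h ▸ inv_mem (mem_zpowers x))

theorem norm_zp_cent {g x : X} (h : g ∈ 𝐂[x]) : g ∈ 𝐍(zpowers x) :=
  norm_zp (by rw [mem_cent1.1 h, mul_inv_cancel_right]; exact mem_zpowers x)

theorem norm_cm {U : Subgroup X} {g x : X} (h1 : g ∈ 𝐍(U)) (h2 : g ∈ 𝐍(zpowers x)) :
    g ∈ 𝐍(⁅U, zpowers x⁆) :=
  Cop.le_normalizer_commutator (zpowers_le.2 h1) (zpowers_le.2 h2) (mem_zpowers g)

theorem norm_cent1 {g x : X} (h : g ∈ 𝐍(zpowers x)) : g ∈ 𝐍(𝐂[x]) := by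
  rw [← H1.centralizer_zpowers_eq]
  exact H1.le_normalizer_centralizer (zpowers_le.2 h) (mem_zpowers g)

theorem norm_inf {A C : Subgroup X} {g : X} (h1 : g ∈ 𝐍(A)) (h2 : g ∈ 𝐍(C)) : g ∈ 𝐍(A ⊓ C) :=
  mem_normalizer_fintype fun _ hx => ⟨nm h1 hx.1, nm h2 hx.2⟩

theorem le_cent_of_cm {U : Subgroup X} {x : X} (h : ⁅U, zpowers x⁆ = ⊥) : U ≤ 𝐂[x] := by
  rw [← H1.centralizer_zpowers_eq]
  exact commutator_eq_bot_iff_le_centralizer.1 h

theorem norm_of_cm_le {U Z : Subgroup X} {x : X} (h : ⁅U, zpowers x⁆ ≤ Z) (hZ : Z ≤ U) :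
    x ∈ 𝐍(Z) := mem_normalizer_fintype fun z hz => by
  have := mul_mem (inv_mem (h (cm_mem (hZ hz)))) hz
  rwa [show ⁅z, x⁆⁻¹ * z = x * z * x⁻¹ by simp only [commutatorElement_def]; group] at this

theorem el_card {U : Subgroup X} (hU : El U) : ∃ j : ℕ, Nat.card U = 2 ^ j :=
  haveI := Fact.mk Nat.prime_two
  IsPGroup.iff_card.1 hU.isPGroup

theorem pow_le {j n : ℕ} (h : 2 ^ j ≤ 2 ^ n) : j ≤ n :=
  (Nat.pow_le_pow_iff_right (by norm_num)).1 h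

theorem eq_one (h : MS V M R B) {x : X} (hx : x ∈ M) (hc : V ≤ 𝐂[x]) : x = 1 := by
  refine mem_bot.1 (h.faith ▸ (⟨hx, ?_⟩ : x ∈ M ⊓ 𝐂(V)))
  exact mem_cent.2 fun v hv => mem_cent1.1 (hc hv)

theorem modEq_one {U : Subgroup X} {f : X} {p : ℕ} (hp : p.Prime) {k : ℕ} (hf : f ^ p ^ k = 1)
    (hn : f ∈ 𝐍(U)) (h0 : U ⊓ 𝐂[f] = ⊥) : Nat.card U ≡ 1 [MOD p] := by
  have := Fact.mk hp
  have := H1.card_modEq_card_inf_centralizer_elem (p := p) (U := U) (a := f)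
    (IsPGroup.of_card_dvd_pow (n := k) (by
      rw [Nat.card_zpowers]; exact orderOf_dvd_of_pow_eq_one hf)) hn
  rwa [h0, card_bot] at this

end Msc

open Msc

/-- No element of odd order has a commutator subgroup of order `4` on `V`. -/
theorem MS.not_four (h : MS V M R B) {f : X} (hf : f ∈ M) (ho : Odd (orderOf f)) :
    Nat.card (⁅V, zpowers f⁆ : Subgroup X) ≠ 4 := by
  intro h4
  obtain ⟨h0, h1⟩ := h.split hf ho
  have hfV := h.MV hf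
  set U : Subgroup X := ⁅V, zpowers f⁆ with hU
  have hUV : U ≤ V := cm_le hfV
  have hfU : f ∈ 𝐍(U) := norm_of_cm_le le_rfl hUV
  have hidx : (V ⊓ 𝐂[f]).relIndex V = 4 := by
    rw [inf_comm, inf_relIndex_right, ← cm_card h.el hfV, h4]
  have key : ∀ u ∈ U, u ≠ 1 → ∀ u' ∈ U, u' ≠ 1 → ∃ k ∈ zpowers f, u' = k * u * k⁻¹ := by
    intro u hu hu1 u' hu' hu1'
    have n1 : ∀ w ∈ U, w ≠ 1 → f * w * f⁻¹ ≠ w := fun w hw hw1 e => hw1 (mem_bot.1 (h0 ▸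
      (⟨hw, mem_cent1.2 (mul_inv_eq_iff_eq_mul.1 e).symm⟩ : w ∈ U ⊓ 𝐂[f])))
    have a1 : f * u * f⁻¹ ∈ U := nm hfU hu
    have a2 : f * (f * u * f⁻¹) * f⁻¹ ∈ U := nm hfU a1
    have b1 : f * u * f⁻¹ ≠ 1 := fun e => hu1 (conj_eq_one_iff.1 e)
    have b2 : f * (f * u * f⁻¹) * f⁻¹ ≠ 1 := fun e => b1 (conj_eq_one_iff.1 e)
    have b3 : f * (f * u * f⁻¹) * f⁻¹ ≠ u := fun e => by
      have h5 : f ^ 2 ∈ 𝐂[u] := mem_cent1.2 (by
        rw [← mul_inv_eq_iff_eq_mul]; exact Eq.trans (by simp [sq, mul_assoc]) e)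
      have h6 : f ∈ zpowers (f ^ 2) := mem_zpowers_pow_iff.2 ho.coprime_two_left
      exact n1 u hu hu1 (mul_inv_eq_iff_eq_mul.2 (mem_cent1.1 (zpowers_le.2 h5 h6)))
    by_contra hn
    push Not at hn
    have c0 := hn 1 (one_mem _)
    have c1 := hn f (mem_zpowers f)
    have c2 := hn (f * f) (mul_mem (mem_zpowers f) (mem_zpowers f))
    simp only [one_mul, inv_one, mul_one] at c0
    rw [show f * f * u * (f * f)⁻¹ = f * (f * u * f⁻¹) * f⁻¹ by group] at c2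
    classical
    have h5 : ({1, u, f * u * f⁻¹, f * (f * u * f⁻¹) * f⁻¹, u'} : Finset X).card = 5 := by
      have d1 := n1 u hu hu1
      have d2 := n1 _ a1 b1
      rw [Finset.card_insert_of_notMem, Finset.card_insert_of_notMem,
        Finset.card_insert_of_notMem, Finset.card_insert_of_notMem, Finset.card_singleton]
      · simpa using c2.symm
      · simp only [Finset.mem_insert, Finset.mem_singleton, not_or]; exact ⟨d2.symm, c1.symm⟩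
      · simp only [Finset.mem_insert, Finset.mem_singleton, not_or]
        exact ⟨d1.symm, b3.symm, c0.symm⟩
      · simp only [Finset.mem_insert, Finset.mem_singleton, not_or]
        exact ⟨hu1.symm, b1.symm, b2.symm, hu1'.symm⟩
    have h6 : (({1, u, f * u * f⁻¹, f * (f * u * f⁻¹) * f⁻¹, u'} : Finset X) : Set X) ⊆ U := by
      intro x hx
      simp only [Finset.coe_insert, Finset.coe_singleton, Set.mem_insert_iff,
        Set.mem_singleton_iff] at hx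
      rcases hx with rfl | rfl | rfl | rfl | rfl
      exacts [one_mem _, hu, a1, a2, hu']
    have h7 := Set.ncard_le_ncard h6 (Set.toFinite _)
    rw [Set.ncard_coe_finset, h5, ← Nat.card_coe_set_eq] at h7
    have h8 : Nat.card U = 4 := h4
    have h9 : Nat.card (U : Set X) = Nat.card U := rfl
    omega
  have := h.noK (zpowers f) (V ⊓ 𝐂[f]) (zpowers_le.2 hf)
    (by rw [H1.centralizer_zpowers_eq]) (fun y hy hy0 y' hy' hy0' => by
      have hN : V ⊓ 𝐂[f] ≤ 𝐍(U) := inf_le_left.trans (h.el.le_norm hUV)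
      obtain ⟨u, hu, c, hc, rfl⟩ := (mem_sup_iff_of_le_normalizer' hN).1 (h1.ge hy)
      obtain ⟨u', hu', c', hc', rfl⟩ := (mem_sup_iff_of_le_normalizer' hN).1 (h1.ge hy')
      obtain ⟨k, hk, e⟩ := key u hu (fun e => hy0 (by rw [e, one_mul]; exact hc)) u' hu'
        (fun e => hy0' (by rw [e, one_mul]; exact hc'))
      refine ⟨k, hk, c⁻¹ * c', mul_mem (inv_mem hc) hc', ?_⟩
      have h5 : k * c = c * k := by
        have : zpowers f ≤ 𝐂[c] := zpowers_le.2 (mem_cent1_comm.1 hc.2)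
        exact mem_cent1.1 (this hk)
      rw [e]
      calc k * u * k⁻¹ * c' = k * u * (k⁻¹ * (k * c) * k⁻¹) * k * k⁻¹ * (c⁻¹ * c') := by
            rw [h5]; group
        _ = _ := by group)
  omega

namespace Msc

/-- Small involutions. -/
structure Sm (V M : Subgroup X) (t : X) : Prop where
  mem : t ∈ M
  sq : t * t = 1
  ne : t ≠ 1
  card : Nat.card ↥⁅V, zpowers t⁆ ≤ 4

/-- Elements of odd prime order of the Fitting subgroup. -/
structure Fi (M : Subgroup X) (f : X) : Prop where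
  fit : f ∈ fittingOf M
  prime : (orderOf f).Prime
  ne : orderOf f ≠ 2

theorem Fi.mem {f : X} (h : Fi M f) : f ∈ M := H1.fittingOf_le M h.fit

theorem Fi.odd {f : X} (h : Fi M f) : Odd (orderOf f) := h.prime.odd_of_ne_two h.ne

theorem Fi.ne_one {f : X} (h : Fi M f) : f ≠ 1 := fun e => h.prime.ne_one (by rw [e, orderOf_one])

theorem Fi.not_both {f x : X} (h : Fi M f) (h1 : x ∈ 𝐂[f]) (h2 : x * f * x⁻¹ = f⁻¹) : False := by
  rw [mem_cent1.1 h1, mul_inv_cancel_right] at h2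
  have h3 : orderOf f ∣ 2 := orderOf_dvd_of_pow_eq_one (by rw [sq]; nth_rewrite 1 [h2]; simp)
  exact h.ne ((Nat.prime_dvd_prime_iff_eq h.prime Nat.prime_two).1 h3)

theorem exists_fi (h : MS V M R B) {A : Subgroup X} (hA : El A) (hAM : A ≤ M) {a : X}
    (ha : a ∈ A) (h1 : a ≠ 1) : ∃ f, Fi M f ∧ a * f * a⁻¹ = f⁻¹ ∧
      ∀ x ∈ A, x ∈ 𝐂[f] ∨ a * x ∈ 𝐂[f] := by
  obtain ⟨f, h2, h3, h4, h5, h6⟩ := h.exists_f hA hAM ha h1
  exact ⟨f, ⟨h2, h3, h4⟩, h5, h6⟩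

theorem inv_of_mul {a x f : X} (ha : a * a = 1) (h1 : a * f * a⁻¹ = f⁻¹) (h2 : a * x ∈ 𝐂[f]) :
    x * f * x⁻¹ = f⁻¹ := by
  have e : x = a * (a * x) := by rw [← mul_assoc, ha, one_mul]
  have h3 := mem_cent1.1 h2
  rw [e, ← h1]
  calc a * (a * x) * f * (a * (a * x))⁻¹ = a * ((a * x) * f) * (a * x)⁻¹ * a⁻¹ := by group
    _ = _ := by rw [h3]; group

theorem cent_of_inv {a x f : X} (h1 : a * f * a⁻¹ = f⁻¹) (h2 : x * f * x⁻¹ = f⁻¹) :
    a * x ∈ 𝐂[f] := by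
  rw [mem_cent1, ← mul_inv_eq_iff_eq_mul]
  calc a * x * f * (a * x)⁻¹ = a * (x * f * x⁻¹) * a⁻¹ := by group
    _ = (a * f * a⁻¹)⁻¹ := by rw [h2]; group
    _ = f := by rw [h1, inv_inv]

theorem W_ne (h : MS V M R B) {f : X} (hf : f ∈ M) (h1 : f ≠ 1) : ⁅V, zpowers f⁆ ≠ ⊥ :=
  fun e => h1 (eq_one h hf (le_cent_of_cm e))

theorem stepA (h : MS V M R B) {t f : X} (ht : Sm V M t) (hf : Fi M f)
    (hi : t * f * t⁻¹ = f⁻¹) :
    Nat.card ↥⁅V, zpowers f⁆ = 16 ∧ ⁅V, zpowers t⁆ = ⁅V, zpowers f⁆ ⊓ 𝐂[t] ∧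
      Nat.card ↥⁅V, zpowers t⁆ = 4 ∧ V ⊓ 𝐂[f] ≤ 𝐂[t] := by
  obtain ⟨h0, -⟩ := h.split hf.mem hf.odd
  have hfV := h.MV hf.mem
  have htV := h.MV ht.mem
  have hWV : ⁅V, zpowers f⁆ ≤ V := cm_le hfV
  obtain ⟨h1, h2⟩ := h.free hf.odd ht.sq hi hWV h0 (norm_of_cm_le le_rfl hWV)
    (norm_cm htV (norm_zp_inv hi))
  have h3 : ⁅V, zpowers f⁆ ⊓ 𝐂[t] ≤ ⁅V, zpowers t⁆ := h2 ▸ commutator_mono hWV le_rfl
  have h4 := card_le_of_le h3
  have h5 := ht.card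
  obtain ⟨j, hj⟩ := el_card (h.el.mono ((inf_le_left : _ ⊓ 𝐂[t] ≤ _).trans hWV))
  have h6 : j ≤ 2 := pow_le (by rw [← hj]; omega)
  have h7 := h.not_four hf.mem hf.odd
  have h8 : Nat.card ↥⁅V, zpowers f⁆ ≠ 1 := fun e => W_ne h hf.mem hf.ne_one (card_eq_one.1 e)
  have h9 : j = 2 := by
    rw [hj] at h1
    interval_cases j
    · exact absurd h1 h8
    · exact absurd h1 h7
    · rfl
  subst h9
  have h10 : ⁅V, zpowers f⁆ ⊓ 𝐂[t] = ⁅V, zpowers t⁆ := eq_of_le_of_card_ge h3 (by omega)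
  refine ⟨by rw [h1, hj]; norm_num, h10.symm, by omega, le_cent_of_cm (eq_bot_iff.2 ?_)⟩
  rw [← h0]
  refine le_inf ((commutator_mono inf_le_left le_rfl).trans (h10.ge.trans inf_le_left)) ?_
  exact (cm_le (norm_inf htV (norm_cent1 (norm_zp_inv hi)))).trans inf_le_right

theorem ord3 (h : MS V M R B) {t f x : X} (ht : Sm V M t) (hf : Fi M f)
    (hi : t * f * t⁻¹ = f⁻¹) (hx : x ∈ M) (h2 : x * x = 1) (hxf : x ∈ 𝐂[f]) (hxt : x ∈ 𝐂[t])
    (hn : ¬ ⁅V, zpowers f⁆ ≤ 𝐂[x]) :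
    Nat.card ↥⁅⁅V, zpowers f⁆, zpowers x⁆ = 4 ∧ orderOf f = 3 ∧
      Nat.card ↥(⁅⁅V, zpowers f⁆, zpowers x⁆ ⊓ 𝐂[t]) = 2 := by
  obtain ⟨h0, -⟩ := h.split hf.mem hf.odd
  obtain ⟨h16, -⟩ := stepA h ht hf hi
  have hWV : ⁅V, zpowers f⁆ ≤ V := cm_le (h.MV hf.mem)
  have hfW : f ∈ 𝐍(⁅V, zpowers f⁆) := norm_of_cm_le le_rfl hWV
  have htW : t ∈ 𝐍(⁅V, zpowers f⁆) := norm_cm (h.MV ht.mem) (norm_zp_inv hi)
  have hxW : x ∈ 𝐍(⁅V, zpowers f⁆) := norm_cm (h.MV hx) (norm_zp_cent hxf)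
  set W : Subgroup X := ⁅V, zpowers f⁆
  have hUW : ⁅W, zpowers x⁆ ≤ W := cm_le hxW
  have hU0 : ⁅W, zpowers x⁆ ⊓ 𝐂[f] = ⊥ := eq_bot_iff.2 (h0 ▸ inf_le_inf_right _ hUW)
  have hfU := norm_cm hfW (norm_zp_cent (mem_cent1_comm.1 hxf))
  obtain ⟨h1, -⟩ := h.free hf.odd ht.sq hi (hUW.trans hWV) hU0 hfU
    (norm_cm htW (norm_zp_cent (mem_cent1_comm.1 hxt)))
  obtain ⟨j, hj⟩ := el_card (h.el.mono ((inf_le_left : _ ⊓ 𝐂[t] ≤ _).trans (hUW.trans hWV)))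
  have h3 : Nat.card ↥⁅W, zpowers x⁆ < 16 := by
    rw [← h16]
    refine card_lt_card_of_lt (lt_of_le_of_ne hUW fun e => hn ?_)
    exact e.ge.trans (cm_le_cent (h.el.mono hWV) hxW h2)
  have h4 : Nat.card ↥⁅W, zpowers x⁆ ≠ 1 := fun e => hn (le_cent_of_cm (card_eq_one.1 e))
  have h5 : j = 1 := by
    rw [hj] at h1
    have : j < 2 := by
      by_contra hc
      have : 2 ^ 2 ≤ 2 ^ j := Nat.pow_le_pow_right (by norm_num) (by omega)
      nlinarith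
    interval_cases j
    · exact absurd h1 h4
    · rfl
  subst h5
  have h6 : Nat.card ↥⁅W, zpowers x⁆ = 4 := by rw [h1, hj]; norm_num
  refine ⟨h6, ?_, by rw [hj]; norm_num⟩
  have h7 := modEq_one hf.prime (k := 1) (by rw [pow_one, pow_orderOf_eq_one]) hfU hU0
  rw [h6] at h7
  exact (Nat.prime_dvd_prime_iff_eq hf.prime Nat.prime_three).1
    ((Nat.modEq_iff_dvd' (by norm_num)).1 h7.symm)

theorem p33 (h : MS V M R B) {f f' : X} (hf : Fi M f) (hf' : Fi M f') (h3 : orderOf f = 3)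
    (h3' : orderOf f' = 3) (hW : Nat.card ↥⁅V, zpowers f⁆ = 16)
    (hW' : Nat.card ↥⁅V, zpowers f'⁆ = 16)
    (h8 : 8 ≤ Nat.card ↥(⁅V, zpowers f⁆ ⊓ ⁅V, zpowers f'⁆)) : f' ∈ zpowers f := by
  have := Fact.mk Nat.prime_three
  have hp : ∀ g, Fi M g → orderOf g = 3 → zpowers g ≤ pCoreOf 3 M := fun g hg e =>
    H1.le_pCoreOf_of_le_fittingOf (zpowers_le.2 hg.fit)
      (IsPGroup.of_card (n := 1) (by rw [Nat.card_zpowers, e, pow_one]))
  set Q : Subgroup X := zpowers f ⊔ zpowers f' with hQ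
  have hQ3 : IsPGroup 3 Q := (H1.pCoreOf_isPGroup M).to_le (sup_le (hp f hf h3) (hp f' hf' h3'))
  have hQM : Q ≤ M := sup_le (zpowers_le.2 hf.mem) (zpowers_le.2 hf'.mem)
  have hWV : ⁅V, zpowers f⁆ ≤ V := cm_le (h.MV hf.mem)
  have hWV' : ⁅V, zpowers f'⁆ ≤ V := cm_le (h.MV hf'.mem)
  set Z : Subgroup X := ⁅V, zpowers f⁆ ⊔ ⁅V, zpowers f'⁆ with hZ
  have hZV : Z ≤ V := sup_le hWV hWV'
  have hn1 : zpowers f ≤ 𝐍(Z) := zpowers_le.2 (norm_of_cm_le le_sup_left hZV)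
  have hn2 : zpowers f' ≤ 𝐍(Z) := zpowers_le.2 (norm_of_cm_le le_sup_right hZV)
  have hQZ : ⁅V, Q⁆ ≤ Z := H1.commutator_sup_le hn1 hn2 le_sup_left le_sup_right
  obtain ⟨k, hk⟩ := hQ3.exists_card_eq
  have hZ0 : Z ⊓ 𝐂(Q) = ⊥ := by
    rw [eq_bot_iff, ← Cop.commutator_inf_centralizer_eq_bot (hQM.trans h.MV)
      (h.el.coprime (hk ▸ Odd.pow (by decide))).symm h.el.mulComm]
    exact inf_le_inf_right _ (sup_le (commutator_mono le_rfl le_sup_left)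
      (commutator_mono le_rfl le_sup_right))
  have h1 := H1.card_modEq_card_inf_centralizer hQ3 (sup_le hn1 hn2)
  rw [hZ0, card_bot] at h1
  have h2 := card_sup_mul_card_inf (H := ⁅V, zpowers f⁆) (N := ⁅V, zpowers f'⁆)
    (hWV.trans (h.el.le_norm hWV'))
  rw [hW, hW', ← hZ] at h2
  have h4 : 16 ≤ Nat.card Z := hW ▸ card_le_of_le le_sup_left
  obtain ⟨j, hj⟩ := el_card (h.el.mono hZV)
  have h5 : Nat.card Z = 16 := by
    have h6 : j ≤ 5 := pow_le (by rw [← hj]; nlinarith)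
    rw [hj] at h1 h4 ⊢
    interval_cases j <;> first | rfl | omega | exact absurd h1 (by decide)
  have h6 := H1.card_dvd_ncard_of_free_conj (B := Q) ((Z : Set X) \ {1})
    (fun b hb x hx => ⟨nm (sup_le hn1 hn2 hb) hx.1, fun e => hx.2 (conj_eq_one_iff.1 e)⟩)
    (fun b hb x hx e => by
      obtain ⟨n, hn⟩ := hQ3 ⟨b, hb⟩
      have hn' : b ^ 3 ^ n = 1 := congrArg Subtype.val hn
      have hbo : Odd (orderOf b) := Odd.of_dvd_nat (Odd.pow (by decide))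
        (orderOf_dvd_of_pow_eq_one hn')
      obtain ⟨h0, -⟩ := h.split (hQM hb) hbo
      have hU : ⁅V, zpowers b⁆ ≤ Z := (commutator_mono le_rfl (zpowers_le.2 hb)).trans hQZ
      have h7 : Nat.card ↥⁅V, zpowers b⁆ < 16 := by
        rw [← h5]
        refine card_lt_card_of_lt (lt_of_le_of_ne hU fun e' => hx.2 (mem_bot.1 (h0 ▸
          (⟨e'.ge hx.1, mem_cent1.2 (mul_inv_eq_iff_eq_mul.1 e).symm⟩ : x ∈ _ ⊓ 𝐂[b]))))
      have h9 := modEq_one Nat.prime_three hn' (norm_of_cm_le le_rfl (hU.trans hZV)) h0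
      have h10 := h.not_four (hQM hb) hbo
      obtain ⟨i, hi⟩ := el_card (h.el.mono (hU.trans hZV))
      have h11 : i ≤ 4 := pow_le (by rw [← hi]; omega)
      by_contra hb1
      have h12 : Nat.card ↥⁅V, zpowers b⁆ ≠ 1 := fun e => W_ne h (hQM hb) hb1 (card_eq_one.1 e)
      rw [hi] at h7 h9 h10 h12
      interval_cases i <;> first | omega | exact absurd h9 (by decide))
  rw [Set.ncard_sdiff_singleton_of_mem (one_mem Z), ← Nat.card_coe_set_eq] at h6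
  have h7 : Nat.card (Z : Set X) = 16 := h5
  rw [h7, hk] at h6
  have h9 : k ≤ 1 := by
    by_contra hc
    have := (pow_dvd_pow 3 (show 2 ≤ k by omega)).trans h6
    omega
  have h10 : zpowers f = Q := eq_of_le_of_card_ge le_sup_left (by
    rw [hk, Nat.card_zpowers, h3]
    interval_cases k <;> norm_num)
  exact h10.ge (mem_sup_right (mem_zpowers f'))

end Msc

end CfsgLib.TZ
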