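import Cfsg.Agent.Lib.TZ.Defs
import Cfsg.Agent.Lib.TG.Red

/-! The hypotheses of `TZ.Thm`, bundled. -/

set_option autoImplicit false

namespace CfsgLib.TZ

open Subgroup Cfsg CfsgLib.FT CfsgLib.FT.BGN CfsgLib.GW CfsgLib.Wal CfsgLib.TG

universe u

/-- The hypotheses of `TZ.Thm`. -/
structure Hy {X : Type*} [Group X] (G A : Subgroup X) : Prop where
  norm : A ≤ 𝐍(G)
  cop : (Nat.card A).Coprime (Nat.card G)
  cq : ∀ Q : Subgroup X, Q ≤ G → IsPGroup 2 Q → A ≤ 𝐍(Q) → Q ⊓ 𝐂(A) ≤ 𝐂(Q)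
  ct : ∀ t ∈ G, t * t = 1 → t ∈ 𝐂(A) → t ∈ 𝐂(G)

/-- The theorem for groups of order `n`. -/
def RdN (n : ℕ) : Prop := ∀ (X : Type u) [Group X] [Finite X] (G A : Subgroup X),
  Nat.card G = n → Hy G A → Group.IsSolvable G

theorem Hy.sub {X : Type*} [Group X] [Finite X] {G A H : Subgroup X} (h : Hy G A) (hH : H ≤ G)
    (hA : A ≤ 𝐍(H)) : Hy H A :=
  ⟨hA, h.cop.coprime_dvd_right (card_dvd_of_le hH), fun Q h1 => h.cq Q (h1.trans hH),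
    fun t ht h1 h2 => centralizer_le (SetLike.coe_subset_coe.2 hH) (h.ct t (hH ht) h1 h2)⟩

end CfsgLib.TZ
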