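import Cfsg.Agent.Lib.TZ.Red0
import Cfsg.Agent.Lib.TG.MSc
import Cfsg.Agent.Lib.TG.B0

/-! Reduction to the quasisimple case. -/

set_option autoImplicit false

namespace CfsgLib.TZ

open Subgroup Cfsg CfsgLib.FT CfsgLib.FT.BGN CfsgLib.GW CfsgLib.Wal CfsgLib.TG
open CfsgLib.FT.U4 (mem_cent1 mem_cent1' mem_cent mem_cent1_comm cent1_conj conj_mem_conj_iff
  orderOf_conj)
open scoped commutatorElement IsMulCommutative

universe u

attribute [local instance] Cit.factTwo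

variable {X : Type u} [Group X] [Finite X] {G A : Subgroup X}

theorem r2_prod (S : Set X) (hS : ∀ s ∈ S, ∀ t ∈ S, s * t = t * s) {t : X} (ht : t ∈ S) :
    ∃ p ∈ closure S, (∀ b : X, (∀ s ∈ S, b * s * b⁻¹ ∈ S) → b * p * b⁻¹ = p) ∧
      ∀ D : Subgroup X, (∀ s ∈ S, s ≠ t → s ∈ D) → t⁻¹ * p ∈ D := by
  classical
  have h3 : closure S ≤ 𝐂(closure S) := by
    rw [centralizer_closure, closure_le]
    exact fun s hs t ht => hS t ht s hs
  have : IsMulCommutative (closure S) := ⟨⟨fun a b => Subtype.ext (h3 b.2 a a.2)⟩⟩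
  have := Fintype.ofFinite S
  let ι : S → closure S := fun s => ⟨s, subset_closure s.2⟩
  refine ⟨(∏ s, ι s : closure S), SetLike.coe_mem _, fun b hbS => ?_, fun D hD => ?_⟩
  · have hb : b ∈ 𝐍(closure S) := mem_normalizer_fintype fun y hy => by
      have : closure S ≤ (closure S).comap (MulAut.conj b).toMonoidHom :=
        (closure_le _).2 fun s hs => subset_closure (hbS s hs)
      exact this hy
    let φ : closure S →* closure S := ((closure S).normalizerMonoidHom ⟨b, hb⟩).toMonoidHom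
    let σ : S → S := fun s => ⟨b * s * b⁻¹, hbS s s.2⟩
    have hσ : Function.Bijective σ := (Finite.injective_iff_bijective).1 fun x y e =>
      Subtype.ext (by simpa [σ] using e)
    have h1 : φ (∏ s, ι s) = ∏ s, ι s := by
      rw [map_prod]
      exact Fintype.prod_bijective σ hσ _ _ fun s => rfl
    exact congrArg Subtype.val h1
  · rw [← Finset.mul_prod_erase Finset.univ ι (Finset.mem_univ ⟨t, ht⟩)]
    have h1 : ∏ x ∈ Finset.univ.erase ⟨t, ht⟩, ι x ∈ D.subgroupOf (closure S) :=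
      Subgroup.prod_mem _ fun s hs => hD s s.2 fun e => (Finset.mem_erase.1 hs).1 (Subtype.ext e)
    rw [coe_mul]
    simpa [ι] using mem_subgroupOf.1 h1

omit [Finite X] in
theorem r2_nil {L : Subgroup X} (h : ⁅L, L⁆ ≤ 𝐂(L)) : Group.IsNilpotent L := by
  refine Subgroup.isNilpotent_of_ker_le_center (Abelianization.of (G := L)) (fun x hx => ?_)
  rw [Abelianization.ker_of] at hx
  have h1 : (x : X) ∈ ⁅L, L⁆ := by
    rw [← map_subtype_commutator]
    exact mem_map_of_mem _ hx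
  exact mem_center_iff.2 fun y => Subtype.ext (h h1 y y.2)

/-- The hypotheses pass to a subgroup commuting with its other conjugates. -/
theorem Hy.comp (h : Hy G A) {L : Subgroup X} (hL : L ≤ G)
    (cc : ∀ g ∈ A, ∀ k ∈ A, g •ᶜ L ≠ k •ᶜ L → g •ᶜ L ≤ 𝐂(k •ᶜ L)) : Hy L (A ⊓ 𝐍(L)) := by
  have hn : ∀ g ∈ A, ∀ k ∈ A, g •ᶜ L = k •ᶜ L → k⁻¹ * g ∈ A ⊓ 𝐍(L) := fun g hg k hk e =>
    ⟨A.mul_mem (A.inv_mem hk) hg, mem_norm_of_cj (by
      rw [← cj_cj, e, cj_cj, inv_mul_cancel]; exact cj_eq (one_mem _))⟩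
  have key : ∀ t ∈ L, t ∈ 𝐂((A ⊓ 𝐍(L) : Subgroup X)) → ∃ p ∈ closure {s | ∃ a ∈ A, s = a * t * a⁻¹},
      p ∈ 𝐂(A) ∧ t⁻¹ * p ∈ 𝐂(L) ∧ (t * t = 1 → p * p = 1) := fun t ht htc => by
    have h1 : ∀ g ∈ A, ∀ k ∈ A, g •ᶜ L = k •ᶜ L → g * t * g⁻¹ = k * t * k⁻¹ := fun g hg k hk e => by
      have := mem_cent.1 htc _ (hn g hg k hk e)
      calc g * t * g⁻¹ = k * (k⁻¹ * g * t) * g⁻¹ := by group
        _ = _ := by rw [this]; group
    have h2 : ∀ s ∈ {s | ∃ a ∈ A, s = a * t * a⁻¹}, ∀ s' ∈ {s | ∃ a ∈ A, s = a * t * a⁻¹},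
        s * s' = s' * s := by
      rintro _ ⟨g, hg, rfl⟩ _ ⟨k, hk, rfl⟩
      by_cases e : g •ᶜ L = k •ᶜ L
      · rw [h1 g hg k hk e]
      · exact (mem_cent.1 (cc g hg k hk e (cj_mem ht)) _ (cj_mem ht)).symm
    obtain ⟨p, hp, p1, p2⟩ := r2_prod _ h2 (t := t) ⟨1, one_mem _, by simp⟩
    refine ⟨p, hp, mem_cent.2 fun b hb => mul_inv_eq_iff_eq_mul.1 (p1 b ?_), p2 _ ?_,
      fun h3 => Msc.el_closure ?_ h2 p hp⟩
    · rintro _ ⟨a, ha, rfl⟩
      exact ⟨b * a, mul_mem hb ha, by group⟩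
    · rintro _ ⟨a, ha, rfl⟩ hne
      have := cc a ha 1 (one_mem _) (fun e => hne (by simpa using h1 a ha 1 (one_mem _) e))
        (cj_mem ht)
      rwa [cj_eq (one_mem _)] at this
    · rintro _ ⟨a, ha, rfl⟩
      exact Invol.conj_mul_self h3 a
  have hG : ∀ a ∈ A, a •ᶜ L ≤ G := fun a ha => cj_le_of_norm hL (h.norm ha)
  refine ⟨inf_le_right, (h.cop.coprime_dvd_right (card_dvd_of_le hL)).coprime_dvd_left
    (card_dvd_of_le inf_le_left), fun Q hQ hp hA t ht => ?_, fun t ht h1 h2 => ?_⟩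
  · obtain ⟨p, hp', p1, p2, -⟩ := key t (hQ ht.1) ht.2
    set K : Subgroup X := ⨆ a ∈ A, a •ᶜ Q with hK
    have k1 : ∀ a ∈ A, a •ᶜ Q ≤ K := fun a ha =>
      le_iSup₂_of_le (f := fun a (_ : a ∈ A) => a •ᶜ Q) a ha le_rfl
    have k2 : IsPGroup 2 K := by
      refine (H1.pCoreOf_isPGroup (p := 2) K).to_le (iSup₂_le fun a ha => ?_)
      refine H1.le_pCoreOf (k1 a ha) (iSup₂_le fun b hb => ?_) (hp.map _)
      by_cases e : b •ᶜ L = a •ᶜ L
      · have : b •ᶜ Q = a •ᶜ Q := by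
          conv_rhs => rw [← cj_eq (hA (hn b hb a ha e)), cj_cj, mul_inv_cancel_left]
        rw [this]; exact le_normalizer
      · exact ((map_mono hQ).trans (cc b hb a ha e)).trans
          ((cent_anti (map_mono hQ)).trans (centralizer_le_normalizer _))
    have k3 : A ≤ 𝐍(K) := fun b hb => mem_norm_of_cj_le (by
      rw [map_le_iff_le_comap]
      refine iSup₂_le fun a ha => ?_
      rw [← map_le_iff_le_comap, cj_cj]
      exact k1 _ (mul_mem hb ha))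
    have k4 : p ∈ K := by
      refine ((closure_le _).2 ?_ : Subgroup.closure _ ≤ K) hp'
      rintro _ ⟨a, ha, rfl⟩
      exact k1 a ha (cj_mem ht.1)
    have k5 := h.cq K (iSup₂_le fun a ha => (map_mono hQ).trans (hG a ha)) k2 k3 ⟨k4, p1⟩
    have k6 : Q ≤ K := by
      have := k1 1 (one_mem _)
      rwa [cj_eq (one_mem _)] at this
    have := mul_mem (cent_anti k6 k5) (inv_mem (cent_anti hQ p2))
    simpa using this
  · obtain ⟨p, hp', p1, p2, p3⟩ := key t ht h2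
    have k4 : p ∈ G := by
      refine ((closure_le _).2 ?_ : Subgroup.closure _ ≤ G) hp'
      rintro _ ⟨a, ha, rfl⟩
      exact hG a ha (cj_mem ht)
    have := mul_mem (cent_anti hL (h.ct p k4 (p3 h1) p1)) (inv_mem p2)
    simpa using this

theorem red2 [hG : G.Normal] (ih : ∀ m < Nat.card G, RdN.{u} m) (h : Hy G A) (_hs : G ⊔ A = ⊤)
    (hns : ¬ Group.IsSolvable G) (_hz : IsPGroup 2 (G ⊓ 𝐂(G) : Subgroup X))
    (hN : ∀ N : Subgroup X, N.Normal → N ≤ G → N ≠ G → N ≤ 𝐂(G)) :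
    ∀ L : Subgroup X, L ≤ G → G ≤ 𝐍(L) → L ≠ G → L ≤ 𝐂(G) := by
  intro L₀ a1 a2 a3
  by_contra a4
  obtain ⟨L, ⟨b1, b2, b3⟩, hL⟩ := (wellFounded_lt (α := Subgroup X)).has_min
    {L | L ≤ L₀ ∧ G ≤ 𝐍(L) ∧ ¬ L ≤ 𝐂(G)} ⟨L₀, le_rfl, a2, a4⟩
  have b4 := b1.trans a1
  have hLG : L ≠ G := fun e => a3 (le_antisymm a1 (e.ge.trans b1))
  have mL : ∀ Y ≤ L, G ≤ 𝐍(Y) → Y ≠ L → Y ≤ 𝐂(G) := fun Y c1 c2 c3 => by
    by_contra c4
    exact hL _ ⟨c1.trans b1, c2, c4⟩ (lt_of_le_of_ne c1 c3)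
  have hLL : ⁅L, L⁆ ≤ L := commutator_le.2 fun x hx y hy => by
    rw [commutatorElement_def]
    exact mul_mem (mul_mem (mul_mem hx hy) (inv_mem hx)) (inv_mem hy)
  have hperf : ⁅L, L⁆ = L := by
    by_contra e
    have h1 := r2_nil ((mL _ hLL (Cop.le_normalizer_commutator b2 b2) e).trans (cent_anti b4))
    refine b3 ((H1.le_fittingOf b4 b2 h1).trans (hN _ ?_ (H1.fittingOf_le _) fun e' => hns ?_))
    · rw [← normalizer_eq_top_iff, eq_top_iff]
      exact fun g _ => H1.normalizer_le_normalizer_fittingOf G (IG.mem_norm_of_normal hG g)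
    · have := H1.fittingOf_isNilpotent G
      rw [e'] at this
      infer_instance
  have hgN : ∀ g : X, g •ᶜ G = G := fun g => Cit.cj_eq (IG.mem_norm_of_normal hG g)
  have c1 : ∀ g : X, g •ᶜ L ≤ G := fun g => hgN g ▸ map_mono b4
  have c2 : ∀ g : X, G ≤ 𝐍(g •ᶜ L) := fun g => by
    rw [Cit.norm_cj, ← hgN g]
    exact map_mono b2
  have c0 : ∀ g : X, g •ᶜ L ≠ L → g •ᶜ L ≤ 𝐂(L) := fun g hj => by
    have c3 : L ⊓ g •ᶜ L ≤ 𝐂(G) := mL _ inf_le_left (H1.le_normalizer_inf b2 (c2 g)) fun c4 =>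
      hj (eq_of_le_of_card_ge (inf_eq_left.1 c4) (card_map_conj g L).le).symm
    have c4 : ⁅L, g •ᶜ L⁆ ≤ L ⊓ g •ᶜ L := commutator_le.2 fun x hx v hv => by
      rw [commutatorElement_def]
      exact ⟨by simpa [mul_assoc] using mul_mem hx (Cit.cmem (b2 (c1 g hv)) (inv_mem hx)),
        (g •ᶜ L).mul_mem (Cit.cmem (c2 g (b4 hx)) hv) (inv_mem hv)⟩
    have c5 : ⁅⁅L, g •ᶜ L⁆, L⁆ = ⊥ :=
      commutator_eq_bot_iff_le_centralizer.2 (c4.trans (c3.trans (cent_anti b4)))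
    have c6 := commutator_commutator_eq_bot_of_rotate c5 (by rwa [commutator_comm (g •ᶜ L)])
    rw [hperf, commutator_eq_bot_iff_le_centralizer] at c6
    exact lcc c6
  have cc : ∀ g k : X, g •ᶜ L ≠ k •ᶜ L → g •ᶜ L ≤ 𝐂(k •ᶜ L) := fun g k hj => by
    have := cj_cent (c0 (k⁻¹ * g) (fun e => hj (by
      conv_rhs => rw [← e, cj_cj, mul_inv_cancel_left]))) k
    rwa [cj_cj, mul_inv_cancel_left] at this
  have := ih _ (card_lt_card_of_lt (lt_of_le_of_ne b4 hLG)) X L _ rfl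
    (h.comp b4 fun g _ k _ => cc g k)
  have : Nontrivial L := (nontrivial_iff_ne_bot L).2 fun e => b3 (e ▸ bot_le)
  have hlt : ⁅L, L⁆ < L := by
    rw [← L.range_subtype, MonoidHom.range_eq_map, ← map_commutator, map_subtype_lt_map_subtype]
    exact Group.IsSolvable.commutator_lt_top_of_nontrivial L
  exact hlt.ne hperf

end CfsgLib.TZ
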