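import Cfsg.Agent.Lib.TZ.Red0
import Cfsg.Agent.Lib.TG.B5b
import Cfsg.Agent.Lib.H8FT
import Cfsg.Agent.Lib.CoprimeAut

/-! The central quotient of a minimal counterexample to `TZ.Thm`: the easy fields of `TC`. -/

set_option autoImplicit false

namespace CfsgLib.TZ

open Subgroup Cfsg CfsgLib.FT CfsgLib.FT.BGN CfsgLib.GW CfsgLib.Wal CfsgLib.TG
open scoped commutatorElement

universe u

attribute [local instance] Cit.factTwo

/-- The stabilizer of a subgroup in the automorphism group. -/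
def Stb {Y : Type*} [Group Y] (P : Subgroup Y) : Subgroup (MulAut Y) where
  carrier := {σ | σ •ᵃ P = P}
  one_mem' := map_id P
  mul_mem' := by
    intro a b ha hb
    have e : (a * b) •ᵃ P = a •ᵃ (b •ᵃ P) := by rw [map_map]; rfl
    change (a * b) •ᵃ P = P
    rw [e, hb, ha]
  inv_mem' := by
    intro a ha
    have e : (a⁻¹ * a) •ᵃ P = a⁻¹ •ᵃ (a •ᵃ P) := by rw [map_map]; rfl
    change a⁻¹ •ᵃ P = P
    conv_lhs => rw [← show a •ᵃ P = P from ha]
    rw [← e, inv_mul_cancel]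
    exact map_id P

/-- The three hard fields of `TC`. -/
def Cores {X : Type*} [Group X] (P : Subgroup X) (𝔄 : Subgroup (MulAut X)) : Prop :=
  (∀ Y H : Subgroup X, Y ≤ P → El Y → Inv 𝔄 Y → H ≤ 𝐍(Y) → Odd (Nat.card H) →
    ∀ v ∈ ⁅Y, H⁆, (∀ σ ∈ 𝔄, ∃ g ∈ 𝐍(Y), σ v = g * v * g⁻¹) → v = 1) ∧
  (∀ D : Subgroup X, D ≤ P → Inv 𝔄 D → ∀ p ∈ P, (∀ σ ∈ 𝔄, p⁻¹ * σ p ∈ D) →
    ∃ c ∈ P ⊓ 𝐂(P), p⁻¹ * c ∈ D) ∧
  (∀ (E : Subgroup X) (u v f e : X), E ≤ P → El E → Inv 𝔄 E → u ∈ E → v ∈ P →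
    f * u * f⁻¹ = v → f * v * f⁻¹ = u * v → u * v = v * u → e ∉ 𝐂[u] →
    (∀ σ ∈ 𝔄, σ u ≠ u → e ∈ 𝐂[σ u] ∧ u ∈ ⁅𝐂[σ u], 𝐂[σ u]⁆ ∧ v ∈ ⁅𝐂[σ u], 𝐂[σ u]⁆) → False)

theorem glue (h : NoTC.{u}) {Γ : Type u} [Group Γ] [Finite Γ] {𝔅 : Subgroup (MulAut Γ)}
    (hns : ¬ Group.IsSolvable Γ) (hL : ∀ L : Subgroup Γ, L.Normal → L ≠ ⊤ → L ≤ center Γ)
    (sol : ∀ H : Subgroup Γ, H ≠ ⊤ → Inv 𝔅 H → Group.IsSolvable H) {Ph : Subgroup Γ}
    (hP : IsSylowIn 2 Ph ⊤) (hI : Inv 𝔅 Ph)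
    (cores : ∀ 𝔄 : Subgroup (MulAut (Γ ⧸ center Γ)),
      (∀ β ∈ 𝔅, ∃ σ ∈ 𝔄, ∀ g, σ (QuotientGroup.mk' (center Γ) g) =
        QuotientGroup.mk' (center Γ) (β g)) →
      Cores (Ph.map (QuotientGroup.mk' (center Γ))) 𝔄) : False := by
  set π := QuotientGroup.mk' (center Γ) with hπ
  have hs : Function.Surjective π := QuotientGroup.mk'_surjective _
  have hk : π.ker = center Γ := QuotientGroup.ker_mk' _
  have hA : ∀ β ∈ 𝔅, ∃ σ ∈ Stb (Ph.map π), ∀ g, σ (π g) = π (β g) := fun β hβ => by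
    have e : (center Γ).map β.toMonoidHom = center Γ :=
      (characteristic_iff_map_eq.1 inferInstance) β
    refine ⟨QuotientGroup.congr _ _ β e, ?_, fun g => rfl⟩
    change _ = _
    conv_rhs => rw [← hI β hβ]
    rw [map_map, map_map]
    rfl
  obtain ⟨c1, c2, c3⟩ := cores _ hA
  have hZ : Group.IsSolvable (center Γ) :=
    Group.isSolvable_of_comm fun a b => Subtype.ext (mem_center_iff.1 b.2 a)
  have hq : ¬ Group.IsSolvable (Γ ⧸ center Γ) := fun hq => hns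
    (Group.isSolvable_of_ker_le_range (center Γ).subtype π (by rw [hk, range_subtype]))
  have : Nontrivial (Γ ⧸ center Γ) := by
    by_contra hn
    rw [not_nontrivial_iff_subsingleton] at hn
    exact hq inferInstance
  refine h _ (Ph.map π) (Stb (Ph.map π)) ⟨⟨fun H hH => ?_⟩,
    fun hc => hq (Group.isSolvable_of_comm hc.is_comm.comm), ?_, fun _ hσ => hσ,
    fun n hn => Cit.cj_eq hn, c1, c2, c3, fun H h1 h2 => ?_⟩
  · by_cases e : H.comap π = ⊤
    · exact Or.inr (comap_injective hs (e.trans (comap_top π).symm))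
    · refine Or.inl (eq_bot_iff.2 fun y hy => ?_)
      obtain ⟨g, rfl⟩ := hs y
      exact (QuotientGroup.eq_one_iff g).2 (hL _ (hH.comap π) e hy)
  · have := hP.map π
    rwa [← MonoidHom.range_eq_map, MonoidHom.range_eq_top.2 hs] at this
  · have := sol (H.comap π) (fun e => h1 (comap_injective hs (e.trans (comap_top π).symm)))
      fun β hβ => by
        refine eq_of_le_of_card_ge ?_ (card_map_of_injective β.injective).ge
        rintro _ ⟨g, hg, rfl⟩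
        obtain ⟨σ, hσ, e⟩ := hA β hβ
        change π (β g) ∈ H
        rw [← e]
        exact h2.b5mem hσ hg
    rw [← map_comap_eq_self_of_surjective hs H]
    exact Cop.solvable_map this π

variable {X : Type u} [Group X] [Finite X] {G A : Subgroup X}

theorem red3 (h : NoTC.{u}) [hG : G.Normal] (ih : ∀ m < Nat.card G, RdN.{u} m) (hy : Hy G A)
    (hns : ¬ Group.IsSolvable G) (hz : IsPGroup 2 (G ⊓ 𝐂(G) : Subgroup X))
    (hL : ∀ L : Subgroup X, L ≤ G → G ≤ 𝐍(L) → L ≠ G → L ≤ 𝐂(G))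
    (cores : ∀ (Γ Y : Type u) [Group Γ] [Finite Γ] [Group Y] [Finite Y] (π : Γ →* Y),
      Function.Surjective π → π.ker ≤ center Γ → ∀ 𝔅 : Subgroup (MulAut Γ),
      (Nat.card 𝔅).Coprime (Nat.card Γ) → Group.IsSolvable 𝔅 → ∀ Ph : Subgroup Γ,
      IsPGroup 2 Ph → Inv 𝔅 Ph → π.ker ≤ Ph → (∀ g ∈ Ph, (∀ β ∈ 𝔅, β g = g) → g ∈ 𝐂(Ph)) →
      (∀ t : Γ, t * t = 1 → (∀ β ∈ 𝔅, β t = t) → t ∈ center Γ) →
      ∀ 𝔄 : Subgroup (MulAut Y), (∀ β ∈ 𝔅, ∃ σ ∈ 𝔄, ∀ g, σ (π g) = π (β g)) →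
      Cores (Ph.map π) 𝔄) : False := by
  have hsA : Group.IsSolvable A := (H8FT.solvable_or_of_coprime hy.cop).resolve_right hns
  obtain ⟨P, hP0, hAP⟩ := Cop.exists_invariant_sylowOf 2 hy.norm hy.cop (Or.inl hsA)
  have hP : IsSylowIn 2 P G := Cop.isPiHallOf_singleton_iff.1 hP0
  have hinv : ∀ (n : X) (H : Subgroup G),
      (MulAut.conjNormal n : MulAut G) •ᵃ H = H ↔ n ∈ 𝐍(H.map G.subtype) := fun n H => by
    have e : ((MulAut.conjNormal n : MulAut G) •ᵃ H).map G.subtype = n •ᶜ H.map G.subtype := by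
      rw [map_map, map_map]; rfl
    refine ⟨fun e' => Cit.mem_norm (by rw [← e, e']), fun e' => ?_⟩
    exact map_injective G.subtype_injective (e.trans (Cit.cj_eq e'))
  have hPm : (P.subgroupOf G).map G.subtype = P := map_subgroupOf_eq_of_le hP.le
  have htop : (⊤ : Subgroup G).map G.subtype = G := by simp [← MonoidHom.range_eq_map]
  have hfix : ∀ g : G, (∀ β ∈ A.map (MulAut.conjNormal : X →* MulAut G), β g = g) →
      (g : X) ∈ 𝐂(A) := fun g hg a ha => by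
    have := congrArg Subtype.val (hg _ (mem_map_of_mem _ ha))
    rwa [MulAut.conjNormal_apply, mul_inv_eq_iff_eq_mul] at this
  have hcen : ∀ g : G, (g : X) ∈ 𝐂(G) → g ∈ center G := fun g hg =>
    mem_center_iff.2 fun y => Subtype.ext (hg y y.2)
  have hPs : IsSylowIn 2 (P.subgroupOf G) ⊤ := by simpa using hP.subgroupOf le_rfl
  have hI : Inv (A.map (MulAut.conjNormal : X →* MulAut G)) (P.subgroupOf G) := by
    rintro _ ⟨n, hn, rfl⟩
    exact (hinv n _).2 (hPm.symm ▸ hAP hn)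
  refine glue h (𝔅 := A.map MulAut.conjNormal) hns (fun L h1 h2 x hx => ?_) (fun H h1 h2 => ?_)
    hPs hI fun 𝔄 hA => cores G _ _ (QuotientGroup.mk'_surjective _) (QuotientGroup.ker_mk' _).le _
      (hy.cop.coprime_dvd_left (card_map_dvd _ _)) (Cop.solvable_map hsA _) _ hPs.isPGroup hI ?_
      (fun g hg hf y hy' => Subtype.ext
        (hy.cq P hP.le hP.isPGroup hAP ⟨hg, hfix g hf⟩ y hy'))
      (fun t h1 h2 => hcen t (hy.ct t t.2 (congrArg Subtype.val h1) (hfix t h2))) 𝔄 hA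
  · refine hcen x (hL (L.map G.subtype) (map_subtype_le L) (fun g hg => le_normalizer_map G.subtype
      ⟨⟨g, hg⟩, IG.mem_norm_of_normal h1 _, rfl⟩) (fun e => h2 ?_) (mem_map_of_mem _ hx))
    exact map_injective G.subtype_injective (e.trans htop.symm)
  · have h5 : H.map G.subtype < G := lt_of_le_of_ne (map_subtype_le H) fun e => h1
      (map_injective G.subtype_injective (e.trans htop.symm))
    have := ih _ (card_lt_card_of_lt h5) X _ A rfl
      (hy.sub h5.le fun a ha => (hinv a H).1 (h2 _ (mem_map_of_mem _ ha)))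
    exact Group.isSolvable_of_isSolvable_injective
      (f := (equivMapOfInjective H _ G.subtype_injective).toMonoidHom) (MulEquiv.injective _)
  · rw [QuotientGroup.ker_mk']
    intro x hx
    obtain ⟨g, hg, e⟩ := hP.exists_conj_le hz inf_le_left
    have h3 : (x : X) ∈ 𝐂(G) := fun y hy' => congrArg Subtype.val (mem_center_iff.1 hx ⟨y, hy'⟩)
    have := e (mem_map_of_mem _ (show (x : X) ∈ G ⊓ 𝐂(G) from ⟨x.2, h3⟩))
    change g * x * g⁻¹ ∈ P at this
    rwa [h3 g hg, mul_inv_cancel_right] at this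

end CfsgLib.TZ
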