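import Cfsg.Agent.Lib.TZ.Red0

/-! Passing to the ambient group `G A`. -/

set_option autoImplicit false

namespace CfsgLib.TZ

open Subgroup Cfsg CfsgLib.FT CfsgLib.FT.BGN CfsgLib.GW CfsgLib.Wal CfsgLib.TG

universe u

theorem Hy.subgroupOf {X : Type*} [Group X] [Finite X] {G A L : Subgroup X} (h : Hy G A)
    (h1 : G ≤ L) (h2 : A ≤ L) : Hy (G.subgroupOf L) (A.subgroupOf L) := by
  have cA : ∀ x : L, x ∈ 𝐂(A.subgroupOf L) → (x : X) ∈ 𝐂(A) := fun x hx a ha =>
    congrArg Subtype.val (hx ⟨a, h2 ha⟩ ha)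
  refine ⟨fun a ha => mem_normalizer_iff.2 fun x => mem_normalizer_iff.1 (h.norm ha) (x : X), ?_,
    fun Q b1 b2 b3 x hx y hy => Subtype.ext ?_, fun t ht b1 b2 y hy => Subtype.ext ?_⟩
  · rw [Nat.card_congr (subgroupOfEquivOfLe h1).toEquiv,
      Nat.card_congr (subgroupOfEquivOfLe h2).toEquiv]
    exact h.cop
  · refine h.cq (Q.map L.subtype) (map_le_iff_le_comap.2 b1) (b2.map _)
      (fun a ha => le_normalizer_map L.subtype ⟨⟨a, h2 ha⟩, b3 ha, rfl⟩)
      ⟨mem_map_of_mem _ hx.1, cA x hx.2⟩ y (mem_map_of_mem _ hy)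
  · exact h.ct t ht (congrArg Subtype.val b1) (cA t b2) y hy

theorem thm_of_step (step : ∀ (X : Type u) [Group X] [Finite X] (G A : Subgroup X) [G.Normal],
    (∀ m < Nat.card G, RdN.{u} m) → Hy G A → G ⊔ A = ⊤ → Group.IsSolvable G) : Thm.{u} := by
  have key : ∀ n, RdN.{u} n := fun n => by
    induction n using Nat.strong_induction_on with
    | _ n ih =>
    intro X _ _ G A hn hy
    have h1 : G ≤ G ⊔ A := le_sup_left
    have e := subgroupOfEquivOfLe h1
    have h3 := Nat.card_congr e.toEquiv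
    have hG : (G.subgroupOf (G ⊔ A)).Normal :=
      normal_subgroupOf_of_le_normalizer (sup_le le_normalizer hy.norm)
    have h4 : G.subgroupOf (G ⊔ A) ⊔ A.subgroupOf (G ⊔ A) = ⊤ := by
      rw [← subgroupOf_sup le_sup_left le_sup_right, subgroupOf_self]
    have := step _ _ _ (by rwa [h3, hn]) (hy.subgroupOf h1 le_sup_right) h4
    exact Group.isSolvable_of_isSolvable_injective (f := e.symm.toMonoidHom) e.symm.injective
  intro X _ _ G A h1 h2 h3 h4
  exact key _ X G A rfl ⟨h1, h2, h3, h4⟩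

end CfsgLib.TZ
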