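import Cfsg.Agent.Lib.TG.Up
import Cfsg.Agent.Lib.TZ.Defs

set_option autoImplicit false
set_option linter.unusedSectionVars false
set_option linter.unusedVariables false

namespace CfsgLib.TZ

open Subgroup Cfsg CfsgLib.FT CfsgLib.FT.BGN CfsgLib.GW CfsgLib.Wal CfsgLib.TG
open CfsgLib.FT.U4 (mem_cent1 mem_cent1' mem_cent mem_cent1_comm cent1_conj conj_mem_conj_iff
  orderOf_conj)
open scoped commutatorElement

variable {X : Type*} [Group X] [Finite X] {P T : Subgroup X} {𝔄 : Subgroup (MulAut X)}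

namespace Up

open CfsgLib.TG.Up

theorem le_norm (h : TC P 𝔄) {H : Subgroup X} (hH : Inv 𝔄 H) : P ≤ 𝐍(H) := fun n hn =>
  mem_norm_of_cj (by rw [← am_conj]; exact hH _ (h.inn n (le_normalizer hn)))

theorem fam_P (h : TC P 𝔄) : Fam P 𝔄 P := by
  have hs := h.simple
  refine ⟨le_rfl, h.inv, Om_ne_bot h.syl.isPGroup (h.syl.ne_bot ?_),
    h.syl.mono (le_cent_Om P) le_top, fun Q h1 h2 h3 h4 => ?_⟩
  · rw [card_top]
    by_contra h2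
    have h3 : Group.IsSolvable X := feit_thompson (Nat.odd_iff.2 (Nat.two_dvd_ne_zero.1 h2))
    exact h.nonab ⟨⟨IsSimpleGroup.comm_iff_isSolvable.2 h3⟩⟩
  · refine (dec h.syl h1 (h2.trans (Cop.normalizer_le_normalizer_centralizer _))
      ((le_norm h (inv_Om h.inv)).trans h3) h4).trans
      (sup_le (inf_le_left.trans (le_cent_Om P)) le_rfl)

theorem step (h : TC P 𝔄) (hT : Fam P 𝔄 T) {D : Subgroup X} (hD : D ≤ P) (hI : Inv 𝔄 D)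
    (hN : 𝐍(T) ≤ 𝐍(D)) (hY : Om T ≤ Om D) :
    ∃ S, Fam P 𝔄 S ∧ S ≤ T ∧ VL T 𝐍(D) ≤ Om S := by
  obtain ⟨U, hU⟩ : ∃ U, U = VL T 𝐍(D) := ⟨_, rfl⟩
  have hle : ∀ g ∈ 𝐍(D), g •ᶜ Om T ≤ U := fun g hg =>
    hU ▸ le_iSup₂_of_le (f := fun l (_ : l ∈ 𝐍(D)) => l •ᶜ Om T) g hg le_rfl
  have hsup : ∀ K : Subgroup X, (∀ g ∈ 𝐍(D), g •ᶜ Om T ≤ K) → U ≤ K := fun K hK =>
    hU ▸ iSup₂_le hK
  have hUD : U ≤ Om D := hsup _ fun g hg => by
    rw [← cj_eq (norm_le_norm_Om D hg)]; exact map_mono hY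
  have hYU : Om T ≤ U := by rw [← cj_eq (one_mem 𝐍(Om T))]; exact hle 1 (one_mem _)
  have hIU : Inv 𝔄 U := inv_of_le fun σ hσ => by
    rw [map_le_iff_le_comap]
    refine hsup _ fun g hg => ?_
    rw [← map_le_iff_le_comap, am_cj, inv_Om hT.inv σ hσ]
    exact hle _ (by rw [← inv_norm hI σ hσ]; exact am_mem.2 hg)
  have hHU : 𝐍(D) ≤ 𝐍(U) := fun n hn => mem_norm_of_cj_le (by
    rw [map_le_iff_le_comap]
    refine hsup _ fun g hg => ?_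
    rw [← map_le_iff_le_comap, ← map_conj_mul]
    exact hle _ (mul_mem hn hg))
  have hPH : P ≤ 𝐍(D) := le_norm h hI
  have hIS : Inv 𝔄 (P ⊓ 𝐂(U)) := inv_inf h.inv (inv_cent hIU)
  have hS : IsSylowIn 2 (P ⊓ 𝐂(U)) 𝐂(U) :=
    h.syl.inf_of_le_normalizer le_top (le_norm h (inv_cent hIU))
  have hUel : El U := (Om_el D).mono hUD
  have hUS : U ≤ Om (P ⊓ 𝐂(U)) := fun y hy =>
    ⟨⟨hD (Om_le D (hUD hy)), hUel.le_cent hy⟩, lcc inf_le_right hy, hUel y hy⟩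
  have hCU : 𝐂(Om (P ⊓ 𝐂(U))) ≤ 𝐂(U) := cent_anti hUS
  have hCY : 𝐂(U) ≤ 𝐂(Om T) := cent_anti hYU
  have hPT : P ⊓ 𝐂(Om T) = T :=
    hT.syl.eq_of_le h.syl.isPGroup.to_inf_left (le_inf hT.le (le_cent_Om T)) inf_le_right
  refine ⟨P ⊓ 𝐂(U), ⟨inf_le_left, hIS, fun h0 => hT.ne (le_bot_iff.1 (h0 ▸ hYU.trans hUS)),
    hS.mono (le_cent_Om _) hCU, fun Q h1 h2 h3 h4 => ?_⟩, hPT ▸ inf_le_inf_left _ hCY, hU ▸ hUS⟩
  have hPY' : P ≤ 𝐍(Om (P ⊓ 𝐂(U))) := le_norm h (inv_Om hIS)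
  have hQ := dec h.syl h1 (h2.trans (Cop.normalizer_le_normalizer_centralizer _))
    (hPY'.trans h3) h4
  refine hQ.trans (sup_le ?_ le_rfl)
  obtain ⟨K, hK⟩ : ∃ K, K = (P ⊓ Q) ⊔ (𝐍(D) ⊓ 𝐂(U)) := ⟨_, rfl⟩
  have hCUn : 𝐍(D) ≤ 𝐍(𝐍(D) ⊓ 𝐂(U)) :=
    H1.le_normalizer_inf le_normalizer (hHU.trans (Cop.normalizer_le_normalizer_centralizer _))
  have hHK : 𝐍(D) ≤ 𝐍(K) := by
    intro g hg
    obtain ⟨k, hk, hkg⟩ := (hS.mono (le_inf (inf_le_left.trans hPH) inf_le_right)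
      inf_le_right).frattini_elem (hCUn hg)
    have hn : k * g ∈ 𝐍(D) := mul_mem hk.1 hg
    have h5 : k * g ∈ 𝐍(K) := by
      refine mem_norm_of_cj_le ?_
      rw [hK, U4.conj_sup, cj_eq (hCUn hn)]
      refine sup_le ?_ le_sup_right
      rintro _ ⟨y, hy, rfl⟩
      have h6 : k * g * y * (k * g)⁻¹ ∈ Q := norm_mem (h3 (norm_le_norm_Om _ hkg)) hy.2
      have h7 : k * g * y * (k * g)⁻¹ ∈ 𝐍(D) := mul_mem (mul_mem hn (hPH hy.1)) (inv_mem hn)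
      obtain ⟨q, hq, c, hc, e⟩ := (mem_sup_iff_of_le_normalizer (inf_le_left.trans
        (hPY'.trans (Cop.normalizer_le_normalizer_centralizer _)))).1 (hQ h6)
      change k * g * y * (k * g)⁻¹ ∈ _
      rw [← e] at h7 ⊢
      exact mul_mem (mem_sup_left hq)
        (mem_sup_right ⟨(mul_mem_cancel_left (hPH hq.1)).1 h7, hCU hc⟩)
    exact (mul_mem_cancel_left (le_normalizer (hK ▸ mem_sup_right hk))).1 h5
  have hPY : P ≤ 𝐍(Om T) := le_norm h (inv_Om hT.inv)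
  have hKY : K ≤ (P ⊓ Q) ⊔ 𝐂(Om T) := hK ▸ sup_le_sup_left (inf_le_right.trans hCY) _
  have hQY : (P ⊓ Q) ⊔ 𝐂(Om T) ≤ 𝐂(Om T) := by
    refine hT.red _ le_sup_right (sup_le (inf_le_left.trans hPY) (U4.cent_le_norm _))
      (fun g hg => ?_) fun x hx => ?_
    · obtain ⟨k, hk, hkg⟩ := hT.syl.frattini_elem (Cop.normalizer_le_normalizer_centralizer _ hg)
      have h5 : k * g ∈ 𝐍((P ⊓ Q) ⊔ 𝐂(Om T)) := by
        refine mem_norm_of_cj_le ?_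
        rw [U4.conj_sup,
          cj_eq (Cop.normalizer_le_normalizer_centralizer _ (norm_le_norm_Om _ hkg))]
        refine sup_le (le_trans ?_ hKY) le_sup_right
        rw [← cj_eq (hHK (hN hkg))]
        exact map_mono (hK ▸ le_sup_left)
      exact (mul_mem_cancel_left (le_normalizer (mem_sup_right hk))).1 h5
    · have h5 : P ⊓ Q ≤ 𝐍(𝐂(Om T)) :=
        inf_le_left.trans (hPY.trans (Cop.normalizer_le_normalizer_centralizer _))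
      obtain ⟨q, hq, c, hc, rfl⟩ := (mem_sup_iff_of_le_normalizer h5).1 hx
      obtain ⟨k, hk⟩ := h.syl.isPGroup ⟨q, hq.1⟩
      have h6 : q ^ 2 ^ k = 1 := congrArg Subtype.val hk
      exact ⟨k, by simpa [h6] using pow_mem_of (h5 hq) hc (2 ^ k)⟩
  have hKU : U ≤ 𝐂(K) := hsup _ fun g hg => by
    rw [← cj_eq (hHK hg)]
    exact cj_cent (lcc (hKY.trans hQY)) g
  exact (le_inf inf_le_left ((hK ▸ le_sup_left : P ⊓ Q ≤ K).trans (lcc hKU))).trans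
    (le_cent_Om _)

end Up

theorem TC.exists_TS (h : TC P 𝔄) : ∃ T, TS P 𝔄 T := by
  obtain ⟨T, hT, hmin⟩ := Set.Finite.exists_minimalFor (fun T : Subgroup X => T)
    {T | TG.Up.Fam P 𝔄 T} (Set.toFinite _) ⟨P, Up.fam_P h⟩
  refine ⟨T, hT.le, hT.inv, hT.ne, hT.syl, hT.red, fun D h1 h2 h3 h4 g hg => ?_⟩
  obtain ⟨S, hS, hST, hU⟩ := Up.step h hT h1 h2 h3 h4
  have h5 : S = T := le_antisymm hST (hmin hS hST)
  rw [h5] at hU
  exact mem_norm_of_cj_le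
    ((le_iSup₂_of_le (f := fun l (_ : l ∈ 𝐍(D)) => l •ᶜ Om T) g hg le_rfl).trans hU)

end CfsgLib.TZ
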